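import Mathlib
import Cfsg.Prelude.Def_LieClassical
import Cfsg.Prelude.Def_Classical

/-! Project SW (S3694): definitions and piece statements. -/

set_option autoImplicit false
set_option linter.unusedVariables false
open Matrix Cfsg
open scoped commutatorElement

namespace Cfsg.Agent.H58.SW

universe u

abbrev Mt (n : ℕ) (F : Type) := Matrix (Fin n) (Fin n) F
abbrev Gl (n : ℕ) (F : Type) [Field F] := GL (Fin n) F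
abbrev Au (n : ℕ) (F : Type) [Field F] := MulAut (GL (Fin n) F)
abbrev Vc (n : ℕ) (F : Type) := Fin n → F

/-- linear (`u = false`, `|F| = q`) or unitary (`u = true`, `|F| = q²`) datum -/
structure Cl (F : Type) [Field F] [Fintype F] (n : ℕ) where
  u : Bool
  q : ℕ
  p : ℕ
  hp : p.Prime
  chr : CharP F p
  hq : Fintype.card F = if u = true then q ^ 2 else q
  hn : 2 ≤ n
  hn2 : n = 2 → u = false ∧ 4 ≤ q
  hu : u = true → ¬ (n = 3 ∧ q = 2)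

/-- data of a semilinear (anti)automorphism of the matrix ring -/
structure Tau (F : Type) [Field F] (n : ℕ) where
  σ : F ≃+* F
  neg : Bool
  A : Gl n F

section
variable {F : Type} [Field F] [Fintype F] [DecidableEq F] {n : ℕ}

/-- conjugate transpose (meaningful for `u = true`) -/
def Cl.st (c : Cl F n) (x : Mt n F) : Mt n F := (x.map (fun a => a ^ c.q))ᵀ
/-- entrywise `q`-th power of a vector -/
def Cl.bar (c : Cl F n) (v : Vc n F) : Vc n F := fun i => v i ^ c.q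
/-- the Hermitian form -/
def Cl.hf (c : Cl F n) (v w : Vc n F) : F := hermForm n F c.q v w
/-- `GL` or `GU` -/
def Cl.St (c : Cl F n) : Subgroup (Gl n F) := if c.u = true then GU n F c.q else ⊤
/-- `SL` or `SU` -/
def Cl.S (c : Cl F n) : Subgroup (Gl n F) := c.St ⊓ (Matrix.GeneralLinearGroup.det : Gl n F →* Fˣ).ker
/-- the scalars in `St` -/
def Cl.Z (c : Cl F n) : Subgroup (Gl n F) := c.St ⊓ Subgroup.center (Gl n F)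
/-- scalars allowed in `Z` -/
def Cl.ZV (c : Cl F n) (a : F) : Prop := a ≠ 0 ∧ (c.u = true → a ^ (c.q + 1) = 1)
/-- `|Z|` -/
def Cl.zc (c : Cl F n) : ℕ := if c.u = true then c.q + 1 else c.q - 1
/-- bound for the index of the inner-diagonal part -/
noncomputable def Cl.outB (c : Cl F n) : ℕ := (if c.u = true then 1 else 2) * Nat.card (F ≃+* F)
/-- order of the block group of size `m` -/
noncomputable def Cl.gord (c : Cl F n) (m : ℕ) : ℕ :=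
  Nat.card {x : GL (Fin m) F // c.u = true →
    ((x : Matrix (Fin m) (Fin m) F).map (fun a => a ^ c.q))ᵀ * (x : Matrix (Fin m) (Fin m) F) = 1}

def Tau.ap (t : Tau F n) (x : Mt n F) : Mt n F :=
  (t.A : Mt n F) * (if t.neg = true then (x.map t.σ)ᵀ else x.map t.σ) * ((t.A⁻¹ : Gl n F) : Mt n F)
/-- image of a vector -/
def Tau.av (t : Tau F n) (v : Vc n F) : Vc n F := (t.A : Mt n F) *ᵥ (fun i => t.σ (v i))
/-- the dual subspace (used for `neg = true`) -/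
def Tau.du (t : Tau F n) (W : Submodule F (Vc n F)) : Submodule F (Vc n F) where
  carrier := {v | ∀ w ∈ W, (fun i => t.σ (w i)) ⬝ᵥ (((t.A⁻¹ : Gl n F) : Mt n F) *ᵥ v) = 0}
  add_mem' := by
    intro a b ha hb w hw
    rw [Matrix.mulVec_add, dotProduct_add, ha w hw, hb w hw, add_zero]
  zero_mem' := by intro w hw; simp
  smul_mem' := by
    intro a v hv w hw
    rw [Matrix.mulVec_smul, dotProduct_smul, hv w hw, smul_zero]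

/-- `t` induces the automorphism `ψ` of `GL` -/
def Cl.Ind (c : Cl F n) (t : Tau F n) (ψ : Au n F) : Prop :=
  t.A ∈ c.St ∧ (t.neg = true → c.u = false ∧ 3 ≤ n) ∧
    ∀ x : Gl n F, ((ψ x : Gl n F) : Mt n F) = t.ap (((if t.neg = true then x⁻¹ else x) : Gl n F) : Mt n F)
def Cl.Std (c : Cl F n) (ψ : Au n F) : Prop := ∃ t, c.Ind t ψ
def Cl.hat (c : Cl F n) (X : Subgroup (Au n F)) : Subgroup (Gl n F) :=
  c.St ⊓ X.comap (MulAut.conj : Gl n F →* MulAut (Gl n F))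
def InvG (H : Subgroup (Au n F)) (Y : Subgroup (Gl n F)) : Prop := ∀ ψ ∈ H, ∀ y ∈ Y, ψ y ∈ Y
def Cl.InvM (c : Cl F n) (H : Subgroup (Au n F)) (T : Set (Mt n F)) : Prop :=
  ∀ ψ ∈ H, ∀ t, c.Ind t ψ → ∀ x ∈ T, t.ap x ∈ T
def spanG (A : Subgroup (Gl n F)) : Submodule F (Mt n F) :=
  Submodule.span F ((fun x : Gl n F => (x : Mt n F)) '' (A : Set (Gl n F)))
def Scal (x : Mt n F) : Prop := ∃ a : F, x = a • (1 : Mt n F)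
def Unip (x : Gl n F) : Prop := IsNilpotent ((x : Mt n F) - 1)
def Stab (x : Gl n F) (W : Submodule F (Vc n F)) : Prop := ∀ v ∈ W, (x : Mt n F) *ᵥ v ∈ W
def cj (s : Gl n F) (x : Mt n F) : Mt n F := (s : Mt n F) * x * ((s⁻¹ : Gl n F) : Mt n F)
def Small (H : Subgroup (Au n F)) : Prop := Nat.card H ≤ 31104
def Ab (A : Subgroup (Gl n F)) : Prop := ∀ x ∈ A, ∀ y ∈ A, Commute x y
/-- diagonal idempotent -/
def dg (β : Fin n → Mt n F) (e : Mt n F) : Mt n F := Matrix.diagonal (fun i => if β i = e then 1 else 0)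

/-- the local data of a point stabiliser -/
structure Loc (c : Cl F n) (r : ℕ) (H : Subgroup (Au n F)) (Q : Subgroup (Gl n F)) : Prop where
  prime : r.Prime
  std : ∀ ψ ∈ H, c.Std ψ
  zq : c.Z ≤ Q
  qh : Q ≤ c.hat H
  inv : InvG H Q
  rgrp : ∀ x ∈ Q, ∃ k : ℕ, x ^ (r ^ k) ∈ c.Z
  maxP : ∀ Y : Subgroup (Gl n F), Y ≤ c.S → InvG H Y → ¬ (c.S ≤ Y ⊔ c.Z) → Y ≤ c.hat H
  chr : ∀ Y : Subgroup (Gl n F), Y ≤ c.hat H → InvG H Y → ∀ t ∈ Y,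
    (∀ x ∈ Q ⊓ (Y ⊔ c.Z), ⁅t, x⁆ ∈ c.Z) → t ∈ Q

structure CaseA (c : Cl F n) (H : Subgroup (Au n F)) (Q : Subgroup (Gl n F)) (s : Gl n F)
    (X : Subgroup (Gl n F)) : Prop where
  sS : s ∈ c.S
  sH : s ∉ c.hat H
  zx : c.Z < X
  xq : X ≤ Q
  inv : InvG H X
  cq : ∀ x ∈ X, s * x * s⁻¹ ∈ Q
  w : ∀ ψ ∈ H, ∀ x ∈ X, s⁻¹ * ψ (s * x * s⁻¹) * s ∈ c.hat H

structure Del (c : Cl F n) (r : ℕ) (H : Subgroup (Au n F)) (δ : Au n F) : Prop where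
  dH : δ ∈ H
  dr : δ ^ r = 1
  dI : ∀ a ∈ c.St, δ ≠ MulAut.conj a
  cen : ∀ a ∈ c.hat H, δ a * a⁻¹ ∈ c.Z
  fix : ∀ s ∈ c.S, δ s * s⁻¹ ∈ c.Z → s ∈ c.hat H

structure CaseE (c : Cl F n) (r d : ℕ) (H : Subgroup (Au n F)) (Q : Subgroup (Gl n F)) (δ : Au n F)
    (E : Subgroup (Gl n F)) : Prop where
  del : Del c r H δ
  ze : c.Z ≤ E
  eq : E ≤ Q
  inv : InvG H E
  ab : ∀ x ∈ E, ∀ y ∈ E, ⁅x, y⁆ ∈ c.Z
  pw : ∀ x ∈ E, x ^ r ∈ c.Z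
  lo : r < c.Z.relIndex E
  hi : c.Z.relIndex E ≤ r ^ d
  bd : Nat.card H ≤ d.factorial * {ψ : Au n F | ψ ∈ H ∧ ∀ x ∈ E, ψ x * x⁻¹ ∈ c.Z}.ncard

/-- minimal invariant subgroup above `Z` inside `Q` -/
structure MinQ (c : Cl F n) (r : ℕ) (H : Subgroup (Au n F)) (Q A : Subgroup (Gl n F)) : Prop where
  zlt : c.Z < A
  le : A ≤ Q
  inv : InvG H A
  min : ∀ B : Subgroup (Gl n F), c.Z < B → B ≤ A → InvG H B → B = A
  pw : ∀ x ∈ A, x ^ r ∈ c.Z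
  cen : ∀ x ∈ A, ∀ g ∈ Q, ⁅g, x⁆ ∈ c.Z

/-- nondegenerate (extraspecial type) subgroup -/
structure Ndg (c : Cl F n) (r : ℕ) (A : Subgroup (Gl n F)) : Prop where
  zlt : c.Z < A
  le : A ≤ c.St
  cm : ∀ x ∈ A, ∀ y ∈ A, ⁅x, y⁆ ∈ c.Z
  pw : ∀ x ∈ A, x ^ r ∈ c.Z
  nd : ∀ x ∈ A, x ∉ c.Z → ∃ y ∈ A, ¬ Commute x y

/-- complete orthogonal family of nonzero idempotents -/
structure Fam (E : Finset (Mt n F)) : Prop where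
  idem : ∀ e ∈ E, e * e = e
  ne0 : ∀ e ∈ E, e ≠ 0
  orth : ∀ e ∈ E, ∀ f ∈ E, e ≠ f → e * f = 0
  sum : ∑ e ∈ E, e = 1
def Cl.SF (c : Cl F n) (E : Finset (Mt n F)) : Prop := c.u = true → ∀ e ∈ E, c.st e = e
/-- invariant self-adjoint family with at least two members -/
structure Blk (c : Cl F n) (H : Subgroup (Au n F)) (E : Finset (Mt n F)) : Prop where
  fam : Fam E
  sf : c.SF E
  inv : c.InvM H (E : Set (Mt n F))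
  two : 2 ≤ E.card
structure DBlk (c : Cl F n) (H : Subgroup (Au n F)) (A : Subgroup (Gl n F)) (E : Finset (Mt n F))
    (m : ℕ) : Prop where
  blk : Blk c H E
  rk : ∀ e ∈ E, e.rank = m
  sp : spanG A = Submodule.span F (E : Set (Mt n F))
/-- primitive idempotents of `spanG A` -/
structure Prim (A : Subgroup (Gl n F)) (E : Finset (Mt n F)) : Prop where
  fam : Fam E
  mem : ∀ e ∈ E, e ∈ spanG A
  fld : ∀ e ∈ E, ∀ b ∈ spanG A, e * b = 0 ∨ ∃ b' ∈ spanG A, e * b * b' = e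
  chz : ∀ e, e ∈ E ↔ (e ∈ spanG A ∧ e * e = e ∧ e ≠ 0 ∧
    ∀ f ∈ spanG A, f * f = f → f * e = f → f = 0 ∨ f = e)
def IsFld (A : Subgroup (Gl n F)) : Prop := ∀ b ∈ spanG A, b = 0 ∨ ∃ b' ∈ spanG A, b * b' = 1
def SelfC (A : Subgroup (Gl n F)) : Prop :=
  ∀ x : Mt n F, (∀ a ∈ A, Commute x (a : Mt n F)) → x ∈ spanG A
/-- the non-commuting element -/
structure NC (c : Cl F n) (r : ℕ) (H : Subgroup (Au n F)) (Q A : Subgroup (Gl n F)) (x : Gl n F) :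
    Prop where
  mem : x ∈ Q
  pw : x ^ r ∈ c.Z
  nc : ∃ a ∈ A, ¬ Commute x a
  w : ∀ y ∈ c.hat H, Commute x ⁅x, y * x * y⁻¹⁆
/-- data of two different commuting block systems -/
structure CD (c : Cl F n) (H : Subgroup (Au n F)) (Q : Subgroup (Gl n F)) (E : Finset (Mt n F))
    (s x : Gl n F) (lam : Mt n F → F) (e e1 e2 : Mt n F) : Prop where
  sS : s ∈ c.St
  xq : x ∈ Q
  xe : (x : Mt n F) = ∑ f ∈ E, lam f • cj s f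
  zv : ∀ f ∈ E, c.ZV (lam f)
  cm : ∀ f ∈ E, ∀ g ∈ E, Commute f (cj s g)
  he : e ∈ E
  h1 : e1 ∈ E
  h2 : e2 ∈ E
  n1 : e * cj s e1 ≠ 0
  n2 : e * cj s e2 ≠ 0
  ne : lam e1 ≠ lam e2
  z : ∀ y ∈ c.hat H, ∃ mu : Mt n F → F,
    ((⁅x, y * x * y⁻¹⁆ : Gl n F) : Mt n F) = ∑ f ∈ E, mu f • cj s f
def Good (c : Cl F n) (r : ℕ) (z : Gl n F) : Prop :=
  z ∈ c.St ∧ ((z ^ r : Gl n F) : Mt n F) = (if r = 2 ∧ ¬ 4 ∣ c.zc then -1 else 1) ∧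
    ∃ y ∈ c.St, ⁅y, z⁆ ∈ c.Z ∧ ¬ Commute y z
def UEl (c : Cl F n) (r : ℕ) (z v : Gl n F) : Prop :=
  v ∈ c.St ∧ ∀ g ∈ c.St, ⁅g, z⁆ ∈ c.Z → ∃ k : ℕ, ∃ m ∈ c.Z, v * g * v⁻¹ = m * z ^ k * g ∧
    (¬ Commute g z → ¬ r ∣ k)
structure Flag (c : Cl F n) (H : Subgroup (Au n F)) (Y Y' : Submodule F (Vc n F)) : Prop where
  nb : Y ≠ ⊥
  nt : Y' ≠ ⊤
  le : Y ≤ Y'
  st : ∀ a ∈ c.hat H, Stab a Y ∧ Stab a Y'
  mem : ∀ s ∈ c.S, Stab s Y → Stab s Y' → s ∈ c.hat H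
  uni : c.u = true → ∀ v, v ∈ Y' ↔ ∀ w ∈ Y, c.hf v w = 0
  lin : c.u = false → Y = Y' ∨ ∃ ψ ∈ H, ∃ t, c.Ind t ψ ∧ t.neg = true ∧ t.du Y = Y' ∧ t.du Y' = Y
/-- `x` is trivial on the factors of the flag -/
def Tri (x : Gl n F) (Y Y' : Submodule F (Vc n F)) : Prop :=
  (∀ v ∈ Y, (x : Mt n F) *ᵥ v = v) ∧ (∀ v ∈ Y', (x : Mt n F) *ᵥ v - v ∈ Y) ∧
    ∀ v, (x : Mt n F) *ᵥ v - v ∈ Y'
def Cen (x : Gl n F) (Y Y' : Submodule F (Vc n F)) : Prop :=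
  (∀ v ∈ Y', (x : Mt n F) *ᵥ v = v) ∧ ∀ v, (x : Mt n F) *ᵥ v - v ∈ Y
end

/-- Thompson-Wielandt data in an abstract group -/
structure TW {G : Type u} [Group G] (N : Subgroup G) (r d : ℕ) (Ha Hb D T R : Subgroup G) (g : G) :
    Prop where
  prime : r.Prime
  rd : r < d
  gN : g ∈ N
  conj : ∀ x, x ∈ Ha ↔ g⁻¹ * x * g ∈ Hb
  ne : Ha ≠ Hb
  max : IsCoatom Hb
  core : ∀ K : Subgroup G, K.Normal → K ≤ Hb → K = ⊥
  idx : (Ha ⊓ Hb).relIndex Hb = d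
  Dne : D ≠ ⊥
  DT : D ≤ T
  DR : D ≤ R
  DN : ∀ h ∈ Ha, ∀ x ∈ D, h * x * h⁻¹ ∈ D
  DR' : ∀ x ∈ D, g⁻¹ * x * g ∈ R
  TH : T ≤ Ha ⊓ Hb
  TN : ∀ h ∈ Hb, ∀ x ∈ T, h * x * h⁻¹ ∈ T
  Tidx : T.relIndex Hb ≤ d.factorial
  RH : R ≤ Hb
  RN : ∀ h ∈ Hb, ∀ x ∈ R, h * x * h⁻¹ ∈ R
  Rp : IsPGroup r R
  chr : ∀ Y : Subgroup G, Y ≤ Hb → (∀ h ∈ Hb, ∀ y ∈ Y, h * y * h⁻¹ ∈ Y) → ∀ t ∈ Y,
    (∀ x ∈ R ⊓ Y, Commute t x) → t ∈ R

/-- the matrix model of an almost simple group -/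
structure Mod {G : Type u} [Group G] (N : Subgroup G) {F : Type} [Field F] [Fintype F] [DecidableEq F]
    {n : ℕ} (c : Cl F n) (φ : G →* Au n F) : Prop where
  inj : Function.Injective φ
  std : ∀ g, c.Std (φ g)
  map : N.map φ = c.S.map (MulAut.conj : Gl n F →* MulAut (Gl n F))


section
variable {F : Type} [Field F] [Fintype F] [DecidableEq F] {n : ℕ}

structure KA (c : Cl F n) : Prop where
  qp : ∃ f : ℕ, 0 < f ∧ c.q = c.p ^ f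
  two_le : 2 ≤ c.q
  mem_St : ∀ x : Gl n F, x ∈ c.St ↔ (c.u = true → c.st x * (x : Mt n F) = 1)
  mem_S : ∀ x : Gl n F, x ∈ c.S ↔ x ∈ c.St ∧ (x : Mt n F).det = 1
  mem_Z : ∀ x : Gl n F, x ∈ c.Z ↔ ∃ a, c.ZV a ∧ (x : Mt n F) = a • (1 : Mt n F)
  ex_Z : ∀ a, c.ZV a → ∃ z ∈ c.Z, (z : Mt n F) = a • (1 : Mt n F)
  card_Z : Nat.card c.Z = c.zc
  card_ZV : Nat.card {a : F // c.ZV a} = c.zc
  cyc : IsCyclic c.Z
  zcomm : ∀ z ∈ c.Z, ∀ x : Gl n F, Commute z x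
  conj_one : ∀ a ∈ c.St, ((MulAut.conj a : Au n F) = 1 ↔ a ∈ c.Z)
  z_hat : ∀ H, c.Z ≤ c.hat H
  mem_hat : ∀ H a, a ∈ c.hat H ↔ a ∈ c.St ∧ (MulAut.conj a : Au n F) ∈ H
  det_zv : ∀ x ∈ c.St, c.ZV (x : Mt n F).det
  pz : ¬ c.p ∣ c.zc
  fr_add : c.u = true → ∀ a b : F, (a + b) ^ c.q = a ^ c.q + b ^ c.q
  fr_fr : c.u = true → ∀ a : F, (a ^ c.q) ^ c.q = a
  fr_ne : c.u = true → ∃ a : F, a ^ c.q ≠ a
  st_add : c.u = true → ∀ x y, c.st (x + y) = c.st x + c.st y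
  st_sub : c.u = true → ∀ x y, c.st (x - y) = c.st x - c.st y
  st_mul : c.u = true → ∀ x y, c.st (x * y) = c.st y * c.st x
  st_smul : ∀ (a : F) x, c.st (a • x) = a ^ c.q • c.st x
  st_one : c.st 1 = 1
  st_st : c.u = true → ∀ x, c.st (c.st x) = x
  st_rank : c.u = true → ∀ x, (c.st x).rank = x.rank
  st_det : c.u = true → ∀ x, (c.st x).det = x.det ^ c.q
  hf_adj : c.u = true → ∀ (x : Mt n F) v w, c.hf (x *ᵥ v) w = c.hf v (c.st x *ᵥ w)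
  hf_symm : c.u = true → ∀ v w, c.hf w v = c.hf v w ^ c.q
  hf_nd : ∀ v, (∀ w, c.hf w v = 0) → v = 0
  hf_add : ∀ v v' w, c.hf (v + v') w = c.hf v w + c.hf v' w
  hf_smul : ∀ (a : F) v w, c.hf (a • v) w = a * c.hf v w
  hf_add' : c.u = true → ∀ v w w', c.hf v (w + w') = c.hf v w + c.hf v w'
  hf_smul' : ∀ (a : F) v w, c.hf v (a • w) = a ^ c.q * c.hf v w
  st_vec : c.u = true → ∀ v w : Vc n F, c.st (vecMulVec v (c.bar w)) = vecMulVec w (c.bar v)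
  vec_ap : ∀ v w x : Vc n F, vecMulVec v (c.bar w) *ᵥ x = c.hf x w • v
  nsurj : c.u = true → ∀ a : F, a ^ c.q = a → a ≠ 0 → ∃ b : F, b ^ (c.q + 1) = a
  h90 : c.u = true → ∀ a : F, a ^ (c.q + 1) = 1 → ∃ b : F, b ≠ 0 ∧ b ^ c.q = a * b
  tz : c.u = true → Nat.card {a : F // a ^ c.q = -a} = c.q
  fx : c.u = true → ∃ F0 : Subfield F, Nat.card F0 = c.q ∧ ∀ a, a ∈ F0 ↔ a ^ c.q = a
  th : c.u = true → ∃ θ : F, θ + θ ^ c.q = 1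

structure KT (c : Cl F n) : Prop where
  add : ∀ (t : Tau F n) x y, t.ap (x + y) = t.ap x + t.ap y
  sub : ∀ (t : Tau F n) x y, t.ap (x - y) = t.ap x - t.ap y
  zero : ∀ t : Tau F n, t.ap 0 = 0
  smul : ∀ (t : Tau F n) (a : F) x, t.ap (a • x) = t.σ a • t.ap x
  one : ∀ t : Tau F n, t.ap 1 = 1
  mul : ∀ t : Tau F n, t.neg = false → ∀ x y, t.ap (x * y) = t.ap x * t.ap y
  mul' : ∀ t : Tau F n, t.neg = true → ∀ x y, t.ap (x * y) = t.ap y * t.ap x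
  bij : ∀ t : Tau F n, Function.Bijective t.ap
  det : ∀ (t : Tau F n) x, (t.ap x).det = t.σ x.det
  trace : ∀ (t : Tau F n) x, (t.ap x).trace = t.σ x.trace
  rank : ∀ (t : Tau F n) x, (t.ap x).rank = x.rank
  vec : ∀ t : Tau F n, t.neg = false → ∀ x v, t.ap x *ᵥ t.av v = t.av (x *ᵥ v)
  av_bij : ∀ t : Tau F n, Function.Bijective t.av
  av_add : ∀ (t : Tau F n) v w, t.av (v + w) = t.av v + t.av w
  av_smul : ∀ (t : Tau F n) (a : F) v, t.av (a • v) = t.σ a • t.av v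
  st : ∀ t ψ, c.Ind t ψ → c.u = true → ∀ x, t.ap (c.st x) = c.st (t.ap x)
  hf : ∀ t ψ, c.Ind t ψ → c.u = true → ∀ v w, c.hf (t.av v) (t.av w) = t.σ (c.hf v w)
  stv : ∀ t ψ, c.Ind t ψ → c.u = true → ∀ v w : Vc n F,
    t.ap (vecMulVec v (c.bar w)) = vecMulVec (t.av v) (c.bar (t.av w))
  conj : ∀ a ∈ c.St, c.Ind ⟨RingEquiv.refl F, false, a⟩ (MulAut.conj a) ∧
    ∀ x, (⟨RingEquiv.refl F, false, a⟩ : Tau F n).ap x = cj a x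
  mul_ind : ∀ t ψ t' ψ', c.Ind t ψ → c.Ind t' ψ' → ∃ t'', c.Ind t'' (ψ * ψ') ∧
    t''.σ = t.σ * t'.σ ∧ t''.neg = xor t.neg t'.neg ∧ ∀ x, t''.ap x = t.ap (t'.ap x)
  inv_ind : ∀ t ψ, c.Ind t ψ → ∃ t', c.Ind t' ψ⁻¹ ∧ t'.σ = t.σ⁻¹ ∧ t'.neg = t.neg ∧
    ∀ x, t'.ap (t.ap x) = x ∧ t.ap (t'.ap x) = x
  pres : ∀ ψ, c.Std ψ → ∀ x, (ψ x ∈ c.St ↔ x ∈ c.St) ∧ (ψ x ∈ c.S ↔ x ∈ c.S) ∧ (ψ x ∈ c.Z ↔ x ∈ c.Z)
  unip : ∀ ψ, c.Std ψ → ∀ x, Unip x → Unip (ψ x)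
  inner : ∀ t ψ, c.Ind t ψ → t.neg = false → t.σ = 1 → ψ = MulAut.conj t.A
  span : ∀ H A, InvG H A → c.InvM H (spanG A : Set (Mt n F))
  hatinv : ∀ H : Subgroup (Au n F), (∀ ψ ∈ H, c.Std ψ) → InvG H (c.hat H)
  hatG : ∀ H Y, InvG H Y → ∀ a ∈ c.hat H, ∀ y ∈ Y, a * y * a⁻¹ ∈ Y
  hatM : ∀ H T, c.InvM H T → ∀ a ∈ c.hat H, ∀ x ∈ T, cj a x ∈ T
  surj : ∀ H T, c.InvM H T → ∀ ψ ∈ H, ∀ t, c.Ind t ψ → ∀ x ∈ T, ∃ y ∈ T, t.ap y = x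

structure KD (t : Tau F n) : Prop where
  map : ∀ (x : Mt n F) (W W' : Submodule F (Vc n F)),
    (∀ v ∈ W, x *ᵥ v ∈ W') ↔ ∀ v ∈ t.du W', t.ap x *ᵥ v ∈ t.du W
  rk : ∀ W, Module.finrank F (t.du W) + Module.finrank F W = n
  inf : ∀ W W', t.du (W ⊓ W') = t.du W ⊔ t.du W'
  sup : ∀ W W', t.du (W ⊔ W') = t.du W ⊓ t.du W'
  le : ∀ W W', t.du W ≤ t.du W' ↔ W' ≤ W
  bot : t.du ⊥ = ⊤
  top : t.du ⊤ = ⊥

structure KI (c : Cl F n) : Prop where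
  cs : ∀ x : Mt n F, (∀ s ∈ c.S, Commute x (s : Mt n F)) → Scal x
  simp : ∀ N : Subgroup (Gl n F), N ≤ c.S → (∀ s ∈ c.S, ∀ x ∈ N, s * x * s⁻¹ ∈ N) →
    N ≤ c.Z ∨ c.S ≤ N ⊔ c.Z
  perf : c.S ≤ ⁅c.S, c.S⁆
  tv : ∃ t ∈ c.S, t ≠ 1 ∧ Unip t

structure KV (c : Cl F n) : Prop where
  nil : ∀ ν : Mt n F, IsNilpotent ν → ∃ g : Gl n F, (g : Mt n F) = 1 + ν ∧ (g : Mt n F).det = 1 ∧ Unip g
  udet : ∀ g : Gl n F, Unip g → (g : Mt n F).det = 1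
  upow : ∀ g : Gl n F, Unip g ↔ ∃ k : ℕ, g ^ (c.p ^ k) = 1
  uz : ∀ z ∈ c.Z, Unip z → z = 1
  tvU : c.u = true → ∀ (v : Vc n F) (a : F), c.hf v v = 0 → a ^ c.q = -a →
    ∃ g ∈ c.S, Unip g ∧ (g : Mt n F) = 1 + a • vecMulVec v (c.bar v)
  eich : c.u = true → ∀ (y w : Vc n F) (θ : F), c.hf y y = 0 → c.hf y w = 0 → θ + θ ^ c.q = c.hf w w →
    ∃ g ∈ c.S, Unip g ∧ (g : Mt n F) =
      1 + vecMulVec y (c.bar w) - vecMulVec w (c.bar y) - θ • vecMulVec y (c.bar y)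
  nouni : ∀ r H Q, Loc c r H Q → r ≠ c.p → ∀ x ∈ Q, Unip x → x = 1
  cop : ∀ r H Q, Loc c r H Q → ∀ x ∈ Q, ∀ m : ℕ, m.Coprime r → x ^ m ∈ c.Z → x ∈ c.Z

structure KW (c : Cl F n) : Prop where
  nrm : c.u = true → ∀ e : Mt n F, c.st e = e → e * e = e → e ≠ 0 → ∃ v, e *ᵥ v = v ∧ c.hf v v = 1
  iso : c.u = true → ∀ e : Mt n F, c.st e = e → e * e = e → 2 ≤ e.rank →
    ∃ v, v ≠ 0 ∧ e *ᵥ v = v ∧ c.hf v v = 0
  btv : ∀ e : Mt n F, (c.u = true → c.st e = e) → e * e = e → 2 ≤ e.rank →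
    ∃ t ∈ c.S, t ≠ 1 ∧ Unip t ∧ ((t : Mt n F) - 1).rank = 1 ∧
      e * ((t : Mt n F) - 1) = (t : Mt n F) - 1 ∧ ((t : Mt n F) - 1) * e = (t : Mt n F) - 1
  rksum : ∀ E : Finset (Mt n F), Fam E → ∑ e ∈ E, e.rank = n
end

def KAStmt : Prop := ∀ (F : Type) [Field F] [Fintype F] [DecidableEq F] (n : ℕ) (c : Cl F n), KA c
def KTStmt : Prop := ∀ (F : Type) [Field F] [Fintype F] [DecidableEq F] (n : ℕ) (c : Cl F n), KT c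
def KDStmt : Prop := ∀ (F : Type) [Field F] (n : ℕ) (t : Tau F n), t.neg = true → KD t
def KVStmt : Prop := ∀ (F : Type) [Field F] [Fintype F] [DecidableEq F] (n : ℕ) (c : Cl F n), KV c
def KWStmt : Prop := ∀ (F : Type) [Field F] [Fintype F] [DecidableEq F] (n : ℕ) (c : Cl F n), KW c
def IrrLStmt : Prop := ∀ (F : Type) [Field F] [Fintype F] [DecidableEq F] (n : ℕ) (c : Cl F n), c.u = false → KI c
def IrrUStmt : Prop := ∀ (F : Type) [Field F] [Fintype F] [DecidableEq F] (n : ℕ) (c : Cl F n), c.u = true → KI c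
def IrrStmt : Prop := ∀ (F : Type) [Field F] [Fintype F] [DecidableEq F] (n : ℕ) (c : Cl F n), KI c
def IdetStmt : Prop := ∀ (K : Type) [Field K] [DecidableEq K] (n : ℕ) (E : Finset (Mt n K)) (lam : Mt n K → K),
  Fam E → (∑ e ∈ E, lam e • e).det = ∏ e ∈ E, lam e ^ e.rank
def FrameStmt : Prop := ∀ (F : Type) [Field F] [Fintype F] [DecidableEq F] (n : ℕ) (c : Cl F n), ∀ E : Finset (Mt n F), Fam E → c.SF E →
  ∃ a ∈ c.St, ∃ β : Fin n → Mt n F, (∀ i, β i ∈ E) ∧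
    ∀ e ∈ E, e = cj a (dg β e) ∧ (Finset.univ.filter (fun i => β i = e)).card = e.rank
def UniqLStmt : Prop := ∀ (F : Type) [Field F] [Fintype F] [DecidableEq F] (n : ℕ) (c : Cl F n), c.u = false → ∀ t ψ, c.Ind t ψ → (∀ s ∈ c.S, ψ s * s⁻¹ ∈ c.Z) →
  ψ = 1 ∧ t.neg = false ∧ t.σ = 1
def UniqUStmt : Prop := ∀ (F : Type) [Field F] [Fintype F] [DecidableEq F] (n : ℕ) (c : Cl F n), c.u = true → ∀ t ψ, c.Ind t ψ → (∀ s ∈ c.S, ψ s * s⁻¹ ∈ c.Z) →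
  ψ = 1 ∧ t.neg = false ∧ t.σ = 1
def UniqStmt : Prop := ∀ (F : Type) [Field F] [Fintype F] [DecidableEq F] (n : ℕ) (c : Cl F n), ∀ t ψ, c.Ind t ψ → (∀ s ∈ c.S, ψ s * s⁻¹ ∈ c.Z) →
  ψ = 1 ∧ t.neg = false ∧ t.σ = 1
def OrdStmt : Prop := ∀ (F : Type) [Field F] [Fintype F] [DecidableEq F] (n : ℕ) (c : Cl F n),
  (∀ X : Subgroup (Au n F), (∀ ψ ∈ X, c.Std ψ) → Nat.card X * c.zc ≤ c.outB * Nat.card (c.hat X)) ∧
  (∀ ψ ψ' : Au n F, c.Std ψ → c.Std ψ' → ∃ a ∈ c.St, ⁅ψ, ψ'⁆ = MulAut.conj a) ∧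
  (c.q ≤ 9 → c.outB ≤ 6) ∧ (Fintype.card F ≤ 81 → c.outB ≤ 12) ∧
  (∀ X : Subgroup (Au n F), (∀ ψ ∈ X, c.Std ψ) → c.q ≤ 9 → Nat.card (c.hat X) ≤ 5184 * c.zc → Small X)
def DelKStmt : Prop := ∀ (F : Type) [Field F] [Fintype F] [DecidableEq F] (n : ℕ) (c : Cl F n), ∀ (r : ℕ) H δ t, r.Prime → Del c r H δ → c.Ind t δ →
  (t.neg = true → r = 2) ∧ t.σ ^ r = 1 ∧ (t.neg = false → t.σ ≠ 1) ∧ (r = 2 → ∀ x, t.ap (t.ap x) = x) ∧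
  (∀ s ∈ c.hat H, Unip s → δ s = s) ∧ (c.u = true → r = 2 → ∀ a, t.σ a = a ^ c.q)
def SetLStmt : Prop := ∀ (G : Type u) [Group G] [Finite G] (N : Subgroup G), N.Normal →
  Subgroup.centralizer (N : Set G) = ⊥ → IsPSL N →
  ∃ (F : Type) (_ : Field F) (_ : Fintype F) (_ : DecidableEq F) (n : ℕ) (c : Cl F n) (φ : G →* Au n F),
    Mod N c φ
def SetUStmt : Prop := ∀ (G : Type u) [Group G] [Finite G] (N : Subgroup G), N.Normal →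
  Subgroup.centralizer (N : Set G) = ⊥ → IsPSU N →
  ∃ (F : Type) (_ : Field F) (_ : Fintype F) (_ : DecidableEq F) (n : ℕ) (c : Cl F n) (φ : G →* Au n F),
    Mod N c φ
def TW0Stmt.{v} : Prop := ∀ (G : Type u) (Ω : Type v) [Group G] [Finite G] [MulAction G Ω] [FaithfulSMul G Ω]
  [Finite Ω] (N : Subgroup G), N.Normal → N ≠ ⊥ → MulAction.IsPreprimitive G Ω → ∀ (a b : Ω) (d : ℕ),
  Nat.card (MulAction.orbit (MulAction.stabilizer G a) b) = d → 2 ≤ d →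
  Nat.card (MulAction.stabilizer G a) ≤ d.factorial * (d - 1).factorial ^ d ∨
  ∃ (r : ℕ) (Ha Hb D T R : Subgroup G) (g : G), TW N r d Ha Hb D T R g ∧
    Nat.card Hb = Nat.card (MulAction.stabilizer G a)
def LocStmt : Prop := ∀ (G : Type u) [Group G] [Finite G] (N : Subgroup G), N.Normal → ∀ (F : Type) [Field F] [Fintype F] [DecidableEq F] (n : ℕ) (c : Cl F n),
  ∀ (φ : G →* Au n F), Mod N c φ → ∀ (r d : ℕ) (Ha Hb D T R : Subgroup G) (g : G),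
  TW N r d Ha Hb D T R g → Loc c r (Hb.map φ) (c.hat (R.map φ))
def CaseAStmt : Prop := ∀ (G : Type u) [Group G] [Finite G] (N : Subgroup G), N.Normal → ∀ (F : Type) [Field F] [Fintype F] [DecidableEq F] (n : ℕ) (c : Cl F n),
  ∀ (φ : G →* Au n F), Mod N c φ → ∀ (r d : ℕ) (Ha Hb D T R : Subgroup G) (g : G),
  TW N r d Ha Hb D T R g → ¬ c.hat (D.map φ) ≤ c.Z →
  ∃ s X, CaseA c (Hb.map φ) (c.hat (R.map φ)) s X
def CaseEStmt : Prop := ∀ (G : Type u) [Group G] [Finite G] (N : Subgroup G), N.Normal → ∀ (F : Type) [Field F] [Fintype F] [DecidableEq F] (n : ℕ) (c : Cl F n),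
  ∀ (φ : G →* Au n F), Mod N c φ → ∀ (r d : ℕ) (Ha Hb D T R : Subgroup G) (g : G),
  TW N r d Ha Hb D T R g → c.hat (D.map φ) ≤ c.Z →
  ∃ δ E, CaseE c r d (Hb.map φ) (c.hat (R.map φ)) δ E
def NormStmt : Prop := ∀ (F : Type) [Field F] [Fintype F] [DecidableEq F] (n : ℕ) (c : Cl F n),
  ∀ (r : ℕ) (H : Subgroup (Au n F)) (Q : Subgroup (Gl n F)), Loc c r H Q → ∀ X : Subgroup (Gl n F), X ≤ c.St → InvG H X → ¬ X ≤ c.Z →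
  ¬ c.S ≤ X ⊔ c.Z → ∀ s ∈ c.S, (∀ x ∈ X, s * x * s⁻¹ ∈ X) → s ∈ c.hat H
def CentStmt : Prop := ∀ (F : Type) [Field F] [Fintype F] [DecidableEq F] (n : ℕ) (c : Cl F n),
  ∀ (r : ℕ) (H : Subgroup (Au n F)) (Q : Subgroup (Gl n F)), Loc c r H Q → ∀ T : Set (Mt n F), c.InvM H T → (∃ x ∈ T, ¬ Scal x) →
  (∀ s ∈ c.S, (∀ x ∈ T, Commute (s : Mt n F) x) → s ∈ c.hat H) ∧
  ∃ Y : Subgroup (Gl n F), Y ≤ c.hat H ∧ InvG H Y ∧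
    ∀ s, s ∈ Y ↔ s ∈ c.S ∧ ∀ x ∈ T, Commute (s : Mt n F) x
def SpanNeStmt : Prop := ∀ (F : Type) [Field F] [Fintype F] [DecidableEq F] (n : ℕ) (c : Cl F n),
  ∀ (r : ℕ) (H : Subgroup (Au n F)) (Q : Subgroup (Gl n F)), Loc c r H Q → ∀ s A, s ∈ c.S → s ∉ c.hat H → c.Z < A → A ≤ c.St → InvG H A → Ab A →
  ¬ ∀ x ∈ A, ((s * x * s⁻¹ : Gl n F) : Mt n F) ∈ spanG A
def StabStmt : Prop := ∀ (F : Type) [Field F] [Fintype F] [DecidableEq F] (n : ℕ) (c : Cl F n),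
  ∀ (r : ℕ) (H : Subgroup (Au n F)) (Q : Subgroup (Gl n F)), Loc c r H Q → ∀ E, Blk c H E → ∀ s ∈ c.S, (∀ e ∈ E, cj s e ∈ E) → s ∈ c.hat H
def NglStmt : Prop := ∀ (K : Type) [Field K] [Fintype K] [DecidableEq K] (ι : Type) [Fintype ι]
  [DecidableEq ι] (p r : ℕ), CharP K p → r.Prime → r ≠ p → 2 ≤ Fintype.card ι →
  (Fintype.card ι = 2 → 4 ≤ Fintype.card K) → ∀ R : Subgroup (GL ι K),
  (∀ x ∈ R, ∃ (k : ℕ) (a : K), ((x ^ (r ^ k) : GL ι K) : Matrix ι ι K) = a • (1 : Matrix ι ι K)) →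
  (∀ (t : GL ι K) (i j : ι) (a : K), i ≠ j → (t : Matrix ι ι K) = Matrix.transvection i j a →
    ∀ x ∈ R, t * x * t⁻¹ ∈ R) →
  ∀ x ∈ R, ∃ a : K, (x : Matrix ι ι K) = a • (1 : Matrix ι ι K)
def NguAt (s : ℕ → Prop) : Prop := ∀ (K : Type) [Field K] [Fintype K] [DecidableEq K] (ι : Type) [Fintype ι]
  [DecidableEq ι] (p r q : ℕ), CharP K p → r.Prime → r ≠ p → Fintype.card K = q ^ 2 →
  s (Fintype.card ι) → (Fintype.card ι = 2 → 4 ≤ q) → (Fintype.card ι = 3 → 3 ≤ q) →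
  ∀ R : Subgroup (GL ι K),
  (∀ x ∈ R, ((x : Matrix ι ι K).map (fun a => a ^ q))ᵀ * (x : Matrix ι ι K) = 1) →
  (∀ x ∈ R, ∃ (k : ℕ) (a : K), ((x ^ (r ^ k) : GL ι K) : Matrix ι ι K) = a • (1 : Matrix ι ι K)) →
  (∀ (t : GL ι K) (v : ι → K) (a : K), ∑ i, v i * v i ^ q = 0 → a ^ q = -a →
    (t : Matrix ι ι K) = 1 + a • vecMulVec v (fun i => v i ^ q) → ∀ x ∈ R, t * x * t⁻¹ ∈ R) →
  ∀ x ∈ R, ∃ a : K, (x : Matrix ι ι K) = a • (1 : Matrix ι ι K)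
def Ngu2Stmt : Prop := NguAt (fun s => s = 2)
def Ngu3Stmt : Prop := NguAt (fun s => 3 ≤ s)
def BlkNLStmt : Prop := ∀ (F : Type) [Field F] [Fintype F] [DecidableEq F] (n : ℕ) (c : Cl F n),
  ∀ (r : ℕ) (H : Subgroup (Au n F)) (Q : Subgroup (Gl n F)), Loc c r H Q → r ≠ c.p → c.u = false → ∀ E, Blk c H E → ∀ e ∈ E, 2 ≤ e.rank → e.rank = 2 ∧ c.q ≤ 3
def BlkNUStmt : Prop := ∀ (F : Type) [Field F] [Fintype F] [DecidableEq F] (n : ℕ) (c : Cl F n),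
  ∀ (r : ℕ) (H : Subgroup (Au n F)) (Q : Subgroup (Gl n F)), Loc c r H Q → r ≠ c.p → c.u = true → ∀ E, Blk c H E → ∀ e ∈ E, 2 ≤ e.rank →
  (e.rank = 2 ∧ c.q ≤ 3) ∨ (e.rank = 3 ∧ c.q = 2)
def BlkOrdStmt : Prop := ∀ (F : Type) [Field F] [Fintype F] [DecidableEq F] (n : ℕ) (c : Cl F n), ∀ E : Finset (Mt n F), Fam E → c.SF E → ∀ X : Subgroup (Gl n F), X ≤ c.St →
  ((∀ x ∈ X, ∀ e ∈ E, Commute (x : Mt n F) e) → Nat.card X ≤ ∏ e ∈ E, c.gord e.rank) ∧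
  ((∀ x ∈ X, ∀ e ∈ E, cj x e ∈ E) → Nat.card X ≤ E.card.factorial * ∏ e ∈ E, c.gord e.rank)
def GordStmt : Prop := ∀ (F : Type) [Field F] [Fintype F] [DecidableEq F] (n : ℕ) (c : Cl F n), c.gord 1 = c.zc ∧
  (c.u = false → c.gord 2 = (c.q ^ 2 - 1) * (c.q ^ 2 - c.q)) ∧
  (c.u = true → c.gord 2 = c.q * (c.q + 1) * (c.q ^ 2 - 1)) ∧ (c.u = true → c.q = 2 → c.gord 3 = 648)
def SmallStmt : Prop := ∀ (F : Type) [Field F] [Fintype F] [DecidableEq F] (n : ℕ) (c : Cl F n),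
  ∀ (r : ℕ) (H : Subgroup (Au n F)) (Q : Subgroup (Gl n F)), Loc c r H Q → (n = 2 → c.q ≤ 9 → Small H) ∧
  (∀ E, Blk c H E → (∀ e ∈ E, e.rank = 1) → (n ≤ 3 ∧ c.zc ≤ 8) ∨ (n = 4 ∧ c.zc ≤ 4) → Small H) ∧
  (∀ E, Blk c H E → (∀ e ∈ E, e.rank = 2) → n = 4 → c.q = 3 → Small H)
def SwapStmt : Prop := ∀ (F : Type) [Field F] [Fintype F] [DecidableEq F] (n : ℕ) (c : Cl F n),
  ∀ (r : ℕ) (H : Subgroup (Au n F)) (Q : Subgroup (Gl n F)), Loc c r H Q → ∀ e : Mt n F, e * e = e → (c.u = true → c.st e = e) → c.InvM H {e} →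
  e ≠ 0 → e ≠ 1 → e.rank ≠ (1 - e).rank
def TwoStmt : Prop := ∀ (F : Type) [Field F] [Fintype F] [DecidableEq F] (n : ℕ) (c : Cl F n),
  ∀ (r : ℕ) (H : Subgroup (Au n F)) (Q : Subgroup (Gl n F)), Loc c r H Q → r ≠ c.p → ∀ e : Mt n F, e * e = e → (c.u = true → c.st e = e) → c.InvM H {e} →
  e ≠ 0 → e ≠ 1 → Small H
def HalfStmt : Prop := ∀ (F : Type) [Field F] [Fintype F] [DecidableEq F] (n : ℕ) (c : Cl F n),
  ∀ (r : ℕ) (H : Subgroup (Au n F)) (Q : Subgroup (Gl n F)), Loc c r H Q → r ≠ c.p → c.u = true → ∀ e : Mt n F, e * e = e → c.st e = 1 - e →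
  c.InvM H {e, 1 - e} → False
/-- conclusion of the field-structure lemma -/
def FIso {F : Type} [Field F] [Fintype F] [DecidableEq F] {n : ℕ} (c : Cl F n) (A : Subgroup (Gl n F)) :
    Prop :=
  ∃ (K : Type) (_ : Field K) (_ : Fintype K) (_ : DecidableEq K) (s : ℕ) (j : K →+* Mt n F)
    (Φ : Matrix (Fin s) (Fin s) K →+* Mt n F), CharP K c.p ∧
    (∀ x, x ∈ spanG A ↔ ∃ k, j k = x) ∧
    Fintype.card K = Fintype.card F ^ Module.finrank F (spanG A) ∧ n = s * Module.finrank F (spanG A) ∧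
    Function.Injective Φ ∧ (∀ x : Mt n F, (∀ a ∈ A, Commute x (a : Mt n F)) ↔ ∃ y, Φ y = x) ∧
    (∀ k : K, Φ (k • 1) = j k) ∧
    (c.u = true → Odd (Module.finrank F (spanG A)) ∧
      ∀ y, Φ (y.map (fun a => a ^ (c.q ^ Module.finrank F (spanG A))))ᵀ = c.st (Φ y))
def FisoLStmt : Prop := ∀ (F : Type) [Field F] [Fintype F] [DecidableEq F] (n : ℕ) (c : Cl F n), c.u = false → ∀ A : Subgroup (Gl n F), Ab A → IsFld A → FIso c A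
def FisoUStmt : Prop := ∀ (F : Type) [Field F] [Fintype F] [DecidableEq F] (n : ℕ) (c : Cl F n), c.u = true → ∀ A : Subgroup (Gl n F), A ≤ c.St → Ab A → IsFld A → FIso c A
def FldStmt : Prop := ∀ (F : Type) [Field F] [Fintype F] [DecidableEq F] (n : ℕ) (c : Cl F n),
  ∀ (r : ℕ) (H : Subgroup (Au n F)) (Q : Subgroup (Gl n F)), Loc c r H Q → r ≠ c.p → ∀ A, c.Z < A → A ≤ c.St → InvG H A → Ab A → IsFld A →
  SelfC A ∧ Module.finrank F (spanG A) = n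
def IdemStmt : Prop := ∀ (F : Type) [Field F] [Fintype F] [DecidableEq F] (n : ℕ) (c : Cl F n), ∀ (r : ℕ) (A : Subgroup (Gl n F)), r.Prime → r ≠ c.p → Ab A →
  (∀ x ∈ A, x ^ r ∈ c.Z) → ∃ E, Prim A E
def Idem2Stmt : Prop := ∀ (F : Type) [Field F] [Fintype F] [DecidableEq F] (n : ℕ) (c : Cl F n), ∀ H (A : Subgroup (Gl n F)) E, A ≤ c.St → Ab A → InvG H A → Prim A E →
  c.InvM H (E : Set (Mt n F)) ∧ (c.u = true → ∀ e ∈ E, c.st e ∈ E)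
def EigStmt : Prop := ∀ (F : Type) [Field F] [Fintype F] [DecidableEq F] (n : ℕ) (c : Cl F n), ∀ H (A : Subgroup (Gl n F)) E m, A ≤ c.St → DBlk c H A E m →
  (∀ x ∈ A, ∃ lam : Mt n F → F, (∀ e ∈ E, c.ZV (lam e)) ∧ (x : Mt n F) = ∑ e ∈ E, lam e • e) ∧
  (∀ e1 ∈ E, ∀ e2 ∈ E, e1 ≠ e2 → ∃ x ∈ A, ∃ lam : Mt n F → F, (∀ e ∈ E, c.ZV (lam e)) ∧
    (x : Mt n F) = ∑ e ∈ E, lam e • e ∧ lam e1 ≠ lam e2) ∧ 1 < c.zc
def PairStmt : Prop := ∀ (F : Type) [Field F] [Fintype F] [DecidableEq F] (n : ℕ) (c : Cl F n),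
  ∀ (r : ℕ) (H : Subgroup (Au n F)) (Q : Subgroup (Gl n F)), Loc c r H Q → r ≠ c.p → c.u = true → ∀ E : Finset (Mt n F), Fam E → c.InvM H (E : Set (Mt n F)) →
  (∀ e ∈ E, c.st e ∈ E) → ∀ e ∈ E, c.st e = e
def KfStmt : Prop := ∀ (F : Type) [Field F] [Fintype F] [DecidableEq F] (n : ℕ) (c : Cl F n),
  ∀ (r : ℕ) (H : Subgroup (Au n F)) (Q : Subgroup (Gl n F)), Loc c r H Q → ∀ A E, A ≤ c.St → InvG H A → Ab A → Prim A E → Blk c H E → ∀ e ∈ E,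
  (∀ b ∈ spanG A, ∃ a : F, e * b = a • e) ∨
  (c.u = false ∧ c.q = 2 ∧ ∀ x : Mt n F, e * x * e = x → (∀ a ∈ A, Commute x (a : Mt n F)) → x ∈ spanG A)
def AbsStmt : Prop := ∀ (F : Type) [Field F] [Fintype F] [DecidableEq F] (n : ℕ) (c : Cl F n),
  ∀ (r : ℕ) (H : Subgroup (Au n F)) (Q : Subgroup (Gl n F)), Loc c r H Q → r ≠ c.p → ∀ A, MinQ c r H Q A → Ab A → Small H ∨
  (SelfC A ∧ IsFld A ∧ Module.finrank F (spanG A) = n) ∨ (SelfC A ∧ c.u = false ∧ c.q = 2) ∨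
  ∃ E m, DBlk c H A E m
def MinStmt : Prop := ∀ (F : Type) [Field F] [Fintype F] [DecidableEq F] (n : ℕ) (c : Cl F n),
  ∀ (r : ℕ) (H : Subgroup (Au n F)) (Q : Subgroup (Gl n F)), Loc c r H Q → ∀ X, c.Z < X → X ≤ Q → InvG H X → ∃ A, A ≤ X ∧ MinQ c r H Q A
def Ext1Stmt : Prop := ∀ (F : Type) [Field F] [Fintype F] [DecidableEq F] (n : ℕ) (c : Cl F n),
  ∀ (r : ℕ) (H : Subgroup (Au n F)) (Q : Subgroup (Gl n F)), Loc c r H Q → ∀ A, MinQ c r H Q A → ¬ Ab A →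
  Ndg c r A ∧ ((r ≠ 2 ∨ 4 ∣ c.zc) → ∀ x ∈ A, ∃ z ∈ c.Z, (x * z) ^ r = 1)
def Ext2Stmt : Prop := ∀ (F : Type) [Field F] [Fintype F] [DecidableEq F] (n : ℕ) (c : Cl F n), ∀ (r : ℕ) A, r.Prime → Ndg c r A →
  (∀ g ∈ c.St, (∀ a ∈ A, ⁅g, a⁆ ∈ c.Z) → ∃ x ∈ A, ∀ a ∈ A, Commute (x⁻¹ * g) a) ∧ r ∣ c.zc ∧
  (∀ x ∈ A, ∀ y ∈ A, ⁅x, y⁆ ^ r = 1) ∧
  (∀ x ∈ A, x ∉ c.Z → ∀ z ∈ c.Z, z ^ r = 1 → ∃ y ∈ A, ⁅y, x⁆ = z) ∧ r ^ 2 ≤ c.Z.relIndex A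
def Uz1Stmt : Prop := ∀ (F : Type) [Field F] [Fintype F] [DecidableEq F] (n : ℕ) (c : Cl F n), ∀ r : ℕ, r.Prime → r ≠ c.p → r ≠ 2 → r ∣ c.zc →
  ∃ w : F, ∀ z, Good c r z → ∃ v, UEl c r z v ∧ (v : Mt n F).det = w
def Uz2Stmt : Prop := ∀ (F : Type) [Field F] [Fintype F] [DecidableEq F] (n : ℕ) (c : Cl F n), c.p ≠ 2 → ∃ w : F, ∀ z, Good c 2 z → ∃ v, UEl c 2 z v ∧ (v : Mt n F).det = w
def NdkStmt : Prop := ∀ (F : Type) [Field F] [Fintype F] [DecidableEq F] (n : ℕ) (c : Cl F n),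
  ∀ (r : ℕ) (H : Subgroup (Au n F)) (Q : Subgroup (Gl n F)), Loc c r H Q → r ≠ c.p → ∀ A, MinQ c r H Q A → Ndg c r A → ∀ x ∈ A, x ∉ c.Z → ∀ y ∈ Q, y ∉ c.Z →
  y ^ r ∈ c.Z → (∀ g ∈ Q, ⁅g, y⁆ ∈ c.Z) → (∀ a ∈ A, Commute y a) → Good c r (x * y) →
  ∀ z ∈ A, Good c r z → False
/-- the subgroup `P₁` -/
structure POne {F : Type} [Field F] [Fintype F] [DecidableEq F] {n : ℕ} (c : Cl F n) (r : ℕ)
    (H : Subgroup (Au n F)) (Q A P : Subgroup (Gl n F)) : Prop where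
  zlt : c.Z < P
  inv : InvG H P
  mem : ∀ y, y ∈ P ↔ y ∈ Q ∧ y ^ r ∈ c.Z ∧ (∀ g ∈ Q, ⁅g, y⁆ ∈ c.Z) ∧ ∀ a ∈ A, Commute y a
def POneStmt : Prop := ∀ (F : Type) [Field F] [Fintype F] [DecidableEq F] (n : ℕ) (c : Cl F n),
  ∀ (r : ℕ) (H : Subgroup (Au n F)) (Q : Subgroup (Gl n F)), Loc c r H Q → ∀ A, MinQ c r H Q A → Ndg c r A → Q ≠ A → ∃ P, POne c r H Q A P
def PAbStmt : Prop := ∀ (F : Type) [Field F] [Fintype F] [DecidableEq F] (n : ℕ) (c : Cl F n),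
  ∀ (r : ℕ) (H : Subgroup (Au n F)) (Q : Subgroup (Gl n F)), Loc c r H Q → r ≠ c.p → ∀ A P, MinQ c r H Q A → ¬ Ab A → POne c r H Q A P → c.Z.relIndex P = r →
  (∀ y ∈ P, y ^ r = 1 → y ∈ c.Z) → Small H
def CircStmt : Prop := ∀ (F : Type) [Field F] [Fintype F] [DecidableEq F] (n : ℕ) (c : Cl F n), c.p ≠ 2 → ∀ (F0 : Subfield F) (x : Mt n F) (k : F) (y : Gl n F),
  9 < Nat.card F0 → k ∈ F0 → k ≠ 0 → x * x = k • (1 : Mt n F) → cj y x = -x →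
  ∃ a ∈ F0, ∃ b ∈ F0, a ^ 2 - k * b ^ 2 = 1 ∧ ∃ g : Gl n F, (g : Mt n F) = a • (1 : Mt n F) + b • x ∧
    (g : Mt n F).det = 1 ∧ ∀ A, Ndg c 2 A → y ∈ A → g * y * g⁻¹ ∉ A
def Q88Stmt : Prop := ∀ (F : Type) [Field F] [Fintype F] [DecidableEq F] (n : ℕ) (c : Cl F n),
  ∀ (r : ℕ) (H : Subgroup (Au n F)) (Q : Subgroup (Gl n F)), Loc c r H Q → r ≠ c.p → r = 2 → ∀ A P, MinQ c r H Q A → Ndg c r A → POne c r H Q A P → Ndg c r P →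
  c.Z.relIndex A = 4 → c.Z.relIndex P = 4 →
  (∃ x ∈ A, ((x ^ 2 : Gl n F) : Mt n F) = -1 ∧ x ∉ c.Z) → Small H
def Nd1Stmt : Prop := ∀ (F : Type) [Field F] [Fintype F] [DecidableEq F] (n : ℕ) (c : Cl F n),
  ∀ (r : ℕ) (H : Subgroup (Au n F)) (Q : Subgroup (Gl n F)), Loc c r H Q → r ≠ c.p → ∀ A, MinQ c r H Q A → ¬ Ab A → (r ≠ 2 ∨ 4 ∣ c.zc) → Small H ∨ Q = A
def Nd2Stmt : Prop := ∀ (F : Type) [Field F] [Fintype F] [DecidableEq F] (n : ℕ) (c : Cl F n),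
  ∀ (r : ℕ) (H : Subgroup (Au n F)) (Q : Subgroup (Gl n F)), Loc c r H Q → r ≠ c.p → ∀ A, MinQ c r H Q A → ¬ Ab A → r = 2 → ¬ 4 ∣ c.zc → Small H ∨ Q = A
def Coma0Stmt : Prop := ∀ (F : Type) [Field F] [Fintype F] [DecidableEq F] (n : ℕ) (c : Cl F n),
  ∀ (r : ℕ) (H : Subgroup (Au n F)) (Q : Subgroup (Gl n F)), Loc c r H Q → ∀ s X A E m, CaseA c H Q s X → A ≤ X → MinQ c r H Q A → Ab A →
  DBlk c H A E m → (∀ x ∈ A, ∀ a ∈ A, Commute (s * x * s⁻¹) a) →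
  ∃ x lam e e1 e2, CD c H Q E s x lam e e1 e2
def ComaLStmt : Prop := ∀ (F : Type) [Field F] [Fintype F] [DecidableEq F] (n : ℕ) (c : Cl F n),
  ∀ (r : ℕ) (H : Subgroup (Au n F)) (Q : Subgroup (Gl n F)), Loc c r H Q → r ≠ c.p → c.u = false → ∀ E s x lam e e1 e2, Blk c H E →
  CD c H Q E s x lam e e1 e2 → False
def ComaUStmt : Prop := ∀ (F : Type) [Field F] [Fintype F] [DecidableEq F] (n : ℕ) (c : Cl F n),
  ∀ (r : ℕ) (H : Subgroup (Au n F)) (Q : Subgroup (Gl n F)), Loc c r H Q → c.u = true → 3 ≤ c.q → ∀ E (m : ℕ) s x lam e e1 e2, Blk c H E →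
  (∀ f ∈ E, f.rank = m) → CD c H Q E s x lam e e1 e2 → False
def ComaU2Stmt : Prop := ∀ (F : Type) [Field F] [Fintype F] [DecidableEq F] (n : ℕ) (c : Cl F n),
  ∀ (r : ℕ) (H : Subgroup (Au n F)) (Q : Subgroup (Gl n F)), Loc c r H Q → c.u = true → c.q = 2 → ∀ E (m : ℕ) s x lam e e1 e2, Blk c H E →
  (∀ f ∈ E, f.rank = m) → m ≠ 2 → CD c H Q E s x lam e e1 e2 → False
def U22Stmt : Prop := ∀ (F : Type) [Field F] [Fintype F] [DecidableEq F] (n : ℕ) (c : Cl F n),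
  ∀ (r : ℕ) (H : Subgroup (Au n F)) (Q : Subgroup (Gl n F)), Loc c r H Q → c.u = true → c.q = 2 → ∀ E, Blk c H E → (∀ f ∈ E, f.rank = 2) → False
def AlphaStmt : Prop := ∀ (F : Type) [Field F] [Fintype F] [DecidableEq F] (n : ℕ) (c : Cl F n),
  ∀ (r : ℕ) (H : Subgroup (Au n F)) (Q : Subgroup (Gl n F)), Loc c r H Q → r ≠ c.p → ∀ A x, MinQ c r H Q A → Ab A → SelfC A → IsFld A →
  Module.finrank F (spanG A) = n → NC c r H Q A x →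
  n = r ∧ (if c.u = true then c.q ^ r + 1 else c.q ^ r - 1) ∣ c.zc ^ 4
def ArithStmt : Prop :=
  (∀ q r : ℕ, 2 ≤ q → r.Prime → q ^ r - 1 ∣ (q - 1) ^ 4 → r = 2 ∧ q ≤ 9) ∧
  (∀ q r : ℕ, 2 ≤ q → r.Prime → 3 ≤ r → q ^ r + 1 ∣ (q + 1) ^ 4 → r = 3 ∧ q = 2) ∧
  (∀ d : ℕ, 4 ≤ d → 31104 ≤ d.factorial * (d - 1).factorial ^ d) ∧
  (∀ d r : ℕ, 4 ≤ d → r ≤ 3 → 12 * r ^ d ≤ (d - 1).factorial ^ d)
def Beta1Stmt : Prop := ∀ (F : Type) [Field F] [Fintype F] [DecidableEq F] (n : ℕ) (c : Cl F n),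
  ∀ (r : ℕ) (H : Subgroup (Au n F)) (Q : Subgroup (Gl n F)), Loc c r H Q → r ≠ c.p → ∀ A E m x, MinQ c r H Q A → DBlk c H A E m → NC c r H Q A x →
  m = 1 ∧ ∀ e ∈ E, cj x e ∈ E ∧ cj x e ≠ e
def Beta2Stmt : Prop := ∀ (F : Type) [Field F] [Fintype F] [DecidableEq F] (n : ℕ) (c : Cl F n),
  ∀ (r : ℕ) (H : Subgroup (Au n F)) (Q : Subgroup (Gl n F)), Loc c r H Q → ∀ E (x : Gl n F), Blk c H E → (∀ e ∈ E, e.rank = 1) → 1 < c.zc → x ^ r ∈ c.Z →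
  (∀ e ∈ E, cj x e ∈ E ∧ cj x e ≠ e) → (∀ y ∈ c.hat H, Commute x ⁅x, y * x * y⁻¹⁆) →
  (r = 2 ∧ c.zc ∣ 8 ∧ (4 ≤ n → c.zc ∣ 4)) ∨ (r = 3 ∧ c.zc ∣ 3)
def Beta3Stmt : Prop := ∀ (F : Type) [Field F] [Fintype F] [DecidableEq F] (n : ℕ) (c : Cl F n),
  ∀ (r : ℕ) (H : Subgroup (Au n F)) (Q : Subgroup (Gl n F)), Loc c r H Q → ∀ E (x : Gl n F), Blk c H E → (∀ e ∈ E, e.rank = 1) → x ∈ Q → x ^ r ∈ c.Z →
  (∀ e ∈ E, cj x e ∈ E ∧ cj x e ≠ e) → r ≤ 3 → n ≤ 4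
def EFldStmt : Prop := ∀ (F : Type) [Field F] [Fintype F] [DecidableEq F] (n : ℕ) (c : Cl F n),
  ∀ (r : ℕ) (H : Subgroup (Au n F)) (Q : Subgroup (Gl n F)), Loc c r H Q → ∀ d δ E A, CaseE c r d H Q δ E → Ab A → IsFld A → SelfC A →
  (∀ x ∈ E, ∀ a ∈ A, Commute x a) → False
def EBdStmt : Prop := ∀ (F : Type) [Field F] [Fintype F] [DecidableEq F] (n : ℕ) (c : Cl F n),
  ∀ (r : ℕ) (H : Subgroup (Au n F)) (Q : Subgroup (Gl n F)), Loc c r H Q → ∀ d δ, CaseE c r d H Q δ Q →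
  Nat.card H ≤ d.factorial * (c.outB * r ^ d)
def Dm1AStmt : Prop := ∀ (F : Type) [Field F] [Fintype F] [DecidableEq F] (n : ℕ) (c : Cl F n),
  ∀ (r : ℕ) (H : Subgroup (Au n F)) (Q : Subgroup (Gl n F)), Loc c r H Q → ∀ δ E, Del c r H δ → Blk c H E → (∀ e ∈ E, e.rank = 1) → 3 ≤ n → 1 < c.zc →
  (n ≤ 4 ∧ c.zc ≤ 3) ∨ ∃ t, c.Ind t δ ∧ (∀ e ∈ E, t.ap e = e) ∧ ∀ z ∈ c.Z, δ z = z
def Dm1BStmt : Prop := ∀ (F : Type) [Field F] [Fintype F] [DecidableEq F] (n : ℕ) (c : Cl F n),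
  ∀ (r : ℕ) (H : Subgroup (Au n F)) (Q : Subgroup (Gl n F)), Loc c r H Q → r ≠ c.p → ∀ δ t, Del c r H δ → c.Ind t δ → (∀ z ∈ c.Z, δ z = z) →
  c.u = false ∧ c.q = 3 ∧ t.neg = true ∧ t.σ = 1
def Dm1CStmt : Prop := ∀ (F : Type) [Field F] [Fintype F] [DecidableEq F] (n : ℕ) (c : Cl F n),
  ∀ (r : ℕ) (H : Subgroup (Au n F)) (Q : Subgroup (Gl n F)), Loc c r H Q → r ≠ c.p → ∀ δ E, Del c r H δ → Blk c H E → n = 2 → c.q ≤ 9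
def DRefStmt : Prop := ∀ (F : Type) [Field F] [Fintype F] [DecidableEq F] (n : ℕ) (c : Cl F n),
  ∀ (r : ℕ) (H : Subgroup (Au n F)) (Q : Subgroup (Gl n F)), Loc c r H Q → ∀ δ E t, Del c r H δ → Blk c H E → (∀ e ∈ E, e.rank = 1) → c.u = false →
  c.q = 3 → c.Ind t δ → t.neg = true → t.σ = 1 → (∀ e ∈ E, t.ap e = e) → n ≤ 3
def DmLStmt : Prop := ∀ (F : Type) [Field F] [Fintype F] [DecidableEq F] (n : ℕ) (c : Cl F n),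
  ∀ (r : ℕ) (H : Subgroup (Au n F)) (Q : Subgroup (Gl n F)), Loc c r H Q → r ≠ c.p → c.u = false → ∀ δ E (m : ℕ), Del c r H δ → Blk c H E → (∀ e ∈ E, e.rank = m) →
  2 ≤ m → n = 4 ∧ m = 2 ∧ c.q = 3
def DmUStmt : Prop := ∀ (F : Type) [Field F] [Fintype F] [DecidableEq F] (n : ℕ) (c : Cl F n),
  ∀ (r : ℕ) (H : Subgroup (Au n F)) (Q : Subgroup (Gl n F)), Loc c r H Q → r ≠ c.p → c.u = true → ∀ δ E (m : ℕ), Del c r H δ → Blk c H E → (∀ e ∈ E, e.rank = m) →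
  2 ≤ m → n = 4 ∧ m = 2 ∧ c.q = 3
def Dn1Stmt : Prop := ∀ (F : Type) [Field F] [Fintype F] [DecidableEq F] (n : ℕ) (c : Cl F n),
  ∀ (r : ℕ) (H : Subgroup (Au n F)) (Q : Subgroup (Gl n F)), Loc c r H Q → r ≠ c.p → ∀ δ A, Del c r H δ → MinQ c r H Q A → ¬ Ab A → r ≠ 2 →
  r = 3 ∧ Fintype.card F ≤ 81
def Dn2Stmt : Prop := ∀ (F : Type) [Field F] [Fintype F] [DecidableEq F] (n : ℕ) (c : Cl F n),
  ∀ (r : ℕ) (H : Subgroup (Au n F)) (Q : Subgroup (Gl n F)), Loc c r H Q → r ≠ c.p → c.u = false → ∀ δ A, Del c r H δ → MinQ c r H Q A → ¬ Ab A → r = 2 →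
  Fintype.card F ≤ 81
def Dn3Stmt : Prop := ∀ (F : Type) [Field F] [Fintype F] [DecidableEq F] (n : ℕ) (c : Cl F n),
  ∀ (r : ℕ) (H : Subgroup (Au n F)) (Q : Subgroup (Gl n F)), Loc c r H Q → r ≠ c.p → c.u = true → ∀ δ A, Del c r H δ → MinQ c r H Q A → ¬ Ab A → r = 2 →
  Fintype.card F ≤ 81
def PunStmt : Prop := ∀ (F : Type) [Field F] [Fintype F] [DecidableEq F] (n : ℕ) (c : Cl F n),
  ∀ (r : ℕ) (H : Subgroup (Au n F)) (Q : Subgroup (Gl n F)), Loc c r H Q → r = c.p → ∀ X, c.Z < X → X ≤ Q → InvG H X → ∃ X0 : Subgroup (Gl n F),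
  InvG H X0 ∧ X0 ≤ c.S ∧ X0 ≠ ⊥ ∧ IsPGroup c.p X0 ∧ ∀ x, x ∈ X0 ↔ x ∈ X ∧ Unip x
def Par1LStmt : Prop := ∀ (F : Type) [Field F] [Fintype F] [DecidableEq F] (n : ℕ) (c : Cl F n),
  ∀ (r : ℕ) (H : Subgroup (Au n F)) (Q : Subgroup (Gl n F)), Loc c r H Q → c.u = false → ∀ X0 : Subgroup (Gl n F), InvG H X0 → X0 ≠ ⊥ →
  IsPGroup c.p X0 → ∃ Y Y', Flag c H Y Y'
def Par1UStmt : Prop := ∀ (F : Type) [Field F] [Fintype F] [DecidableEq F] (n : ℕ) (c : Cl F n),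
  ∀ (r : ℕ) (H : Subgroup (Au n F)) (Q : Subgroup (Gl n F)), Loc c r H Q → c.u = true → ∀ X0 : Subgroup (Gl n F), InvG H X0 → X0 ≤ c.S → X0 ≠ ⊥ →
  IsPGroup c.p X0 → ∃ Y Y', Flag c H Y Y'
def Par3LStmt : Prop := ∀ (F : Type) [Field F] [Fintype F] [DecidableEq F] (n : ℕ) (c : Cl F n), c.u = false → ∀ Y Y' W : Submodule F (Vc n F), Y ≤ Y' →
  (∀ s ∈ c.S, Stab s Y → Stab s Y' → Stab s W) →
  (W ≤ Y → W = ⊥ ∨ W = Y) ∧ (Y ≤ W → W ≤ Y' → W = Y ∨ W = Y') ∧ (Y' ≤ W → W = Y' ∨ W = ⊤)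
def TriLStmt : Prop := ∀ (F : Type) [Field F] [Fintype F] [DecidableEq F] (n : ℕ) (c : Cl F n),
  ∀ (r : ℕ) (H : Subgroup (Au n F)) (Q : Subgroup (Gl n F)), Loc c r H Q → r = c.p → c.u = false → ∀ Y Y', Flag c H Y Y' → ∀ x ∈ Q, Unip x → Tri x Y Y'
def TriUStmt : Prop := ∀ (F : Type) [Field F] [Fintype F] [DecidableEq F] (n : ℕ) (c : Cl F n),
  ∀ (r : ℕ) (H : Subgroup (Au n F)) (Q : Subgroup (Gl n F)), Loc c r H Q → r = c.p → c.u = true → ∀ Y Y', Flag c H Y Y' → ∀ x ∈ Q, Unip x → Tri x Y Y'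
def Par2LStmt : Prop := ∀ (F : Type) [Field F] [Fintype F] [DecidableEq F] (n : ℕ) (c : Cl F n),
  ∀ (r : ℕ) (H : Subgroup (Au n F)) (Q : Subgroup (Gl n F)), Loc c r H Q → r = c.p → c.u = false → ∀ Y Y' X, Flag c H Y Y' → c.Z < X → X ≤ Q → InvG H X →
  ∃ z ∈ X, z ≠ 1 ∧ Unip z ∧ Cen z Y Y'
def Par2UStmt : Prop := ∀ (F : Type) [Field F] [Fintype F] [DecidableEq F] (n : ℕ) (c : Cl F n),
  ∀ (r : ℕ) (H : Subgroup (Au n F)) (Q : Subgroup (Gl n F)), Loc c r H Q → r = c.p → c.u = true → ∀ Y Y' X, Flag c H Y Y' → c.Z < X → X ≤ Q → InvG H X →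
  ∃ z ∈ X, z ≠ 1 ∧ Unip z ∧ Cen z Y Y'
def Par4LStmt : Prop := ∀ (F : Type) [Field F] [Fintype F] [DecidableEq F] (n : ℕ) (c : Cl F n),
  ∀ (r : ℕ) (H : Subgroup (Au n F)) (Q : Subgroup (Gl n F)), Loc c r H Q → r = c.p → c.u = false → ∀ Y Y' s X, Flag c H Y Y' → CaseA c H Q s X →
  ∀ z ∈ X, z ≠ 1 → Unip z → Cen z Y Y' → False
def Par4UStmt : Prop := ∀ (F : Type) [Field F] [Fintype F] [DecidableEq F] (n : ℕ) (c : Cl F n),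
  ∀ (r : ℕ) (H : Subgroup (Au n F)) (Q : Subgroup (Gl n F)), Loc c r H Q → r = c.p → c.u = true → ∀ Y Y' s X, Flag c H Y Y' → CaseA c H Q s X →
  ∀ z ∈ X, z ≠ 1 → Unip z → Cen z Y Y' → False
def ParELStmt : Prop := ∀ (F : Type) [Field F] [Fintype F] [DecidableEq F] (n : ℕ) (c : Cl F n),
  ∀ (r : ℕ) (H : Subgroup (Au n F)) (Q : Subgroup (Gl n F)), Loc c r H Q → c.u = false → ∀ Y Y' δ, Flag c H Y Y' → Del c r H δ → False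
def ParEUStmt : Prop := ∀ (F : Type) [Field F] [Fintype F] [DecidableEq F] (n : ℕ) (c : Cl F n),
  ∀ (r : ℕ) (H : Subgroup (Au n F)) (Q : Subgroup (Gl n F)), Loc c r H Q → c.u = true → ∀ Y Y' δ, Flag c H Y Y' → Del c r H δ → False

end Cfsg.Agent.H58.SW
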