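import Cfsg.Agent.H53.MWDefs

/-! Colourings of an affine primitive set with small stabilizers (piece COL-B of S4070). -/

set_option autoImplicit false

namespace Cfsg.Agent.H58.ColB

open MulAction Cfsg.Agent.H12.RO Cfsg.Agent.H53.MW Function

universe u

variable {G Ω N : Type u} [Group G] [Finite G] [Group.IsSolvable G] [MulAction G Ω] [Fintype Ω]

/-- a small colour class is fixed by a low term of the derived series -/
theorem cls (psi : PsiStmt.{u}) {κ : Type} (c : Ω → κ) (ω : Ω) {s : ℕ}
    (h : Nat.card {x // c x = c ω} ≤ s + 1) (hs : s ≤ 3) : ∀ g ∈ der (cst G c) s, g • ω = ω := by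
  intro g hg
  let _ : MulAction (cst G c) {x // c x = c ω} :=
    { smul := fun a x => ⟨a.1 • x.1, (a.2 x.1).trans x.2⟩
      one_smul := fun x => Subtype.ext (one_smul G x.1)
      mul_smul := fun a b x => Subtype.ext (mul_smul a.1 b.1 x.1) }
  have h1 := (psi (cst G c) {x // c x = c ω} (by omega)).mono (der_anti _ (b := s) (by omega))
  rw [← map_derivedSeries_subtype, ← der_top] at hg
  obtain ⟨a, ha, rfl⟩ := hg
  exact congrArg Subtype.val (h1 a ha ⟨ω, rfl⟩)

/-- the size of the colour class `a` -/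
def sz {r k : ℕ} (q : Fin r → Fin k) (x : Fin k) (y : ℕ) (a : Fin k) : ℕ :=
  (Finset.univ.filter fun i => q i = a).card + if x = a then y else 0

theorem card_cls {r k y : ℕ} {p : Fin r → Ω} (hp : Injective p) (hy : Fintype.card Ω = r + y)
    (q : Fin r → Fin k) (x a : Fin k) :
    Nat.card {ω // extend p q (fun _ => x) ω = a} = sz q x y a := by
  classical
  rw [Nat.card_eq_fintype_card, Fintype.card_subtype, sz,
    ← Finset.card_filter_add_card_filter_not (fun ω => ω ∈ Finset.univ.image p),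
    ← Finset.card_image_of_injective _ hp]
  congr 1
  · congr 1
    ext ω
    simp only [Finset.mem_filter, Finset.mem_univ, true_and, Finset.mem_image]
    constructor
    · rintro ⟨h, i, rfl⟩
      exact ⟨i, (hp.extend_apply ..).symm.trans h, rfl⟩
    · rintro ⟨i, h, rfl⟩
      exact ⟨(hp.extend_apply ..).trans h, i, rfl⟩
  · have h1 : (Finset.univ.image p)ᶜ.card = y := by
      rw [Finset.card_compl, Finset.card_image_of_injective _ hp, hy]; simp
    split_ifs with h
    · rw [← h1]
      congr 1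
      ext ω
      simp only [Finset.mem_filter, Finset.mem_univ, true_and, Finset.mem_image, Finset.mem_compl,
        and_iff_right_iff_imp]
      exact fun h' => (extend_apply' _ _ _ h').trans h
    · rw [Finset.card_eq_zero]
      ext ω
      simp only [Finset.mem_filter, Finset.mem_univ, true_and, Finset.mem_image,
        Finset.notMem_empty, iff_false, not_and, not_not]
      exact fun h' => by_contra fun h2 => h ((extend_apply' _ _ _ h2).symm.trans h')

/-- the decidable condition on the patterns -/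
def Ok {r k k' : ℕ} (d : Fin k → ℕ) (d' : Fin k' → ℕ) (q : Fin k' → Fin r → Fin k)
    (x : Fin k' → Fin k) (y : ℕ) : Prop :=
  (∀ j j', (∀ a, sz (q j) (x j) y a = sz (q j') (x j') y a) → j = j') ∧
    ∀ j, d (x j) ≤ d' j ∧ ∀ i, q j i ≠ x j ∧ sz (q j) (x j) 0 (q j i) + d (q j i) ≤ d' j + 1 ∧
      sz (q j) (x j) 0 (q j i) + d (x j) ≤ d' j + 1

instance {r k k' : ℕ} (d : Fin k → ℕ) (d' : Fin k' → ℕ) (q : Fin k' → Fin r → Fin k)
    (x : Fin k' → Fin k) (y : ℕ) : Decidable (Ok d d' q x y) := by unfold Ok; infer_instance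

theorem sz_le {r k : ℕ} (q : Fin r → Fin k) (a : Fin k) :
    (Finset.univ.filter fun i => q i = a).card ≤ r :=
  (Finset.card_filter_le _ _).trans (by simp)

theorem cols_of (psi : PsiStmt.{u}) {r k k' y : ℕ} {p : Fin r → Ω} (hp : Injective p)
    (hb : ∀ g : G, (∀ i, g • p i = p i) → ∀ ω : Ω, g • ω = ω) (hr : r ≤ 4)
    (hy : Fintype.card Ω = r + y) {d : Fin k → ℕ} {d' : Fin k' → ℕ} (q : Fin k' → Fin r → Fin k)
    (x : Fin k' → Fin k) (h : Ok d d' q x (min y 5)) : Cols G Ω d d' := by
  refine ⟨fun j => extend p (q j) fun _ => x j, fun j j' g hg => h.1 j j' ?_, fun j ω => ?_⟩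
  · have h1 : ∀ a, sz (q j) (x j) y a = sz (q j') (x j') y a := fun a => by
      rw [← card_cls hp hy, ← card_cls hp hy]
      exact Nat.card_congr ((toPerm g).subtypeEquiv fun ω => Eq.congr_left (hg ω).symm)
    rcases le_total y 5 with h5 | h5
    · rwa [min_eq_left h5]
    have h2 : x j = x j' := by
      have h3 := h1 (x j)
      have h4 := sz_le (q j') (x j)
      unfold sz at h3
      rw [if_pos rfl] at h3
      split_ifs at h3 with h6
      · exact h6.symm
      · omega
    intro a
    have h3 := h1 a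
    unfold sz at h3 ⊢
    rw [h2] at h3 ⊢
    omega
  have key : ∀ i s, sz (q j) (x j) 0 (q j i) ≤ s + 1 →
      ∀ g ∈ der (cst G (extend p (q j) fun _ => x j)) s, g • p i = p i := fun i s hs g hg => by
    have h1 := sz_le (q j) (q j i)
    have h2 := ((h.2 j).2 i).1.symm
    refine cls psi _ _ (s := min s 3) ?_ (by omega) g (der_anti _ (by omega) hg)
    rw [hp.extend_apply, card_cls hp hy]
    unfold sz at hs ⊢
    rw [if_neg h2] at hs ⊢
    omega
  by_cases hω : ∃ i, p i = ω
  · obtain ⟨i, rfl⟩ := hω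
    have h1 := ((h.2 j).2 i).2.1
    have h2 : 0 < sz (q j) (x j) 0 (q j i) :=
      Nat.add_pos_left (Finset.card_pos.2 ⟨i, by simp⟩) _
    refine ⟨d' j - d (q j i), ?_, key i _ (by omega)⟩
    simp only [hp.extend_apply]
    omega
  · have h1 := (h.2 j).1
    refine ⟨d' j - d (x j), ?_, fun g hg => hb g (fun i => key i _ ?_ g hg) ω⟩
    · simp only [extend_apply' _ _ _ hω]
      omega
    · have := ((h.2 j).2 i).2.2
      omega

variable [AddCommGroup N] [DistribMulAction G N]

omit [Finite G] [Group.IsSolvable G] in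
theorem base_of (A : Aff G Ω N) {n r : ℕ} {v : Fin n → N} (hv : IsBase G v) (h1 : n + 1 ≤ r)
    (h2 : r ≤ Fintype.card Ω) :
    ∃ p : Fin r → Ω, Injective p ∧ ∀ g : G, (∀ i, g • p i = p i) → ∀ ω : Ω, g • ω = ω := by
  classical
  obtain ⟨B, hB, hc⟩ := Finset.exists_superset_card_eq
    (s := insert (A.e.symm 0) (Finset.univ.image fun i => A.e.symm (v i)))
    ((Finset.card_insert_le _ _).trans
      ((Nat.succ_le_succ (Finset.card_image_le.trans (by simp))).trans h1)) h2
  refine ⟨fun i => ((Finset.equivFinOfCardEq hc).symm i).1,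
    Subtype.val_injective.comp (Equiv.injective _), fun g hg => ?_⟩
  have h3 : ∀ x : N, A.e.symm x ∈ B → g • x + A.c g = x := fun x hx => by
    have := congrArg A.e (hg (Finset.equivFinOfCardEq hc ⟨_, hx⟩))
    simpa [A.he] using this
  have h0 : A.c g = 0 := by simpa using h3 0 (hB (Finset.mem_insert_self _ _))
  refine A.triv h0 (hv g fun i => ?_)
  simpa [h0] using h3 (v i) (hB (Finset.mem_insert_of_mem (Finset.mem_image_of_mem _
    (Finset.mem_univ i))))

theorem colB (psi : PsiStmt.{u}) : ColBStmt.{u} := by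
  intro G Ω N _ _ _ _ _ _ _ _ A
  have : Finite N := Finite.of_equiv _ A.e
  have h2 : 2 ≤ Fintype.card Ω := Fintype.one_lt_card
  by_cases hm : (Fintype.card Ω).Prime
  · have : Nontrivial N := A.e.symm.nontrivial
    obtain ⟨v, hv⟩ := exists_ne (0 : N)
    have := Fact.mk hm
    obtain ⟨p, hp, hb⟩ := base_of A (v := ![v]) (r := 2) (fun g hg x => by
      obtain ⟨k, rfl⟩ := mem_zmultiples_of_prime_card A.card_eq hv (g' := x)
      have : g • v = v := hg 0
      simp only [smul_comm g k, this]) le_rfl h2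
    obtain ⟨y, hy⟩ := Nat.exists_eq_add_of_le h2
    have h4 : min y 5 ≠ 2 := fun h => by
      rw [hy, show y = 2 by omega] at hm; norm_num at hm
    have h5 : min y 5 < 6 := by omega
    refine ⟨?_, cols_of psi hp hb (by norm_num) hy ![![1, 2], ![1, 3], ![2, 3], ![1, 1], ![2, 2]]
      (fun _ => 0) ?_, cols_of psi hp hb (by norm_num) hy (fun j i => j + 1 + i.castLE (by norm_num))
      id ?_⟩
    · by_cases h1 : min y 5 = 1
      · exact cols_of psi hp hb (by norm_num) hy ![![1, 1], ![1, 2], ![2, 2], ![0, 0], ![2, 2]]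
          ![0, 0, 0, 1, 1] (by rw [h1]; decide)
      · refine cols_of psi hp hb (by norm_num) hy ![![1, 1], ![1, 2], ![2, 2], ![0, 0], ![0, 2]]
          ![0, 0, 0, 1, 1] ?_
        revert h4 h1
        revert h5
        generalize min y 5 = z
        revert z
        decide
    all_goals
      revert h5
      generalize min y 5 = z
      revert z
      decide
  have h6 : Fintype.card Ω ≠ 6 := fun h => by
    have h1 := A.card_eq.trans h
    obtain ⟨a, ha⟩ := exists_prime_addOrderOf_dvd_card' (G := N) 2 (by rw [h1]; norm_num)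
    obtain ⟨b, hb⟩ := exists_prime_addOrderOf_dvd_card' (G := N) 3 (by rw [h1]; norm_num)
    rcases A.irr (nsmulAddMonoidHom 2).ker (fun g v hv => by
      have : 2 • v = 0 := hv
      change 2 • g • v = 0
      rw [← smul_comm, this, smul_zero]) with h | h
    · have : a ∈ (⊥ : AddSubgroup N) := h ▸ (ha ▸ addOrderOf_nsmul_eq_zero a : 2 • a = 0)
      rw [AddSubgroup.mem_bot.1 this] at ha
      simp at ha
    · have : b ∈ (nsmulAddMonoidHom 2 : N →+ N).ker := h ▸ AddSubgroup.mem_top b
      have := addOrderOf_dvd_of_nsmul_eq_zero (n := 2) (x := b) this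
      rw [hb] at this
      omega
  have h4 : 4 ≤ Fintype.card Ω := by
    by_contra h
    interval_cases Fintype.card Ω <;> norm_num at hm
  obtain ⟨v, hv⟩ := seress ‹_› A.irr.cr
  obtain ⟨p, hp, hb⟩ := base_of A hv le_rfl h4
  obtain ⟨y, hy⟩ := Nat.exists_eq_add_of_le h4
  have h5 : min y 5 < 6 ∧ min y 5 ≠ 1 ∧ min y 5 ≠ 2 ∧ min y 5 ≠ 3 :=
    ⟨by omega, fun h => by rw [hy, show y = 1 by omega] at hm; norm_num at hm, by omega,
      fun h => by rw [hy, show y = 3 by omega] at hm; norm_num at hm⟩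
  refine ⟨cols_of psi hp hb le_rfl hy
      ![![1, 1, 1, 2], ![1, 1, 2, 2], ![0, 0, 0, 2], ![0, 0, 2, 2], ![0, 0, 1, 1]]
      ![0, 0, 1, 1, 2] ?_,
    cols_of psi hp hb le_rfl hy
      ![![1, 1, 2, 3], ![1, 2, 2, 3], ![1, 2, 3, 3], ![1, 1, 2, 2], ![1, 1, 3, 3]] (fun _ => 0) ?_,
    cols_of psi hp hb le_rfl hy (fun j i => j + 1 + i.castLE (by norm_num)) id ?_⟩
  all_goals
    obtain ⟨h5, h7⟩ := h5
    revert h5 h7
    generalize min y 5 = z
    revert z
    decide

end Cfsg.Agent.H58.ColB
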