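import Cfsg.Agent.H45.GdDefs

/-! Project CY, chapter IV: piece ODD for mixed systems. -/

set_option autoImplicit false
set_option linter.unusedVariables false

namespace Cfsg.Agent.H58.CyOd

open Subgroup MulAction Cfsg.Agent.H11.Cy Cfsg.Agent.H45.Iv Cfsg.Agent.H45.Gd

theorem inv_pow' {G : Type} [Group G] {z g : G} (h : z * g = g⁻¹ * z) (k : ℕ) :
    z * g ^ k = (g ^ k)⁻¹ * z := by
  have : SemiconjBy z g g⁻¹ := h
  simpa using (this.pow_right k).eq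

theorem odS : OdStmt := by
  intro G _ _ Ω _ _ p A mx mk yp Ψ Φ m1 m2 hne z hz z1 e he e1 y y1 y2
  have zz : z * z = 1 := (mk.gd Ψ m1).2.1 z hz
  have ee : e * e = 1 := (mk.gd Φ m2).2.1 e he
  have zi : z⁻¹ = z := inv_eq_of_mul_eq_one_right zz
  have ei : e⁻¹ = e := inv_eq_of_mul_eq_one_right ee
  obtain ⟨g, hg⟩ : ∃ g, g = z * e := ⟨_, rfl⟩
  rw [← hg]
  have hz' : z * g = g⁻¹ * z := by
    rw [hg, mul_inv_rev, zi, ei, ← mul_assoc, zz, mul_assoc, zz, one_mul, mul_one]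
  have he' : e * g = g⁻¹ * e := by rw [hg, mul_inv_rev, zi, ei, mul_assoc]
  have gy : ∀ k : ℕ, g ^ k • y = y := by
    have : g ∈ stabilizer G y := by
      rw [mem_stabilizer_iff, hg, mul_smul, (mk.fx Φ m2 e he e1 y).2 y2, (mk.fx Ψ m1 z hz z1 y).2 y1]
    exact fun k => pow_mem this k
  by_contra hodd
  obtain ⟨m, hm⟩ := Nat.not_odd_iff_even.1 hodd
  have op := orderOf_pos g
  have ii : g ^ m * g ^ m = 1 := by rw [← pow_add, ← hm, pow_orderOf_eq_one]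
  have iv : (g ^ m)⁻¹ = g ^ m := inv_eq_of_mul_eq_one_right ii
  have i1 : g ^ m ≠ 1 := pow_ne_one_of_lt_orderOf (by omega) (by omega)
  have iz : z * g ^ m = g ^ m * z := by rw [inv_pow' hz', iv]
  have ie : e * g ^ m = g ^ m * e := by rw [inv_pow' he', iv]
  have key : ∀ Θ, Mx A Θ → y ∈ Θ → ∀ w ∈ Es A Θ, w ≠ 1 → ∀ k : ℕ,
      g ^ k * w * (g ^ k)⁻¹ = g ^ m * z → False := by
    intro Θ m0 y0 w hw w1 k hk
    obtain ⟨m3, h3⟩ := mk.cj (g ^ k) Θ m0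
    have h4 := h3 w hw
    rw [hk] at h4
    have n1 : g ^ m * z ≠ 1 := by
      rw [← hk]
      intro e0
      apply w1
      have : w = (g ^ k)⁻¹ * (g ^ k * w * (g ^ k)⁻¹) * g ^ k := by group
      rw [this, e0]; group
    have h5 : (fun w => g ^ k • w) '' Θ = Ψ := by
      by_contra hn
      exact yp _ Ψ m3 m1 hn _ h4 n1 z hz z1 (by rw [← mul_assoc z, iz]) y ⟨y, y0, gy k⟩ y1
    rw [h5] at h4
    have h6 : g ^ m ∈ Es A Ψ := by simpa using mul_mem h4 (inv_mem hz)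
    exact yp Ψ Φ m1 m2 hne _ h6 i1 e he e1 ie.symm y y1 y2
  rcases Nat.even_or_odd' m with ⟨k, rfl | rfl⟩
  · refine key Ψ m1 y1 z hz z1 k ?_
    have := inv_pow' hz' k
    calc g ^ k * z * (g ^ k)⁻¹ = g ^ k * g ^ k * ((g ^ k)⁻¹ * z) * (g ^ k)⁻¹ := by group
      _ = _ := by rw [← this]; group
  · refine key Φ m2 y2 e he e1 (k + 1) ?_
    have := inv_pow' he' (k + 1)
    have ge : g * e = z := by rw [hg, mul_assoc, ee, mul_one]
    calc g ^ (k + 1) * e * (g ^ (k + 1))⁻¹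
        = g ^ (k + 1) * g ^ (k + 1) * ((g ^ (k + 1))⁻¹ * e) * (g ^ (k + 1))⁻¹ := by group
      _ = g ^ (2 * k + 1) * (g * e) := by rw [← this]; group
      _ = _ := by rw [ge]

end Cfsg.Agent.H58.CyOd
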