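import Cfsg.Agent.H45.IvDefs

/-! Project CY, chapter IV: lemma Y on two maximal good subspaces. -/

set_option autoImplicit false
set_option linter.unusedVariables false
set_option linter.unusedSectionVars false

namespace Cfsg.Agent.H58.CyY

open Subgroup MulAction Cfsg.Agent.H11.Cy Cfsg.Agent.H45.Iv
open scoped commutatorElement

variable {G : Type} [Group G] {Ω : Type} [MulAction G Ω] {p : ℕ} {A : Ω → Subgroup G}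

/-- maximal proper subspace -/
def Mx (A : Ω → Subgroup G) (P Ψ : Set Ω) : Prop :=
  Sub A Ψ ∧ Ψ ⊆ P ∧ Ψ ≠ P ∧ ∀ Φ, Sub A Φ → Ψ ⊆ Φ → Φ ⊆ P → Φ = Ψ ∨ Φ = P

/-- setwise stabiliser -/
def Sb (G : Type) [Group G] [MulAction G Ω] (Ψ : Set Ω) : Subgroup G where
  carrier := {g | ∀ w, g • w ∈ Ψ ↔ w ∈ Ψ}
  one_mem' := by intro w; rw [one_smul]
  mul_mem' := by intro a b ha hb w; rw [mul_smul, ha, hb]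
  inv_mem' := by intro a ha w; rw [← ha, smul_inv_smul]

theorem mem_Sb {Ψ : Set Ω} {g : G} : g ∈ Sb G Ψ ↔ ∀ w, g • w ∈ Ψ ↔ w ∈ Ψ := Iff.rfl

theorem sub_le {P : Set Ω} (hP : Sub A P) (H : Subgroup G) : Sub A {w | w ∈ P ∧ A w ≤ H} := by
  intro x hx y hy hxy w hw
  exact ⟨hP x hx.1 y hy.1 hxy hw, le_trans hw (sup_le hx.2 hy.2)⟩

theorem ms_le {Ψ : Set Ω} {H : Subgroup G} : Ms A Ψ ≤ H ↔ ∀ w ∈ Ψ, A w ≤ H := by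
  simp only [Ms, iSup_le_iff]

theorem a_le {Ψ : Set Ω} {w : Ω} (hw : w ∈ Ψ) : A w ≤ Ms A Ψ := ms_le.1 le_rfl w hw

theorem ms_mono {Ψ Φ : Set Ω} (h : Ψ ⊆ Φ) : Ms A Ψ ≤ Ms A Φ := ms_le.2 fun w hw => a_le (h hw)

theorem ts_le {Ψ : Set Ω} : Ts A Ψ ≤ Ms A Ψ := commutator_le.2 fun a ha b hb =>
  mul_mem (mul_mem (mul_mem ha hb) (inv_mem ha)) (inv_mem hb)

theorem ts_mono {Ψ Φ : Set Ω} (h : Ψ ⊆ Φ) : Ts A Ψ ≤ Ts A Φ :=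
  commutator_mono (ms_mono h) (ms_mono h)

theorem cs_comm {Ψ : Set Ω} {k m : G} (hk : k ∈ Cs A Ψ) (hm : m ∈ Ms A Ψ) : m * k = k * m := hk m hm

theorem cs_iff {Ψ : Set Ω} {k : G} : k ∈ Cs A Ψ ↔ ∀ w ∈ Ψ, A w ≤ centralizer {k} := by
  rw [← ms_le]
  exact ⟨fun h m hm => mem_centralizer_singleton_iff.2 (h m hm),
    fun h m hm => mem_centralizer_singleton_iff.1 (h hm)⟩

theorem cs_anti {Ψ Φ : Set Ω} (h : Ψ ⊆ Φ) : Cs A Φ ≤ Cs A Ψ := fun k hk m hm => hk m (ms_mono h hm)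

theorem ms_sb (k : SK A) {Ψ : Set Ω} (hΨ : Sub A Ψ) : Ms A Ψ ≤ Sb G Ψ := fun m hm w =>
  ⟨fun h => by simpa using k.inv Ψ hΨ m⁻¹ (inv_mem hm) _ h, k.inv Ψ hΨ m hm w⟩

/-- a subgroup containing the groups of two maximal subspaces -/
theorem two_le {P Ψ1 Ψ2 : Set Ω} (hP : Sub A P) (m1 : Mx A P Ψ1) (m2 : Mx A P Ψ2) (hne : Ψ1 ≠ Ψ2)
    {H : Subgroup G} (h1 : Ms A Ψ1 ≤ H) (h2 : Ms A Ψ2 ≤ H) : Ms A P ≤ H := by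
  rcases m1.2.2.2 _ (sub_le hP H) (fun w hw => ⟨m1.2.1 hw, ms_le.1 h1 w hw⟩) (fun w hw => hw.1)
    with e | e
  · exfalso
    have h3 : Ψ2 ⊆ Ψ1 := fun w hw => e ▸ (⟨m2.2.1 hw, ms_le.1 h2 w hw⟩ : w ∈ {w | w ∈ P ∧ A w ≤ H})
    rcases m2.2.2.2 Ψ1 m1.1 h3 m1.2.1 with e' | e'
    · exact hne e'
    · exact m1.2.2.1 e'
  · exact ms_le.2 fun w hw => (e.symm ▸ hw : w ∈ {w | w ∈ P ∧ A w ≤ H}).2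

theorem ee {P Ψ1 Ψ2 : Set Ω} (hP : Sub A P) (m1 : Mx A P Ψ1) (m2 : Mx A P Ψ2) (hne : Ψ1 ≠ Ψ2)
    {c : G} (h1 : c ∈ Cs A Ψ1) (h2 : c ∈ Cs A Ψ2) : c ∈ Cs A P :=
  cs_iff.2 (ms_le.1 (two_le hP m1 m2 hne (ms_le.2 (cs_iff.1 h1)) (ms_le.2 (cs_iff.1 h2))))

theorem cen_iff {P Ψ : Set Ω} (hP : Sub A P) (m : Mx A P Ψ) {z : G} (hz : z ∈ Cs A Ψ)
    (hz' : z ∉ Cs A P) {w : Ω} : w ∈ Ψ ↔ w ∈ P ∧ A w ≤ centralizer {z} := by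
  rcases m.2.2.2 _ (sub_le hP (centralizer {z})) (fun w hw => ⟨m.2.1 hw, cs_iff.1 hz w hw⟩)
    (fun w hw => hw.1) with e | e
  · exact e ▸ Iff.rfl
  · exact absurd (cs_iff.2 fun w hw => (e.symm ▸ hw : w ∈ {w | w ∈ P ∧ A w ≤ centralizer {z}}).2) hz'

theorem stab_of (h : St p A) {P Ψ : Set Ω} (hP : Sub A P) (m : Mx A P Ψ) {z g : G}
    (hz : z ∈ Cs A Ψ) (hz' : z ∉ Cs A P) (hg : g ∈ Sb G P) (hc : ⁅g, z⁆ ∈ Cs A P) : g ∈ Sb G Ψ := by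
  intro w
  rw [cen_iff hP m hz hz', cen_iff hP m hz hz', hg w]
  refine and_congr_right fun hw => ⟨fun h1 a ha => ?_, fun h1 a ha => ?_⟩
  · have h2 := h.eqv g w a ha
    have h3 := mem_centralizer_singleton_iff.1 (h1 h2)
    have h4 := cs_comm hc (a_le ((hg w).2 hw) h2)
    refine mem_centralizer_singleton_iff.2 ?_
    rw [commutatorElement_def] at h4
    calc a * z = g⁻¹ * (g * a * g⁻¹ * (g * z * g⁻¹ * z⁻¹)) * z * g := by group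
      _ = g⁻¹ * (g * z * g⁻¹ * z⁻¹) * (g * a * g⁻¹ * z) * g := by rw [h4]; group
      _ = z * a := by rw [h3]; group
  · have h2 := h.eqv g⁻¹ _ a ha
    rw [inv_smul_smul, inv_inv] at h2
    have h3 := mem_centralizer_singleton_iff.1 (h1 h2)
    have h4 := cs_comm hc (a_le ((hg w).2 hw) ha)
    refine mem_centralizer_singleton_iff.2 ?_
    rw [commutatorElement_def] at h4
    have h5 : a * (g * z * g⁻¹) = g * z * g⁻¹ * a := by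
      calc a * (g * z * g⁻¹) = g * (g⁻¹ * a * g * z) * g⁻¹ := by group
        _ = g * z * g⁻¹ * a := by rw [h3]; group
    calc a * z = (g * z * g⁻¹ * z⁻¹)⁻¹ * (g * z * g⁻¹ * z⁻¹ * a) * z := by group
      _ = (g * z * g⁻¹ * z⁻¹)⁻¹ * (a * (g * z * g⁻¹)) := by rw [← h4]; group
      _ = z * a := by rw [h5]; group

theorem ts_two {Ψ : Set Ω} {d : Ω} (ga : GA A Ψ d) (gb : GB A Ψ) : IsPGroup 2 (Ts A Ψ) := by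
  intro t
  refine ⟨2, Subtype.ext ?_⟩
  have := gb _ ⟨mul_mem t.2 t.2, ga.sq t t.2⟩
  rw [Subgroup.coe_pow, Subgroup.coe_one, ← this]
  norm_num [pow_succ, mul_assoc]

/-- one half of lemma Y -/
theorem half (h : St p A) (k : SK A) {P Ψ1 Ψ2 : Set Ω} (hP : Sub A P) (m1 : Mx A P Ψ1)
    (m2 : Mx A P Ψ2) (hne : Ψ1 ≠ Ψ2) {d : Ω} (d1 : d ∈ Ψ1) (d2 : d ∈ Ψ2) (a1 : GA A Ψ1 d)
    (b1 : GB A Ψ1) (a2 : GA A Ψ2 d) (b2 : GB A Ψ2) (a0 : GA A (Ψ1 ∩ Ψ2) d) {e : G}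
    (he : e ∈ Ts A Ψ2 ⊓ Cs A Ψ2) (he' : e ∉ Cs A P) (he1 : e ∈ Sb G Ψ1) {Y : Subgroup G}
    (hY : Y = (Ts A Ψ1 ⊓ Sb G Ψ2) ⊔ (Ts A Ψ2 ⊓ Sb G Ψ1)) :
    Ms A Ψ1 ≤ normalizer (Y : Set G) := by
  have TP1 : Ts A Ψ1 ≤ Sb G P := ts_le.trans ((ms_mono m1.2.1).trans (ms_sb k hP))
  have T01 : Ts A (Ψ1 ∩ Ψ2) ≤ Ts A Ψ1 := ts_mono Set.inter_subset_left
  have T02 : Ts A (Ψ1 ∩ Ψ2) ≤ Ts A Ψ2 := ts_mono Set.inter_subset_right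
  have S1 : Ts A Ψ1 ≤ Sb G Ψ1 := ts_le.trans (ms_sb k m1.1)
  have S2 : Ts A Ψ2 ≤ Sb G Ψ2 := ts_le.trans (ms_sb k m2.1)
  have Y1 : ∀ t ∈ Ts A Ψ1, t ∈ Sb G Ψ2 → t ∈ Y := fun t ht hs => hY ▸ mem_sup_left ⟨ht, hs⟩
  have Y2 : ∀ t ∈ Ts A Ψ2, t ∈ Sb G Ψ1 → t ∈ Y := fun t ht hs => hY ▸ mem_sup_right ⟨ht, hs⟩
  -- decomposition
  have dec1 : ∀ t ∈ Ts A Ψ1, t • d ∈ Ψ2 → ∃ ρ ∈ Ts A (Ψ1 ∩ Ψ2), ρ⁻¹ * t ∈ Cs A Ψ1 := by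
    intro t ht h2
    obtain ⟨ρ, hρ, e1⟩ := a0.tr (t • d) ⟨(S1 ht d).2 d1, h2⟩
    exact ⟨ρ, hρ, a1.stab _ (mul_mem (inv_mem (T01 hρ)) ht) (by rw [mul_smul, ← e1, inv_smul_smul])⟩
  have dec2 : ∀ t ∈ Ts A Ψ2, t • d ∈ Ψ1 → ∃ ρ ∈ Ts A (Ψ1 ∩ Ψ2), ρ⁻¹ * t ∈ Cs A Ψ2 := by
    intro t ht h2
    obtain ⟨ρ, hρ, e1⟩ := a0.tr (t • d) ⟨h2, (S2 ht d).2 d2⟩
    exact ⟨ρ, hρ, a2.stab _ (mul_mem (inv_mem (T02 hρ)) ht) (by rw [mul_smul, ← e1, inv_smul_smul])⟩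
  -- commutators with `X2`
  have key : ∀ t ∈ Ts A Ψ1, ∀ f ∈ Ts A Ψ2 ⊓ Cs A Ψ2, f ∈ Sb G Ψ1 → f ∉ Cs A P →
      ∃ ρ ∈ Ts A (Ψ1 ∩ Ψ2), ρ⁻¹ * ⁅t, f⁆ ∈ Cs A Ψ1 ∧ ⁅t, f⁆ ∈ Ts A Ψ1 ∧ ⁅t, f⁆ ∈ Sb G Ψ2 := by
    intro t ht f hf f1 f'
    have ff : f * f = 1 := b2 f hf
    have fi : f⁻¹ = f := inv_eq_of_mul_eq_one_right ff
    have n1 := k.nrm Ψ1 f f1
    have hδ : ⁅t, f⁆ ∈ Ts A Ψ1 := by
      have : ⁅t, f⁆ = t * (f * t⁻¹ * f⁻¹) := by rw [commutatorElement_def]; group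
      rw [this]; exact mul_mem ht (n1.2.1 _ (inv_mem ht))
    have inv : f * ⁅t, f⁆ * f⁻¹ = ⁅t, f⁆⁻¹ := by
      rw [commutatorElement_def, fi]
      calc f * (t * f * t⁻¹ * f) * f = f * t * f * t⁻¹ * (f * f) := by group
        _ = (t * f⁻¹ * t⁻¹ * f⁻¹)⁻¹ := by rw [ff]; group
        _ = _ := by rw [fi]
    have fd : f • d = d := k.csfix Ψ2 f hf.2 d d2
    have fx : f • (⁅t, f⁆ • d) = ⁅t, f⁆ • d := by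
      have h1 : (⁅t, f⁆ * ⁅t, f⁆) • d = d := k.csfix Ψ1 _ (a1.sq _ hδ) d d1
      calc f • (⁅t, f⁆ • d) = (f * ⁅t, f⁆ * f⁻¹) • d := by rw [fi, mul_smul, mul_smul, fd]
        _ = ⁅t, f⁆⁻¹ • ((⁅t, f⁆ * ⁅t, f⁆) • d) := by rw [inv, h1]
        _ = _ := by rw [mul_smul, inv_smul_smul]
    have in2 : ⁅t, f⁆ • d ∈ Ψ2 := by
      have h1 : f ∈ Cs A {d, ⁅t, f⁆ • d} := k.csof _ d (Or.inl rfl) f ((k.cs Ψ2 f).1 hf.2 d d2) (by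
        rintro w (rfl | rfl)
        · exact fd
        · exact fx)
      exact (cen_iff hP m2 hf.2 f').2 ⟨m1.2.1 ((S1 hδ d).2 d1), cs_iff.1 h1 _ (Or.inr rfl)⟩
    obtain ⟨ρ, hρ, hε⟩ := dec1 _ hδ in2
    refine ⟨ρ, hρ, hε, hδ, ?_⟩
    have hεT : ρ⁻¹ * ⁅t, f⁆ ∈ Ts A Ψ1 := mul_mem (inv_mem (T01 hρ)) hδ
    obtain ⟨ε, hεd⟩ : ∃ ε, ε = ρ⁻¹ * ⁅t, f⁆ := ⟨_, rfl⟩
    rw [← hεd] at hε hεT
    have e0 : ⁅t, f⁆ = ρ * ε := by rw [hεd]; group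
    have εε : ε * ε = 1 := b1 ε ⟨hεT, hε⟩
    have c1 : ρ * f = f * ρ := cs_comm hf.2 (ts_le (T02 hρ))
    have c2 : ρ * ε = ε * ρ := cs_comm hε (ts_le (T01 hρ))
    have sq : ρ * ρ ∈ Cs A P := ee hP m1 m2 hne (a1.sq ρ (T01 hρ)) (a2.sq ρ (T02 hρ))
    have e1 : ⁅ε, f⁆ = ρ * ρ := by
      have h1 : f * ε⁻¹ * f⁻¹ = ρ * ε * ρ := by
        rw [e0] at inv
        have h2 : f * (ρ * ε)⁻¹ * f⁻¹ = ρ * ε := by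
          calc f * (ρ * ε)⁻¹ * f⁻¹ = (f * (ρ * ε) * f⁻¹)⁻¹ := by group
            _ = ρ * ε := by rw [inv, inv_inv]
        calc f * ε⁻¹ * f⁻¹ = (f * (ρ * ε)⁻¹ * f⁻¹) * (f * ρ) * f⁻¹ := by group
          _ = ρ * ε * (ρ * f) * f⁻¹ := by rw [h2, ← c1]
          _ = ρ * ε * ρ := by group
      calc ⁅ε, f⁆ = ε * (f * ε⁻¹ * f⁻¹) := by rw [commutatorElement_def]; group
        _ = ε * (ρ * ε) * ρ := by rw [h1]; group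
        _ = (ε * ε) * (ρ * ρ) := by rw [c2]; group
        _ = ρ * ρ := by rw [εε, one_mul]
    rw [e0]
    exact mul_mem (S2 (T02 hρ)) (stab_of h hP m2 hf.2 f' (TP1 hεT) (e1 ▸ sq))
  have key2 : ∀ t ∈ Ts A Ψ1, ∀ ρ ∈ Ts A (Ψ1 ∩ Ψ2), ⁅t, ρ⁆ ∈ Y := by
    intro t ht ρ hρ
    have hκT : ⁅t, ρ⁆ ∈ Ts A Ψ1 :=
      mul_mem (mul_mem (mul_mem ht (T01 hρ)) (inv_mem ht)) (inv_mem (T01 hρ))
    have hκ : ⁅t, ρ⁆ ∈ Cs A Ψ1 := a1.com t ht ρ (T01 hρ)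
    obtain ⟨σ, hσ, hε, hδ, -⟩ := key t ht e he he1 he'
    obtain ⟨ε, hεd⟩ : ∃ ε, ε = σ⁻¹ * ⁅t, e⁆ := ⟨_, rfl⟩
    rw [← hεd] at hε
    have e0 : e * t * e⁻¹ = ε⁻¹ * σ⁻¹ * t := by rw [hεd, commutatorElement_def]; group
    have c1 : ρ * e = e * ρ := cs_comm he.2 (ts_le (T02 hρ))
    have hc1 : ⁅σ⁻¹, ρ⁆ ∈ Cs A Ψ1 := a1.com _ (inv_mem (T01 hσ)) ρ (T01 hρ)
    have hc : ⁅σ⁻¹, ρ⁆ ∈ Cs A P := ee hP m1 m2 hne hc1 (a2.com _ (inv_mem (T02 hσ)) ρ (T02 hρ))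
    have c2 : σ⁻¹ * ⁅t, ρ⁆ = ⁅t, ρ⁆ * σ⁻¹ := cs_comm hκ (ts_le (inv_mem (T01 hσ)))
    have c3 : (σ⁻¹ * t * ρ * t⁻¹ * σ) * ε = ε * (σ⁻¹ * t * ρ * t⁻¹ * σ) := cs_comm hε (ts_le
      (mul_mem (mul_mem (mul_mem (mul_mem (inv_mem (T01 hσ)) ht) (T01 hρ)) (inv_mem ht)) (T01 hσ)))
    have c4 : ⁅t, ρ⁆ * ⁅σ⁻¹, ρ⁆⁻¹ = ⁅σ⁻¹, ρ⁆⁻¹ * ⁅t, ρ⁆ := cs_comm (inv_mem hc1) (ts_le hκT)
    have e2 : e * ⁅t, ρ⁆ * e⁻¹ = ⁅t, ρ⁆ * ⁅σ⁻¹, ρ⁆ := by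
      calc e * ⁅t, ρ⁆ * e⁻¹
          = (e * t * e⁻¹) * (e * ρ * e⁻¹) * (e * t * e⁻¹)⁻¹ * (e * ρ * e⁻¹)⁻¹ := by
            rw [commutatorElement_def]; group
        _ = ε⁻¹ * ((σ⁻¹ * t * ρ * t⁻¹ * σ) * ε) * ρ⁻¹ := by rw [e0, ← c1]; group
        _ = σ⁻¹ * ⁅t, ρ⁆ * ρ * σ * ρ⁻¹ := by rw [c3, commutatorElement_def]; group
        _ = _ := by rw [c2, commutatorElement_def σ⁻¹]; group
    have e3 : ⁅⁅t, ρ⁆, e⁆ = ⁅σ⁻¹, ρ⁆⁻¹ := by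
      calc ⁅⁅t, ρ⁆, e⁆ = ⁅t, ρ⁆ * (e * ⁅t, ρ⁆ * e⁻¹)⁻¹ := by rw [commutatorElement_def ⁅t, ρ⁆]; group
        _ = ⁅t, ρ⁆ * ⁅σ⁻¹, ρ⁆⁻¹ * ⁅t, ρ⁆⁻¹ := by rw [e2, mul_inv_rev, mul_assoc]
        _ = _ := by rw [c4, mul_inv_cancel_right]
    exact Y1 _ hκT (stab_of h hP m2 he.2 he' (TP1 hκT) (e3 ▸ inv_mem hc))
  have nT : ∀ t ∈ Ts A Ψ1, ∀ y ∈ Y, t * y * t⁻¹ ∈ Y := by
    intro t ht
    have : Y ≤ Y.comap (MulAut.conj t).toMonoidHom := by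
      conv_lhs => rw [hY]
      refine sup_le ?_ ?_
      · rintro y ⟨hy, hy2⟩
        obtain ⟨ρ, hρ, hx⟩ := dec1 y hy ((hy2 d).2 d2)
        have c1 := cs_comm hx (ts_le ht)
        have : t * y * t⁻¹ = ⁅t, ρ⁆ * y := by
          calc t * y * t⁻¹ = t * ρ * t⁻¹ * (t * (ρ⁻¹ * y)) * t⁻¹ := by group
            _ = _ := by rw [c1, commutatorElement_def]; group
        change t * y * t⁻¹ ∈ Y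
        rw [this]
        exact mul_mem (key2 t ht ρ hρ) (Y1 y hy hy2)
      · rintro y ⟨hy, hy1⟩
        obtain ⟨ρ, hρ, hx⟩ := dec2 y hy ((hy1 d).2 d1)
        have fT : ρ⁻¹ * y ∈ Ts A Ψ2 := mul_mem (inv_mem (T02 hρ)) hy
        have f1 : ρ⁻¹ * y ∈ Sb G Ψ1 := mul_mem (inv_mem (S1 (T01 hρ))) hy1
        have h3 : ⁅t, ρ⁻¹ * y⁆ ∈ Y := by
          by_cases f' : ρ⁻¹ * y ∈ Cs A P
          · rw [commutatorElement_eq_one_iff_mul_comm.2 (cs_comm f' (ms_mono m1.2.1 (ts_le ht)))]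
            exact one_mem _
          · obtain ⟨-, -, -, k1, k2⟩ := key t ht _ ⟨fT, hx⟩ f1 f'
            exact Y1 _ k1 k2
        have : t * y * t⁻¹ = ⁅t, ρ⁆ * ρ * (⁅t, ρ⁻¹ * y⁆ * (ρ⁻¹ * y)) := by
          simp only [commutatorElement_def]; group
        change t * y * t⁻¹ ∈ Y
        rw [this]
        exact mul_mem (mul_mem (key2 t ht ρ hρ) (Y1 ρ (T01 hρ) (S2 (T02 hρ))))
          (mul_mem h3 (Y2 _ fT f1))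
    exact fun y hy => this hy
  have nA : ∀ a ∈ A d, ∀ y ∈ Y, a * y * a⁻¹ ∈ Y := by
    intro a ha
    have s1 : a ∈ Sb G Ψ1 := ms_sb k m1.1 (a_le d1 ha)
    have s2 : a ∈ Sb G Ψ2 := ms_sb k m2.1 (a_le d2 ha)
    have : Y ≤ Y.comap (MulAut.conj a).toMonoidHom := by
      conv_lhs => rw [hY]
      refine sup_le ?_ ?_
      · rintro y ⟨hy, hy2⟩
        exact Y1 _ ((k.nrm Ψ1 a s1).2.1 y hy) (mul_mem (mul_mem s2 hy2) (inv_mem s2))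
      · rintro y ⟨hy, hy1⟩
        exact Y2 _ ((k.nrm Ψ2 a s2).2.1 y hy) (mul_mem (mul_mem s1 hy1) (inv_mem s1))
    exact fun y hy => this hy
  have nM : ∀ m ∈ Ms A Ψ1, ∀ y ∈ Y, m * y * m⁻¹ ∈ Y := by
    intro m hm y hy
    obtain ⟨t, ht, a, ha, rfl⟩ := a1.dec m hm
    have := nT t ht _ (nA a ha y hy)
    simpa [mul_assoc] using this
  exact fun g hg => mem_normalizer_iff.2 fun x => ⟨nM g hg x, fun hx => by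
    simpa [mul_assoc] using nM g⁻¹ (inv_mem hg) _ hx⟩

/-- lemma Y, stabiliser form -/
theorem lemY' (h : St p A) (k : SK A) {P Ψ1 Ψ2 : Set Ω} (hP : Sub A P) (m1 : Mx A P Ψ1)
    (m2 : Mx A P Ψ2) (hne : Ψ1 ≠ Ψ2) {d : Ω} (d1 : d ∈ Ψ1) (d2 : d ∈ Ψ2) (a1 : GA A Ψ1 d)
    (b1 : GB A Ψ1) (a2 : GA A Ψ2 d) (b2 : GB A Ψ2) (a0 : GA A (Ψ1 ∩ Ψ2) d) {z e : G}
    (hz : z ∈ Ts A Ψ1 ⊓ Cs A Ψ1) (hz' : z ∉ Cs A P) (he : e ∈ Ts A Ψ2 ⊓ Cs A Ψ2) (he' : e ∉ Cs A P)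
    (hz2 : z ∈ Sb G Ψ2) (he1 : e ∈ Sb G Ψ1) :
    ∃ Y : Subgroup G, IsPGroup 2 Y ∧ Y ≤ Ms A P ∧ (∀ m ∈ Ms A P, ∀ y ∈ Y, m * y * m⁻¹ ∈ Y) ∧
      z ∈ Y ∧ e ∈ Y := by
  have n1 := half h k hP m1 m2 hne d1 d2 a1 b1 a2 b2 a0 he he' he1 rfl
  have n2 := half h k hP m2 m1 hne.symm d2 d1 a2 b2 a1 b1 (Set.inter_comm _ _ ▸ a0) hz hz' hz2
    (sup_comm _ _ : (Ts A Ψ1 ⊓ Sb G Ψ2) ⊔ (Ts A Ψ2 ⊓ Sb G Ψ1) = _)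
  refine ⟨_, ?_, ?_, fun m hm y hy => (mem_normalizer_iff.1 (two_le hP m1 m2 hne n1 n2 hm) y).1 hy,
    mem_sup_left ⟨hz.1, hz2⟩, mem_sup_right ⟨he.1, he1⟩⟩
  · refine IsPGroup.to_sup_of_normal_left' ((ts_two a1 b1).to_inf_left) ((ts_two a2 b2).to_inf_left) ?_
    have nn : ∀ g ∈ Ts A Ψ2 ⊓ Sb G Ψ1, ∀ x ∈ Ts A Ψ1 ⊓ Sb G Ψ2, g * x * g⁻¹ ∈ Ts A Ψ1 ⊓ Sb G Ψ2 := by
      rintro g ⟨g2, g1⟩ x ⟨x1, x2⟩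
      have s2 : g ∈ Sb G Ψ2 := ms_sb k m2.1 (ts_le g2)
      exact ⟨(k.nrm Ψ1 g g1).2.1 x x1,
        (Sb G Ψ2).mul_mem ((Sb G Ψ2).mul_mem s2 x2) ((Sb G Ψ2).inv_mem s2)⟩
    exact fun g hg => mem_normalizer_iff.2 fun x => ⟨nn g hg x, fun hx => by
      simpa [mul_assoc] using nn g⁻¹ (inv_mem hg) _ hx⟩
  · exact sup_le (inf_le_left.trans (ts_le.trans (ms_mono m1.2.1)))
      (inf_le_left.trans (ts_le.trans (ms_mono m2.2.1)))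

/-- lemma Y -/
theorem lemY (h : St p A) (k : SK A) {P Ψ1 Ψ2 : Set Ω} (hP : Sub A P) (m1 : Mx A P Ψ1)
    (m2 : Mx A P Ψ2) (hne : Ψ1 ≠ Ψ2) {d : Ω} (d1 : d ∈ Ψ1) (d2 : d ∈ Ψ2) (a1 : GA A Ψ1 d)
    (b1 : GB A Ψ1) (a2 : GA A Ψ2 d) (b2 : GB A Ψ2) (a0 : GA A (Ψ1 ∩ Ψ2) d) {z e : G}
    (hz : z ∈ Ts A Ψ1 ⊓ Cs A Ψ1) (hz' : z ∉ Cs A P) (he : e ∈ Ts A Ψ2 ⊓ Cs A Ψ2) (he' : e ∉ Cs A P)
    (hc : ⁅z, e⁆ ∈ Cs A P) :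
    ∃ Y : Subgroup G, IsPGroup 2 Y ∧ Y ≤ Ms A P ∧ (∀ m ∈ Ms A P, ∀ y ∈ Y, m * y * m⁻¹ ∈ Y) ∧
      z ∈ Y ∧ e ∈ Y :=
  lemY' h k hP m1 m2 hne d1 d2 a1 b1 a2 b2 a0 hz hz' he he'
    (stab_of h hP m2 he.2 he' (ms_sb k hP (ms_mono m1.2.1 (ts_le hz.1))) hc)
    (stab_of h hP m1 hz.2 hz' (ms_sb k hP (ms_mono m2.2.1 (ts_le he.1)))
      (by rw [← commutatorElement_inv]; exact inv_mem hc))

end Cfsg.Agent.H58.CyY
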