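import Mathlib
import Cfsg.Prelude.Def_Solvable
import Cfsg.Prelude.Def_Spor_Mathieu

/-!
# Four-fold transitive groups whose four-point stabiliser is a Frobenius group: interfaces
-/

set_option autoImplicit false

namespace Cfsg.Agent.H58.Q4

open Subgroup Equiv Function
open scoped Pointwise commutatorElement

universe u

section Defs

variable {G Ω : Type u} [Group G] [MulAction G Ω]

/-- The pointwise stabiliser. -/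
def St (G : Type u) [Group G] [MulAction G Ω] (F : Set Ω) : Subgroup G := fixingSubgroup G F

theorem mem_St {F : Set Ω} {g : G} : g ∈ St G F ↔ ∀ x ∈ F, g • x = x := by
  rw [St, mem_fixingSubgroup_iff]

theorem St_anti {F F' : Set Ω} (h : F ⊆ F') : St G F' ≤ St G F :=
  fun _ hg => mem_St.2 fun x hx => mem_St.1 hg x (h hx)

/-- The fixed points of a subgroup. -/
def Fx (Ω : Type u) [MulAction G Ω] (U : Subgroup G) : Set Ω := {x | ∀ g ∈ U, g • x = x}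

theorem mem_Fx {U : Subgroup G} {x : Ω} : x ∈ Fx Ω U ↔ ∀ g ∈ U, g • x = x := Iff.rfl

theorem le_St_iff {U : Subgroup G} {F : Set Ω} : U ≤ St G F ↔ F ⊆ Fx Ω U :=
  ⟨fun h x hx _ hg => mem_St.1 (h hg) x hx, fun h _ hg => mem_St.2 fun _ hx => h hx _ hg⟩

/-- The fixed points of an element. -/
def F1 (Ω : Type u) [MulAction G Ω] (g : G) : Set Ω := {x | g • x = x}

theorem mem_F1 {g : G} {x : Ω} : x ∈ F1 Ω g ↔ g • x = x := Iff.rfl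

/-- The normaliser of a subgroup. -/
abbrev Nm (U : Subgroup G) : Subgroup G := normalizer (U : Set G)

/-- The centraliser of an element. -/
abbrev Ce (g : G) : Subgroup G := centralizer {g}

/-- An element of order a power of two. -/
def Tw (g : G) : Prop := ∃ n : ℕ, g ^ 2 ^ n = 1

/-- The subgroup is four-fold transitive on the subset. -/
def Tr4 (N : Subgroup G) (Δ : Set Ω) : Prop :=
  ∀ a b : Fin 4 → Ω, Injective a → Injective b → (∀ i, a i ∈ Δ) → (∀ i, b i ∈ Δ) →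
    ∃ g ∈ N, ∀ i, g • a i = b i

/-- The conclusion of the theorem of M. Hall for the group induced on a subset. -/
structure Hl (N : Subgroup G) (Δ : Set Ω) : Prop where
  inv : ∀ g ∈ N, ∀ x ∈ Δ, g • x ∈ Δ
  tr : Tr4 N Δ
  card : Δ.ncard = 4 ∨ Δ.ncard = 5 ∨ Δ.ncard = 6 ∨ Δ.ncard = 7 ∨ Δ.ncard = 11
  sharp : Δ.ncard ≠ 7 → ∀ F ⊆ Δ, F.ncard = 4 → N ⊓ St G F ≤ St G Δ
  sev : Δ.ncard = 7 → ∀ F ⊆ Δ, F.ncard = 4 → (St G Δ).relIndex (N ⊓ St G F) = 3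
  perf : 6 ≤ Δ.ncard → N ≤ ⁅N, N⁆ ⊔ (N ⊓ St G Δ)
  co : ∀ (k : ℕ) (e : Fin k → Ω), Injective e → Set.range e = Δ →
    ∃ ρ : N →* Perm (Fin k), (∀ (g : N) i, (g : G) • e i = e (ρ g i)) ∧
      (k ≤ 5 → ρ.range = ⊤) ∧ (k = 6 ∨ k = 7 → ρ.range = alternatingGroup (Fin k))

/-- A Frobenius group `H` with kernel `K`. -/
structure Fr (H K : Subgroup G) : Prop where
  le : K ≤ H
  nrm : ∀ g ∈ H, ∀ k ∈ K, g * k * g⁻¹ ∈ K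
  nil : Group.IsNilpotent K
  ne_bot : K ≠ ⊥
  ne_top : K ≠ H
  fpf : ∀ g ∈ H, g ∉ K → ∀ k ∈ K, Commute g k → k = 1

/-- The complement of odd order through an element `c` of prime order. -/
structure Cp (H K : Subgroup G) (c : G) : Prop where
  inf : Nm (zpowers c) ⊓ H ⊓ K = ⊥
  card : Nat.card ↥(Nm (zpowers c) ⊓ H) = K.relIndex H
  zg : IsZGroup ↥(Nm (zpowers c) ⊓ H)
  conj : ∀ d ∈ H, orderOf d = orderOf c → ∃ k ∈ K, k * d * k⁻¹ ∈ zpowers c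
  uniq : ∀ d ∈ Nm (zpowers c) ⊓ H, d ^ orderOf c = 1 → d ∈ zpowers c
  cen : orderOf c = (K.relIndex H).minFac → ∀ g ∈ Nm (zpowers c) ⊓ H, Commute g c

/-- Four-fold transitive, the four-point stabilisers are Frobenius groups with kernels `K F`. -/
structure Fb (K : Set Ω → Subgroup G) : Prop where
  faith : ∀ g : G, (∀ x : Ω, g • x = x) → g = 1
  tr : Tr4 (⊤ : Subgroup G) (Set.univ : Set Ω)
  fr : ∀ F : Set Ω, F.ncard = 4 → Fr (St G F) (K F)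
  conj : ∀ F : Set Ω, F.ncard = 4 → ∀ g : G, ∀ k ∈ K F, g * k * g⁻¹ ∈ K (g • F)

/-- The kernels have even order, with Sylow subgroups `P F`. -/
structure Ev (K P : Set Ω → Subgroup G) : Prop extends Fb K where
  memP : ∀ F : Set Ω, F.ncard = 4 → ∀ g, g ∈ P F ↔ g ∈ St G F ∧ Tw g
  P_le : ∀ F : Set Ω, F.ncard = 4 → P F ≤ K F
  P_ne : ∀ F : Set Ω, F.ncard = 4 → P F ≠ ⊥

/-- The kernels have odd order, the complements have even order. -/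
structure Od (K : Set Ω → Subgroup G) : Prop extends Fb K where
  odd : ∀ F : Set Ω, F.ncard = 4 → Odd (Nat.card (K F))
  even : ∀ F : Set Ω, F.ncard = 4 → Even (Nat.card (St G F))

/-- The semiregular situation. -/
structure SR (K R : Set Ω → Subgroup G) : Prop where
  faith : ∀ g : G, (∀ x : Ω, g • x = x) → g = 1
  big : 4 < Nat.card Ω
  le : ∀ F : Set Ω, F.ncard = 4 → K F ≤ St G F
  conj : ∀ F : Set Ω, F.ncard = 4 → ∀ g : G, ∀ k ∈ K F, g * k * g⁻¹ ∈ K (g • F)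
  nil : ∀ F : Set Ω, F.ncard = 4 → Group.IsNilpotent (K F)
  memP : ∀ F : Set Ω, F.ncard = 4 → ∀ g, g ∈ R F ↔ g ∈ St G F ∧ Tw g
  P_le : ∀ F : Set Ω, F.ncard = 4 → R F ≤ K F
  P_ne : ∀ F : Set Ω, F.ncard = 4 → R F ≠ ⊥
  fpf : ∀ F : Set Ω, F.ncard = 4 → ∀ g ∈ St G F, g ∉ K F → ∀ r ∈ R F, Commute g r → r = 1
  semi : ∀ F : Set Ω, F.ncard = 4 → ∀ r ∈ R F, r ≠ 1 → F1 Ω r = F

/-- A largest subgroup of order a power of two fixing more than `k` points. -/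
structure MQ (Ω : Type u) [MulAction G Ω] (k : ℕ) (Q : Subgroup G) : Prop where
  two : IsPGroup 2 Q
  big : k < (Fx Ω Q).ncard
  max : ∀ Q' : Subgroup G, IsPGroup 2 Q' → k < (Fx Ω Q').ncard → Nat.card Q' ≤ Nat.card Q

/-- All blocks have `k` points. -/
def Bk (P : Set Ω → Subgroup G) (k : ℕ) : Prop :=
  ∀ F : Set Ω, F.ncard = 4 → (Fx Ω (P F)).ncard = k

/-- The numbers of the alternating group of degree eight. -/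
def Eight (G Ω : Type u) [Group G] [MulAction G Ω] : Prop :=
  Nat.card Ω = 8 ∧ ∀ F : Set Ω, F.ncard = 4 → Nat.card (St G F) = 12

/-- The fixed point set of `Q` has eight points. -/
def DA (Ω : Type u) [MulAction G Ω] (P : Set Ω → Subgroup G) (Q : Subgroup G) : Prop :=
  (Fx Ω Q).ncard = 8 ∧ ∀ F ⊆ Fx Ω Q, F.ncard = 4 →
    (St G (Fx Ω Q)).relIndex (Nm Q ⊓ St G F) = 12 ∧ Q.relIndex (Nm Q ⊓ P F) = 4

/-- The case of a unique involution. -/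
def DB (Ω : Type u) [MulAction G Ω] (Q : Subgroup G) : Prop :=
  ∀ T ⊆ Fx Ω Q, T.ncard = 3 →
    (∃ y ∈ Nm Q ⊓ St G T, ∃ w ∈ Nm Q ⊓ St G T, F1 Ω y ∩ Fx Ω Q = T ∧ y ^ 3 ∈ St G (Fx Ω Q) ∧
      w * y * w⁻¹ * y ∈ St G (Fx Ω Q)) ∧
    ((∀ U ≤ St G T, IsPGroup 3 U → IsCyclic U) → (Fx Ω Q).ncard = 6)

/-- Module facts for blocks of size seven. -/
structure M7 (Ω : Type u) [MulAction G Ω] (P : Subgroup G) : Prop where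
  comm : ∀ a ∈ P, ∀ b ∈ P, Commute a b
  sq : ∀ a ∈ P, a * a = 1
  card : ∃ j, Nat.card P = 16 ^ j
  half : ∀ t ∈ Nm P, Tw t → (F1 Ω t ∩ Fx Ω P).ncard = 3 →
    Nat.card ↥(P ⊓ Ce t) ^ 2 = Nat.card P ∧ (∀ a ∈ P, ⁅a, t⁆ ∈ Ce t) ∧
      ∀ b ∈ P ⊓ Ce t, ∃ a ∈ P, ⁅a, t⁆ = b
  ne : ∀ t ∈ Nm P, ∀ t' ∈ Nm P, Tw t → Tw t' → (F1 Ω t ∩ Fx Ω P).ncard = 3 →
    (F1 Ω t' ∩ Fx Ω P).ncard = 3 → (F1 Ω t ∩ F1 Ω t' ∩ Fx Ω P).ncard = 1 → P ⊓ Ce t ≠ P ⊓ Ce t'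

end Defs

/-! ### General lemmas -/

/-- Steiner triple systems on fixed point sets. -/
def StsStmt : Prop := ∀ (Ω : Type u) [Finite Ω] (z : Perm Ω) (𝔅 : Set (Set Ω)) (Φ : Set Ω) (x : Ω),
  z x ≠ x → z (z x) = x → (∀ a ∈ Φ, z a = a) →
  (∀ D ∈ 𝔅, ∀ D' ∈ 𝔅, 4 ≤ (D ∩ D').ncard → D = D') →
  (∀ a ∈ Φ, ∀ b ∈ Φ, a ≠ b → ∃ D ∈ 𝔅, a ∈ D ∧ b ∈ D ∧ x ∈ D ∧ z x ∈ D ∧ Odd D.ncard ∧
    (∀ y ∈ D, z y ∈ D ∧ z (z y) = y ∧ (z y = y → y ∈ Φ)) ∧ (D ∩ Φ).ncard ≤ 3) →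
  6 * {L : Set Ω | ∃ D ∈ 𝔅, x ∈ D ∧ z x ∈ D ∧ L = D ∩ Φ ∧ L.ncard = 3}.ncard =
    Φ.ncard * (Φ.ncard - 1) ∧ Φ.ncard % 3 ≠ 2

/-- The lemma of Witt. -/
def WittStmt : Prop := ∀ (G Ω : Type u) [Group G] [Finite G] [MulAction G Ω] [Finite Ω],
  Tr4 (⊤ : Subgroup G) (Set.univ : Set Ω) → ∀ F : Set Ω, F.ncard = 4 → ∀ U ≤ St G F,
  (∀ g : G, (∀ x ∈ U, g * x * g⁻¹ ∈ St G F) → ∃ h ∈ St G F, ∀ x ∈ U, h * (g * x * g⁻¹) * h⁻¹ ∈ U) →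
  Tr4 (Nm U) (Fx Ω U)

/-- Orders of stabilisers. -/
def OrdStmt : Prop := ∀ (G Ω : Type u) [Group G] [Finite G] [MulAction G Ω] [Finite Ω]
  (N : Subgroup G) (Δ : Set Ω), (∀ g ∈ N, ∀ x ∈ Δ, g • x ∈ Δ) → Tr4 N Δ →
  ∀ F ⊆ Δ, F.ncard = 4 → ∀ S ⊆ F, Nat.card ↥(N ⊓ St G S) =
    (Δ.ncard - S.ncard).descFactorial (4 - S.ncard) * Nat.card ↥(N ⊓ St G F)

/-- The theorem of M. Hall. -/
def HallStmt : Prop := ∀ (G Ω : Type u) [Group G] [Finite G] [MulAction G Ω] [Finite Ω]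
  (N : Subgroup G) (Δ : Set Ω), (∀ g ∈ N, ∀ x ∈ Δ, g • x ∈ Δ) → Tr4 N Δ →
  ∀ F ⊆ Δ, F.ncard = 4 → (∀ g ∈ N ⊓ St G F, ∃ m, Odd m ∧ g ^ m ∈ St G Δ) → Hl N Δ

/-- Frobenius groups, first part. -/
def FrStmt : Prop := ∀ (G : Type u) [Group G] [Finite G] (H K : Subgroup G), Fr H K →
  (Nat.card K).Coprime (K.relIndex H) ∧
  (∀ g ∈ H, g ∉ K → orderOf g ∣ K.relIndex H) ∧
  (∀ M ≤ H, H ≤ Nm M → M ≤ K ∨ K ≤ M) ∧
  (∀ g ∈ H, g ∉ K → ∀ A B : Subgroup G, A ≤ K → B ≤ A → g ∈ Nm A → g ∈ Nm B → A ≤ Nm B →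
    ∀ a ∈ A, g * a * g⁻¹ * a⁻¹ ∈ B → a ∈ B) ∧
  (∀ U ≤ H, U ⊓ K = ⊥ → ∀ A ≤ K, U ≤ Nm A → Nat.card A ≡ 1 [MOD Nat.card U]) ∧
  ∀ p : ℕ, p.Prime → p ∣ K.relIndex H → ∃ c ∈ H, c ∉ K ∧ orderOf c = p

/-- Frobenius groups, complements of odd order. -/
def CpStmt : Prop := ∀ (G : Type u) [Group G] [Finite G] (H K : Subgroup G), Fr H K →
  Odd (K.relIndex H) → ∀ c ∈ H, c ∉ K → (orderOf c).Prime → Cp H K c

/-- Lifting the alternating group of degree five. -/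
def LiftStmt : Prop := ∀ (M : Type u) [Group M] [Finite M] (ρ : M →* Perm (Fin 5)),
  ρ.range = alternatingGroup (Fin 5) → Odd (Nat.card ρ.ker) → IsZGroup ρ.ker →
  ∃ E : Subgroup M, E ⊓ ρ.ker = ⊥ ∧ E ⊔ ρ.ker = ⊤ ∧ E ≤ centralizer (ρ.ker : Set M)

/-- The theorem of G. Higman. -/
def HigStmt : Prop := ∀ (M : Type u) [Group M] [Finite M] (ρ : M →* Perm (Fin 5))
  (Q O : Subgroup M) [Q.Normal] [O.Normal] (c : M),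
  ρ.range = alternatingGroup (Fin 5) → IsPGroup 2 Q → Odd (Nat.card O) → ρ.ker = Q ⊔ O →
  orderOf c = 3 → (∀ q ∈ Q, Commute c q → q = 1) →
  (∀ a ∈ Q, ∀ b ∈ Q, Commute a b) ∧ (∀ a ∈ Q, a * a = 1) ∧ (∃ j, Nat.card Q = 16 ^ j) ∧
  (∀ t, orderOf (ρ t) = 2 → Nat.card ↥(Q ⊓ Ce t) ^ 2 = Nat.card Q ∧ (∀ a ∈ Q, ⁅a, t⁆ ∈ Ce t) ∧
    ∀ b ∈ Q ⊓ Ce t, ∃ a ∈ Q, ⁅a, t⁆ = b) ∧
  ∀ t t', orderOf (ρ t) = 2 → orderOf (ρ t') = 2 → Commute (ρ t) (ρ t') → Q ⊓ Ce t = Q ⊓ Ce t'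

/-- Action of a Frobenius group. -/
def FaStmt : Prop := ∀ (G : Type u) [Group G] [Finite G] (J V : Subgroup G) (c : G) (s : ℕ),
  s.Prime → Odd s → IsPGroup s J → IsPGroup 2 V → (orderOf c).Prime → Odd (orderOf c) →
  orderOf c ≠ s → V ≤ Nm J → c ∈ Nm J → c ∈ Nm V → (∀ v ∈ V, Commute c v → v = 1) →
  ((J ⊓ Ce c ≤ centralizer (V : Set G)) ∨
    (s = 3 ∧ ∃ y ∈ Nm J, y ^ 3 = 1 ∧ Nat.card ↥(J ⊓ Ce y) ≤ 3)) →
  J ≤ centralizer (V : Set G)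

/-- A lemma on groups of order a power of two. -/
def TwoStmt : Prop := ∀ (G : Type u) [Group G] [Finite G] (R : Subgroup G) (w c : G),
  IsPGroup 2 R → R ≠ ⊥ → w ∈ Nm R → c ∈ Nm R → w * w = 1 → c ^ 3 = 1 →
  Nat.card ↥(R ⊓ Ce w) ≤ 2 → (∀ r ∈ R, Commute c r → r = 1) →
  Nat.card R = 4 ∧ ∀ r ∈ R, r * r = 1

/-- At most two elementary abelian subgroups of index four. -/
def E8aStmt : Prop := ∀ (G : Type u) [Group G] [Finite G] (P Q Z C : Subgroup G) (c : G),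
  IsPGroup 2 P → Q ≤ P → Q ≠ ⊥ → (∀ a ∈ Q, ∀ b ∈ Q, Commute a b) → (∀ a ∈ Q, a * a = 1) →
  Q.relIndex (Nm Q ⊓ P) = 4 → Nat.card Z ^ 2 = Nat.card Q →
  (∀ a ∈ Nm Q ⊓ P, a ∉ Q → Q ⊓ Ce a = Z) → c ^ 3 = 1 → c ∈ Nm P → c ∈ Nm Q →
  (∀ a ∈ P, Commute c a → a = 1) → Odd (Nat.card C) → C ≤ Nm P → C ≤ Nm Q

/-! ### Setting up -/

/-- The kernels. -/
def DatStmt : Prop := ∀ (G Ω : Type u) [Group G] [Finite G] [MulAction G Ω] [Finite Ω]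
  [FaithfulSMul G Ω], MulAction.IsMultiplyPretransitive G Ω 4 → ∀ a b c d : Ω, a ≠ b → a ≠ c →
  a ≠ d → b ≠ c → b ≠ d → c ≠ d →
  (∃ H : Subgroup ↥(MulAction.stabilizer G a ⊓ MulAction.stabilizer G b ⊓
    MulAction.stabilizer G c ⊓ MulAction.stabilizer G d), Cfsg.IsFrobeniusComplement H) →
  ∃ K : Set Ω → Subgroup G, Fb K

/-- The two parities (uses `FrStmt`, `HallStmt`). -/
def ParStmt : Prop := ∀ (G Ω : Type u) [Group G] [Finite G] [MulAction G Ω] [Finite Ω]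
  (K : Set Ω → Subgroup G), Fb K → ∀ F : Set Ω, F.ncard = 4 → Od K ∨ ∃ P, Ev K P

/-- Identification by orders. -/
def IdStmt : Prop := ∀ (G Ω : Type u) [Group G] [Finite G] [MulAction G Ω] [Finite Ω]
  (K : Set Ω → Subgroup G), Fb K →
  (Nat.card Ω = 7 → Nonempty (G ≃* Perm (Fin 7))) ∧
  (Eight G Ω → Nonempty (G ≃* alternatingGroup (Fin 8))) ∧
  ∀ F : Set Ω, F.ncard = 4 → 7 ≤ Nat.card Ω

/-! ### Kernels of odd order -/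

/-- Involutions of the four-point stabiliser (uses `FrStmt`). -/
def OaStmt : Prop := ∀ (G : Type u) [Group G] [Finite G] (H K : Subgroup G), Fr H K →
  Odd (Nat.card K) →
  (∀ z ∈ H, orderOf z = 2 → ∀ k ∈ K, z * k * z⁻¹ = k⁻¹) ∧
  (∀ z ∈ H, ∀ z' ∈ H, orderOf z = 2 → orderOf z' = 2 →
    (∃ k ∈ K, k * z * k⁻¹ = z') ∧ (Commute z z' → z = z')) ∧
  (∀ M ≤ H, H ≤ Nm M → IsPGroup 2 M → M = ⊥) ∧
  ∀ S ≤ H, IsPGroup 2 S → IsCyclic S ∨ ∃ n : ℕ, Nonempty (S ≃* QuaternionGroup (2 ^ (n + 1)))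

/-- Even degree (uses `OaStmt`, `OrdStmt`, `IdStmt`). -/
def OevStmt : Prop := ∀ (G Ω : Type u) [Group G] [Finite G] [MulAction G Ω] [Finite Ω]
  (K : Set Ω → Subgroup G), Od K → ∀ F : Set Ω, F.ncard = 4 → ¬ Even (Nat.card Ω)

/-- Odd degree (uses `OaStmt`, `IdStmt`). -/
def OodStmt : Prop := ∀ (G Ω : Type u) [Group G] [Finite G] [MulAction G Ω] [Finite Ω]
  (K : Set Ω → Subgroup G), Od K → ∀ F : Set Ω, F.ncard = 4 → Odd (Nat.card Ω) →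
  Nat.card Ω = 7 ∨ Nat.card Ω = 13 ∨ ∃ a b : Ω, a ≠ b ∧ ∃ N ≤ St G {a, b}, St G {a, b} ≤ Nm N ∧
    (∀ x y : Ω, x ∉ ({a, b} : Set Ω) → y ∉ ({a, b} : Set Ω) → ∃ n ∈ N, n • x = y) ∧
    ∀ x : Ω, x ∉ ({a, b} : Set Ω) → ∀ n ∈ N, n • x = x → n = 1

/-- No regular normal subgroup (uses `StsStmt`, `WittStmt`, `HallStmt`). -/
def OrnStmt : Prop := ∀ (G Ω : Type u) [Group G] [Finite G] [MulAction G Ω] [Finite Ω]
  (K : Set Ω → Subgroup G), Od K → ∀ F : Set Ω, F.ncard = 4 → Odd (Nat.card Ω) →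
  ∀ a b : Ω, a ≠ b → ∀ N ≤ St G {a, b}, St G {a, b} ≤ Nm N →
    (∀ x y : Ω, x ∉ ({a, b} : Set Ω) → y ∉ ({a, b} : Set Ω) → ∃ n ∈ N, n • x = y) →
    ¬ ∀ x : Ω, x ∉ ({a, b} : Set Ω) → ∀ n ∈ N, n • x = x → n = 1

/-- Degree thirteen (uses `OaStmt`, `WittStmt`, `OrdStmt`). -/
def O13Stmt : Prop := ∀ (G Ω : Type u) [Group G] [Finite G] [MulAction G Ω] [Finite Ω]
  (K : Set Ω → Subgroup G), Od K → Nat.card Ω ≠ 13

/-! ### Kernels of even order: blocks -/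

/-- The blocks (uses `FrStmt`, `WittStmt`, `HallStmt`). -/
def BlkStmt : Prop := ∀ (G Ω : Type u) [Group G] [Finite G] [MulAction G Ω] [Finite Ω]
  (K P : Set Ω → Subgroup G), Ev K P → ∀ F : Set Ω, F.ncard = 4 →
  IsPGroup 2 (P F) ∧ Odd ((K F).relIndex (St G F)) ∧ F ⊆ Fx Ω (P F) ∧
  Hl (Nm (P F)) (Fx Ω (P F)) ∧ K F ≤ St G (Fx Ω (P F)) ∧ St G F ≤ Nm (P F) ∧
  (∀ k ∈ K F, Odd (orderOf k) → ∀ a ∈ P F, Commute k a) ∧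
  (∀ g : G, g ∈ Nm (P F) ↔ g • Fx Ω (P F) = Fx Ω (P F)) ∧
  (∀ g : G, Fx Ω (P (g • F)) = g • Fx Ω (P F) ∧ ∀ a, a ∈ P F ↔ g * a * g⁻¹ ∈ P (g • F)) ∧
  (∀ F' ⊆ Fx Ω (P F), F'.ncard = 4 → P F' = P F ∧ K F' = K F) ∧
  (∀ F' : Set Ω, F'.ncard = 4 → (∃ g : G, g • F = F') ∧ Nat.card (P F') = Nat.card (P F) ∧
    Nat.card (K F') = Nat.card (K F) ∧ Nat.card (St G F') = Nat.card (St G F)) ∧
  Bk P (Fx Ω (P F)).ncard ∧ (Fx Ω (P F)).ncard < Nat.card Ω ∧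
  Nat.card Ω % 2 = (Fx Ω (P F)).ncard % 2

/-- The largest subgroup with more fixed points (uses `FrStmt`, `BlkStmt`). -/
def MqStmt : Prop := ∀ (G Ω : Type u) [Group G] [Finite G] [MulAction G Ω] [Finite Ω]
  (K P : Set Ω → Subgroup G), Ev K P → ∀ k, Bk P k → ∀ Q : Subgroup G, MQ Ω k Q →
  ∀ F ⊆ Fx Ω Q, F.ncard = 4 →
  Q ≤ P F ∧ Fx Ω (P F) ⊆ Fx Ω Q ∧ P F ⊓ St G (Fx Ω Q) = Q ∧ St G (Fx Ω Q) ≤ K F ⊓ Nm Q ∧
  (∀ z ∈ Nm Q ⊓ P F, z ∉ Q → F1 Ω z ∩ Fx Ω Q = Fx Ω (P F)) ∧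
  ∀ A : Subgroup G, IsPGroup 2 A → A ≤ Nm Q → A ≤ Nm (P F) →
    ∃ w ∈ Nm Q ⊓ P F, w ∉ Q ∧ w * w ∈ Q ∧ ∀ a ∈ A, ⁅a, w⁆ ∈ Q

/-- Blocks of size five or eleven (uses `StsStmt`, `BlkStmt`, `MqStmt`). -/
def No5Stmt : Prop := ∀ (G Ω : Type u) [Group G] [Finite G] [MulAction G Ω] [Finite Ω]
  (K P : Set Ω → Subgroup G), Ev K P → ∀ k, Bk P k → ∀ Q : Subgroup G, MQ Ω k Q → 4 ≤ k →
  k ≠ 5 ∧ k ≠ 11

/-- Elements of prime order of the complement (uses `FrStmt`, `CpStmt`, `WittStmt`, `HallStmt`,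
`BlkStmt`). -/
def CfStmt : Prop := ∀ (G Ω : Type u) [Group G] [Finite G] [MulAction G Ω] [Finite Ω]
  (K P : Set Ω → Subgroup G), Ev K P → ∀ F : Set Ω, F.ncard = 4 → ∀ c ∈ St G F, c ∉ K F →
  (orderOf c).Prime → Hl (Nm (zpowers c)) (F1 Ω c) ∧
  (∀ F' ⊆ F1 Ω c, F'.ncard = 4 → c ∉ K F' ∧ Cp (St G F') (K F') c ∧
    (K F').relIndex (St G F') = (K F).relIndex (St G F)) ∧
  (∀ d : G, orderOf d = orderOf c → 4 ≤ (F1 Ω d).ncard → ∃ g : G, g * d * g⁻¹ ∈ zpowers c) ∧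
  (orderOf c = ((K F).relIndex (St G F)).minFac → 6 ≤ (F1 Ω c).ncard →
    Nm (zpowers c) ≤ Ce c)

/-- A real element of order three (uses `CfStmt`, `OrdStmt`, `BlkStmt`). -/
def ReStmt : Prop := ∀ (G Ω : Type u) [Group G] [Finite G] [MulAction G Ω] [Finite Ω]
  (K P : Set Ω → Subgroup G), Ev K P → ∀ F : Set Ω, F.ncard = 4 → ∀ T ⊆ F, T.ncard = 3 →
  ∀ c ∈ St G F, c ∉ K F → orderOf c = 3 → (∃ g ∈ St G T, g * c * g⁻¹ = c⁻¹) →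
  (F1 Ω c).ncard = 5 ∧ Ce c ⊓ St G T = Nm (zpowers c) ⊓ St G F ∧
  ∀ U ≤ St G T, IsPGroup 3 U → IsCyclic U

/-- The self-centralising case (uses `FrStmt`, `BlkStmt`, `OrdStmt`). -/
def FtStmt : Prop := ∀ (G Ω : Type u) [Group G] [Finite G] [MulAction G Ω] [Finite Ω]
  (K P : Set Ω → Subgroup G), Ev K P → Bk P 4 → ∀ F : Set Ω, F.ncard = 4 → ∀ T ⊆ F, T.ncard = 3 →
  ∀ c ∈ St G F, c ∉ K F → orderOf c = 3 → Ce c ⊓ St G T = zpowers c → Eight G Ω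

/-! ### Six fixed points -/

/-- A fusion argument (uses `CfStmt`, `LiftStmt`). -/
def F6rStmt : Prop := ∀ (G Ω : Type u) [Group G] [Finite G] [MulAction G Ω] [Finite Ω]
  (K P : Set Ω → Subgroup G), Ev K P → ∀ F : Set Ω, F.ncard = 4 → ∀ T ⊆ F, T.ncard = 3 →
  ∀ c ∈ St G F, c ∉ K F → orderOf c = 3 → (F1 Ω c).ncard = 6 →
  ¬ 9 ∣ (K F).relIndex (St G F) → ∀ d ∈ Ce c ⊓ St G T, IsConj c d → d ∈ zpowers c

/-- The normal complement (uses `CfStmt`, `OrdStmt`, `LiftStmt`, `F6rStmt`). -/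
def F6nStmt : Prop := ∀ (G Ω : Type u) [Group G] [Finite G] [MulAction G Ω] [Finite Ω]
  (K P : Set Ω → Subgroup G), Ev K P → ∀ F : Set Ω, F.ncard = 4 → ∀ T ⊆ F, T.ncard = 3 →
  ∀ c ∈ St G F, c ∉ K F → orderOf c = ((K F).relIndex (St G F)).minFac → (F1 Ω c).ncard = 6 →
  ∃ Y ≤ St G T, ∀ g ∈ St G T, g ∈ Y ↔ (orderOf g).Coprime (orderOf c)

/-- The solvable case (uses `FrStmt`, `BlkStmt`, `CfStmt`, `OrdStmt`, `FaStmt`). -/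
def F6sStmt : Prop := ∀ (G Ω : Type u) [Group G] [Finite G] [MulAction G Ω] [Finite Ω]
  (K P : Set Ω → Subgroup G), Ev K P → ∀ F : Set Ω, F.ncard = 4 → ∀ T ⊆ F, T.ncard = 3 →
  ∀ c ∈ St G F, c ∉ K F → orderOf c = ((K F).relIndex (St G F)).minFac → (F1 Ω c).ncard = 6 →
  (Bk P 6 ∨ (Bk P 4 ∧ ¬ 3 ∣ Nat.card (K F))) →
  ¬ ∃ Y ≤ St G T, ∀ g ∈ St G T, g ∈ Y ↔ (orderOf g).Coprime (orderOf c)

/-- Blocks of size six (uses `BlkStmt`, `CfStmt`). -/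
def K6Stmt : Prop := ∀ (G Ω : Type u) [Group G] [Finite G] [MulAction G Ω] [Finite Ω]
  (K P : Set Ω → Subgroup G), Ev K P → Bk P 6 → ∀ F : Set Ω, F.ncard = 4 → ∀ c ∈ St G F,
  c ∉ K F → (orderOf c).Prime → (F1 Ω c).ncard = 6

/-! ### Blocks of size four -/

/-- The involutions in the semiregular situation. -/
def W4Stmt : Prop := ∀ (G Ω : Type u) [Group G] [Finite G] [MulAction G Ω] [Finite Ω]
  (K R : Set Ω → Subgroup G), SR K R → Tr4 (⊤ : Subgroup G) (Set.univ : Set Ω) ∧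
  ∀ F : Set Ω, F.ncard = 4 → IsPGroup 2 (R F) ∧ K F = R F ∧ Nat.card (R F) ∣ Nat.card Ω - 4 ∧
    (∀ g : G, g • F = F → g ∈ Nm (R F)) ∧
    ∀ z ∈ R F, orderOf z = 2 → (∀ r ∈ R F, Commute z r) ∧ Ce z ⊓ St G F = R F ∧
      ∀ a ∈ F, ∀ b ∈ F, a ≠ b → ∀ x ∉ F, ∃ w : G, w * w = 1 ∧ Commute w z ∧ w • F = F ∧
        w • a = b ∧ F1 Ω w = (F \ {a, b}) ∪ {x, z • x} ∧ R F ⊓ Ce w = zpowers z ∧
        Nat.card Ω ≤ 4 + 2 * {r : G | r ∈ R F ∧ w * r * w⁻¹ = r⁻¹}.ncard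

/-- Two involutions (uses `W4Stmt`, `TwoStmt`). -/
def S4bStmt : Prop := ∀ (G Ω : Type u) [Group G] [Finite G] [MulAction G Ω] [Finite Ω]
  (K R : Set Ω → Subgroup G), SR K R →
  (∃ F : Set Ω, F.ncard = 4 ∧ ∃ z ∈ R F, ∃ z' ∈ R F, orderOf z = 2 ∧ orderOf z' = 2 ∧ z ≠ z') →
  Eight G Ω ∧ ∀ F : Set Ω, F.ncard = 4 → Nat.card (R F) = 4

/-- One involution (uses `W4Stmt`). -/
def S4cStmt : Prop := ∀ (G Ω : Type u) [Group G] [Finite G] [MulAction G Ω] [Finite Ω]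
  (K R : Set Ω → Subgroup G), SR K R →
  (∀ F : Set Ω, F.ncard = 4 → ∀ z ∈ R F, ∀ z' ∈ R F, orderOf z = 2 → orderOf z' = 2 → z = z') →
  ∀ T : Set Ω, T.ncard = 3 →
    (∃ y ∈ St G T, ∃ w ∈ St G T, F1 Ω y = T ∧ y ^ 3 = 1 ∧ w * y * w⁻¹ = y⁻¹) ∧
    ((∀ U ≤ St G T, IsPGroup 3 U → IsCyclic U) → Nat.card Ω = 6)

/-- Transfer to the group (uses `FrStmt`, `BlkStmt`, `MqStmt`, `W4Stmt`, `S4bStmt`, `S4cStmt`). -/
def D4Stmt : Prop := ∀ (G Ω : Type u) [Group G] [Finite G] [MulAction G Ω] [Finite Ω]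
  (K P : Set Ω → Subgroup G), Ev K P → Bk P 4 → ∀ Q : Subgroup G, MQ Ω 4 Q →
  Tr4 (Nm Q) (Fx Ω Q) ∧
  (∀ F ⊆ Fx Ω Q, F.ncard = 4 → ∀ k ∈ K F, Odd (orderOf k) → k ∈ St G (Fx Ω Q)) ∧
  (DA Ω P Q ∨ DB Ω Q)

/-- Eight points (uses `FrStmt`, `BlkStmt`, `MqStmt`, `OrdStmt`, `HigStmt`, `E8aStmt`, `CfStmt`,
`ReStmt`, `FtStmt`). -/
def E8Stmt : Prop := ∀ (G Ω : Type u) [Group G] [Finite G] [MulAction G Ω] [Finite Ω]
  (K P : Set Ω → Subgroup G), Ev K P → Bk P 4 → ∀ Q : Subgroup G, MQ Ω 4 Q →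
  Tr4 (Nm Q) (Fx Ω Q) →
  (∀ F ⊆ Fx Ω Q, F.ncard = 4 → ∀ k ∈ K F, Odd (orderOf k) → k ∈ St G (Fx Ω Q)) →
  DA Ω P Q → Eight G Ω

/-- Passing to the fixed points of a Sylow subgroup of the kernel (uses `FrStmt`, `WittStmt`,
`BlkStmt`). -/
def QuoStmt : Prop := ∀ (G Ω : Type u) [Group G] [Finite G] [MulAction G Ω] [Finite Ω]
  (K P : Set Ω → Subgroup G), Ev K P → ∀ F : Set Ω, F.ncard = 4 → 3 ∣ Nat.card (K F) →
  ∀ Δ : Set Ω, F ⊆ Δ → St G Δ ≤ K F → ¬ P F ≤ St G Δ →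
  (∀ k ∈ K F, Odd (orderOf k) → k ∈ St G Δ) →
  ∃ (G' Ω' : Type u) (_ : Group G') (_ : Finite G') (_ : MulAction G' Ω') (_ : Finite Ω')
    (K' P' : Set Ω' → Subgroup G') (F' : Set Ω'), Ev K' P' ∧ Nat.card Ω' < Nat.card Ω ∧
    F'.ncard = 4 ∧ (K' F').relIndex (St G' F') = (K F).relIndex (St G F)

/-- Stabiliser of order prime to three (uses `FrStmt`, `BlkStmt`, `MqStmt`, `CfStmt`). -/
def UgStmt : Prop := ∀ (G Ω : Type u) [Group G] [Finite G] [MulAction G Ω] [Finite Ω]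
  (K P : Set Ω → Subgroup G), Ev K P → Bk P 4 → ∀ Q : Subgroup G, MQ Ω 4 Q → DB Ω Q →
  ∀ F : Set Ω, F.ncard = 4 → ¬ 3 ∣ Nat.card (St G F) → ∀ c ∈ St G F, c ∉ K F →
  orderOf c = ((K F).relIndex (St G F)).minFac → (F1 Ω c).ncard = 6

/-- Complement of order divisible by three (uses `FrStmt`, `BlkStmt`, `MqStmt`, `CfStmt`,
`ReStmt`, `LiftStmt`, `FtStmt`). -/
def UaStmt : Prop := ∀ (G Ω : Type u) [Group G] [Finite G] [MulAction G Ω] [Finite Ω]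
  (K P : Set Ω → Subgroup G), Ev K P → Bk P 4 → ∀ Q : Subgroup G, MQ Ω 4 Q → DB Ω Q →
  ∀ F : Set Ω, F.ncard = 4 → ∀ c ∈ St G F, c ∉ K F → orderOf c = 3 →
  (F1 Ω c).ncard = 6 ∨ Eight G Ω

/-! ### Blocks of size seven -/

/-- The module (uses `FrStmt`, `CpStmt`, `BlkStmt`, `LiftStmt`, `HigStmt`). -/
def K7aStmt : Prop := ∀ (G Ω : Type u) [Group G] [Finite G] [MulAction G Ω] [Finite Ω]
  (K P : Set Ω → Subgroup G), Ev K P → Bk P 7 → ∀ F : Set Ω, F.ncard = 4 → M7 Ω (P F)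

/-- Semiregularity (uses `BlkStmt`, `MqStmt`, `K7aStmt`). -/
def K7bStmt : Prop := ∀ (G Ω : Type u) [Group G] [Finite G] [MulAction G Ω] [Finite Ω]
  (K P : Set Ω → Subgroup G), Ev K P → Bk P 7 → ∀ Q : Subgroup G, MQ Ω 7 Q →
  Q = ⊥ ∧ ∀ F : Set Ω, F.ncard = 4 → Nat.card (P F) = 16 ∧ K F = P F

/-- The pointwise stabiliser of a block (uses `FrStmt`, `BlkStmt`, `K7aStmt`). -/
def K7cStmt : Prop := ∀ (G Ω : Type u) [Group G] [Finite G] [MulAction G Ω] [Finite Ω]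
  (K P : Set Ω → Subgroup G), Ev K P → Bk P 7 → ∀ F : Set Ω, F.ncard = 4 →
  Nat.card (P F) = 16 → K F = P F → St G (Fx Ω (P F)) = P F

/-- The degree (uses `StsStmt`, `OrdStmt`, `BlkStmt`, `MqStmt`, `K7aStmt`). -/
def K7dStmt : Prop := ∀ (G Ω : Type u) [Group G] [Finite G] [MulAction G Ω] [Finite Ω]
  (K P : Set Ω → Subgroup G), Ev K P → Bk P 7 → MQ Ω 7 (⊥ : Subgroup G) →
  (∀ F : Set Ω, F.ncard = 4 → Nat.card (P F) = 16 ∧ St G (Fx Ω (P F)) = P F) → Nat.card Ω = 23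

/-- The Mathieu group (uses `OrdStmt`, `BlkStmt`). -/
def K7eStmt : Prop := ∀ (G Ω : Type u) [Group G] [Finite G] [MulAction G Ω] [Finite Ω]
  (K P : Set Ω → Subgroup G), Ev K P → Bk P 7 → Nat.card Ω = 23 →
  (∀ F : Set Ω, F.ncard = 4 → Nat.card (P F) = 16 ∧ St G (Fx Ω (P F)) = P F) → Spor.IsoM23 G

end Cfsg.Agent.H58.Q4
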