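import Cfsg.Agent.H58.Q4Defs

/-!
# Four-fold transitive groups whose four-point stabiliser is a Frobenius group: assembly
-/

set_option autoImplicit false

namespace Cfsg.Agent.H58.Q4

open Subgroup Equiv Function
open scoped Pointwise commutatorElement

universe u

theorem exists_mq {G Ω : Type u} [Group G] [Finite G] [MulAction G Ω] [Finite Ω] (k : ℕ)
    (hk : k < Nat.card Ω) : ∃ Q : Subgroup G, MQ Ω k Q := by
  classical
  have hne : ({Q : Subgroup G | IsPGroup 2 Q ∧ k < (Fx Ω Q).ncard}).Nonempty := by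
    refine ⟨⊥, IsPGroup.of_bot, ?_⟩
    have : Fx Ω (⊥ : Subgroup G) = Set.univ := by
      ext x
      simp only [mem_Fx, Set.mem_univ, iff_true]
      intro g hg
      rw [mem_bot.1 hg, one_smul]
    rw [this, Set.ncard_univ]
    exact hk
  obtain ⟨Q, hQ, hmax⟩ := Set.exists_max_image _ (fun Q : Subgroup G => Nat.card Q)
    (Set.toFinite _) hne
  exact ⟨Q, hQ.1, hQ.2, fun Q' h1 h2 => hmax Q' ⟨h1, h2⟩⟩

theorem relIndex_ne_one {G : Type u} [Group G] {H K : Subgroup G} (h : Fr H K) :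
    K.relIndex H ≠ 1 := by
  intro h1
  exact h.ne_top (le_antisymm h.le (relIndex_eq_one.1 h1))

theorem minFac_eq_three {m : ℕ} (hodd : Odd m) (h3 : 3 ∣ m) : m.minFac = 3 := by
  have h1 : m ≠ 1 := by rintro rfl; norm_num at h3
  have hp := Nat.minFac_prime h1
  have hle : m.minFac ≤ 3 := Nat.minFac_le_of_dvd (by norm_num) h3
  have h2 : m.minFac ≠ 2 := by
    intro h
    have : 2 ∣ m := h ▸ Nat.minFac_dvd m
    exact (Nat.not_even_iff_odd.2 hodd) (even_iff_two_dvd.2 this)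
  have := hp.two_le
  omega

/-- Three divides the index in the two surviving cases. -/
theorem res (hBlk : BlkStmt.{u}) {G Ω : Type u} [Group G] [Finite G] [MulAction G Ω] [Finite Ω]
    {K P : Set Ω → Subgroup G} (hE : Ev K P) (h : Eight G Ω ∨ Bk P 7) {F : Set Ω}
    (hF : F.ncard = 4) : 3 ∣ (K F).relIndex (St G F) := by
  obtain ⟨-, hodd, hFB, hHl, hKB, hN, -⟩ := hBlk G Ω K P hE F hF
  rcases h with h | h
  · have h12 := h.2 F hF
    have hd : (K F).relIndex (St G F) ∣ 12 := h12 ▸ relIndex_dvd_card _ _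
    have h1 := relIndex_ne_one (hE.fr F hF)
    have hle := Nat.le_of_dvd (by norm_num) hd
    obtain ⟨m, hm⟩ := hodd
    generalize (K F).relIndex (St G F) = a at *
    interval_cases a <;> omega
  · have h3 := hHl.sev (h F hF) F hFB hF
    rw [inf_eq_right.2 hN] at h3
    rw [← h3]
    exact relIndex_dvd_of_le_left _ hKB

theorem exists_triple {Ω : Type u} {F : Set Ω} (hF : F.ncard = 4) :
    ∃ T ⊆ F, T.ncard = 3 := Set.exists_subset_card_eq (by omega)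

theorem even_case (hFr : FrStmt.{u}) (hBlk : BlkStmt.{u}) (hMq : MqStmt.{u})
    (hNo5 : No5Stmt.{u}) (hF6n : F6nStmt.{u}) (hF6s : F6sStmt.{u}) (hK6 : K6Stmt.{u})
    (hD4 : D4Stmt.{u}) (hE8 : E8Stmt.{u}) (hQuo : QuoStmt.{u}) (hUg : UgStmt.{u})
    (hUa : UaStmt.{u}) (n : ℕ) :
    ∀ (G Ω : Type u) [Group G] [Finite G] [MulAction G Ω] [Finite Ω]
      (K P : Set Ω → Subgroup G), Nat.card Ω = n → Ev K P → ∀ F : Set Ω, F.ncard = 4 →
      Eight G Ω ∨ Bk P 7 := by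
  induction n using Nat.strong_induction_on with
  | _ n ih =>
  intro G Ω _ _ _ _ K P hn hE F₀ hF₀
  obtain ⟨-, -, -, hHl, -, -, -, -, -, -, -, hBk, hlt, -⟩ := hBlk G Ω K P hE F₀ hF₀
  obtain ⟨Q, hQ⟩ := exists_mq (G := G) _ hlt
  have hcard := hHl.card
  have h4 : 4 ≤ (Fx Ω (P F₀)).ncard := by omega
  have h5 := hNo5 G Ω K P hE _ hBk Q hQ h4
  -- the common contradiction
  have six : ∀ F : Set Ω, F.ncard = 4 → ∀ c ∈ St G F, c ∉ K F →
      orderOf c = ((K F).relIndex (St G F)).minFac → (F1 Ω c).ncard = 6 →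
      (Bk P 6 ∨ (Bk P 4 ∧ ¬ 3 ∣ Nat.card (K F))) → False := by
    intro F hF c hc hcK hord hf hk
    obtain ⟨T, hT, hT3⟩ := exists_triple hF
    exact hF6s G Ω K P hE F hF T hT hT3 c hc hcK hord hf hk
      (hF6n G Ω K P hE F hF T hT hT3 c hc hcK hord hf)
  have elt : ∀ F : Set Ω, F.ncard = 4 → ∃ c ∈ St G F, c ∉ K F ∧
      orderOf c = ((K F).relIndex (St G F)).minFac ∧ (orderOf c).Prime := by
    intro F hF
    have hp := Nat.minFac_prime (relIndex_ne_one (hE.fr F hF))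
    obtain ⟨c, hc, hcK, ho⟩ := (hFr G _ _ (hE.fr F hF)).2.2.2.2.2 _ hp (Nat.minFac_dvd _)
    exact ⟨c, hc, hcK, ho, ho ▸ hp⟩
  generalize (Fx Ω (P F₀)).ncard = k at *
  rcases hcard with rfl | rfl | rfl | rfl | rfl
  · obtain ⟨hTr, hodd, hD⟩ := hD4 G Ω K P hE hBk Q hQ
    rcases hD with hD | hD
    · exact Or.inl (hE8 G Ω K P hE hBk Q hQ hTr hodd hD)
    obtain ⟨F, hFΔ, hF⟩ : ∃ F ⊆ Fx Ω Q, F.ncard = 4 := Set.exists_subset_card_eq hQ.big.le
    obtain ⟨hQP, hsub, hinf, hSt, -⟩ := hMq G Ω K P hE 4 hBk Q hQ F hFΔ hF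
    obtain ⟨hcop, -⟩ := hFr G _ _ (hE.fr F hF)
    obtain ⟨-, hoddI, -⟩ := hBlk G Ω K P hE F hF
    have h3K : ¬ 3 ∣ Nat.card (K F) := by
      intro h3
      have hP : ¬ P F ≤ St G (Fx Ω Q) := by
        intro hle
        have h1 : Fx Ω Q ⊆ Fx Ω (P F) := le_St_iff.1 hle
        have h2 := Set.ncard_le_ncard h1 (Set.toFinite _)
        have h3 := hBk F hF
        have := hQ.big
        omega
      obtain ⟨G', Ω', _, _, _, _, K', P', F', hE', hlt', hF', hidx⟩ :=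
        hQuo G Ω K P hE F hF h3 (Fx Ω Q) hFΔ (hSt.trans inf_le_left) hP (hodd F hFΔ hF)
      have h := ih _ (hn ▸ hlt') G' Ω' K' P' rfl hE' F' hF'
      have h3' := res hBlk hE' h hF'
      rw [hidx] at h3'
      have := Nat.eq_one_of_dvd_coprimes hcop h3 h3'
      omega
    by_cases h3H : 3 ∣ Nat.card (St G F)
    · have h3I : 3 ∣ (K F).relIndex (St G F) := by
        have hmul : Nat.card ((K F).subgroupOf (St G F)) * (K F).relIndex (St G F) =
            Nat.card (St G F) := card_mul_index _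
        rw [Nat.card_congr (subgroupOfEquivOfLe (hE.fr F hF).le).toEquiv] at hmul
        rw [← hmul] at h3H
        exact ((Nat.Prime.dvd_mul Nat.prime_three).1 h3H).resolve_left h3K
      obtain ⟨c, hc, hcK, ho, -⟩ := elt F hF
      have ho3 : orderOf c = 3 := ho.trans (minFac_eq_three hoddI h3I)
      rcases hUa G Ω K P hE hBk Q hQ hD F hF c hc hcK ho3 with h6 | h8
      · exact (six F hF c hc hcK ho h6 (Or.inr ⟨hBk, h3K⟩)).elim
      · exact Or.inl h8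
    · obtain ⟨c, hc, hcK, ho, -⟩ := elt F hF
      exact (six F hF c hc hcK ho (hUg G Ω K P hE hBk Q hQ hD F hF h3H c hc hcK ho)
        (Or.inr ⟨hBk, h3K⟩)).elim
  · exact (h5.1 rfl).elim
  · obtain ⟨c, hc, hcK, ho, hp⟩ := elt F₀ hF₀
    exact (six F₀ hF₀ c hc hcK ho (hK6 G Ω K P hE hBk F₀ hF₀ c hc hcK hp) (Or.inl hBk)).elim
  · exact Or.inr hBk
  · exact (h5.2 rfl).elim

theorem main_same (hFr : FrStmt.{u}) (hPar : ParStmt.{u}) (hId : IdStmt.{u})
    (hOev : OevStmt.{u}) (hOod : OodStmt.{u}) (hOrn : OrnStmt.{u}) (hO13 : O13Stmt.{u})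
    (hBlk : BlkStmt.{u}) (hMq : MqStmt.{u})
    (hNo5 : No5Stmt.{u}) (hF6n : F6nStmt.{u}) (hF6s : F6sStmt.{u}) (hK6 : K6Stmt.{u})
    (hD4 : D4Stmt.{u}) (hE8 : E8Stmt.{u}) (hQuo : QuoStmt.{u}) (hUg : UgStmt.{u})
    (hUa : UaStmt.{u}) (hK7b : K7bStmt.{u}) (hK7c : K7cStmt.{u}) (hK7d : K7dStmt.{u})
    (hK7e : K7eStmt.{u}) (G Ω : Type u) [Group G] [Finite G] [MulAction G Ω] [Finite Ω]
    (K : Set Ω → Subgroup G) (hK : Fb K) (F : Set Ω) (hF : F.ncard = 4) :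
    Nonempty (G ≃* Perm (Fin 7)) ∨ Nonempty (G ≃* alternatingGroup (Fin 8)) ∨ Spor.IsoM23 G := by
  obtain ⟨h7, h8, -⟩ := hId G Ω K hK
  rcases hPar G Ω K hK F hF with hO | ⟨P, hE⟩
  · have hodd : Odd (Nat.card Ω) := Nat.not_even_iff_odd.1 (hOev G Ω K hO F hF)
    rcases hOod G Ω K hO F hF hodd with h | h | ⟨a, b, hab, N, hN, hNN, htr, hreg⟩
    · exact Or.inl (h7 h)
    · exact (hO13 G Ω K hO h).elim
    · exact (hOrn G Ω K hO F hF hodd a b hab N hN hNN htr hreg).elim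
  · rcases even_case hFr hBlk hMq hNo5 hF6n hF6s hK6 hD4 hE8 hQuo hUg hUa _ G Ω K P rfl hE F hF
      with h | h
    · exact Or.inr (Or.inl (h8 h))
    · obtain ⟨-, -, -, -, -, -, -, -, -, -, -, -, hlt, -⟩ := hBlk G Ω K P hE F hF
      rw [h F hF] at hlt
      obtain ⟨Q, hQ⟩ := exists_mq (G := G) _ hlt
      obtain ⟨rfl, hP⟩ := hK7b G Ω K P hE h Q hQ
      have hall : ∀ F : Set Ω, F.ncard = 4 → Nat.card (P F) = 16 ∧ St G (Fx Ω (P F)) = P F :=
        fun F hF => ⟨(hP F hF).1, hK7c G Ω K P hE h F hF (hP F hF).1 (hP F hF).2⟩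
      exact Or.inr (Or.inr (hK7e G Ω K P hE h (hK7d G Ω K P hE h hQ hall) hall))

theorem frob_comap {A B : Type*} [Group A] [Group B] (φ : A ≃* B) {H : Subgroup B}
    (h : Cfsg.IsFrobeniusComplement H) : Cfsg.IsFrobeniusComplement (H.comap φ.toMonoidHom) := by
  obtain ⟨h1, h2, h3⟩ := h
  refine ⟨fun hb => h1 ?_, fun ht => h2 ?_, fun g hg => ?_⟩
  · rw [eq_bot_iff]
    intro x hx
    have : φ.symm x ∈ H.comap φ.toMonoidHom := by simpa using hx
    rw [hb, mem_bot] at this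
    rw [mem_bot, ← φ.apply_symm_apply x, this, map_one]
  · rw [eq_top_iff]
    intro x _
    have : φ.symm x ∈ H.comap φ.toMonoidHom := ht ▸ mem_top _
    simpa using this
  · rw [eq_bot_iff]
    intro x hx
    have hx1 : φ x ∈ H := hx.1
    have hx2 := (mem_inf.1 hx).2
    rw [mem_pointwise_smul_iff_inv_smul_mem] at hx2
    have hx3 : φ x ∈ MulAut.conj (φ g) • H := by
      rw [mem_pointwise_smul_iff_inv_smul_mem]
      have : φ ((MulAut.conj g)⁻¹ • x) ∈ H := hx2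
      simpa using this
    have := (h3 (φ g) hg).le ⟨hx1, hx3⟩
    rw [mem_bot] at this ⊢
    exact φ.injective (this.trans (map_one φ).symm)

universe v w

theorem main_of (hFr : FrStmt.{max v w}) (hDat : DatStmt.{max v w}) (hPar : ParStmt.{max v w})
    (hId : IdStmt.{max v w})
    (hOev : OevStmt.{max v w}) (hOod : OodStmt.{max v w}) (hOrn : OrnStmt.{max v w})
    (hO13 : O13Stmt.{max v w}) (hBlk : BlkStmt.{max v w}) (hMq : MqStmt.{max v w})
    (hNo5 : No5Stmt.{max v w}) (hF6n : F6nStmt.{max v w}) (hF6s : F6sStmt.{max v w})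
    (hK6 : K6Stmt.{max v w}) (hD4 : D4Stmt.{max v w}) (hE8 : E8Stmt.{max v w})
    (hQuo : QuoStmt.{max v w}) (hUg : UgStmt.{max v w}) (hUa : UaStmt.{max v w})
    (hK7b : K7bStmt.{max v w}) (hK7c : K7cStmt.{max v w}) (hK7d : K7dStmt.{max v w})
    (hK7e : K7eStmt.{max v w})
    {G : Type v} [Group G] [Finite G] {Ω : Type w} [Fintype Ω] [MulAction G Ω] [FaithfulSMul G Ω]
    (h4 : MulAction.IsMultiplyPretransitive G Ω 4) (a b c d : Ω) (hab : a ≠ b) (hac : a ≠ c)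
    (had : a ≠ d) (hbc : b ≠ c) (hbd : b ≠ d) (hcd : c ≠ d)
    (hF : ∃ H : Subgroup ↥(MulAction.stabilizer G a ⊓ MulAction.stabilizer G b ⊓
      MulAction.stabilizer G c ⊓ MulAction.stabilizer G d), Cfsg.IsFrobeniusComplement H) :
    Nonempty (G ≃* Perm (Fin 7)) ∨ Nonempty (G ≃* alternatingGroup (Fin 8)) ∨ Spor.IsoM23 G := by
  classical
  let G' := ULift.{w} G
  let Ω' := ULift.{v} Ω
  have hsm : ∀ (g : G') (x : Ω'), g • x = ULift.up (g.down • x.down) := fun _ _ => rfl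
  have : FaithfulSMul G' Ω' := ⟨fun {g h} hgh => by
    apply ULift.ext
    refine eq_of_smul_eq_smul (α := Ω) fun x => ?_
    have := hgh (ULift.up x)
    rw [hsm, hsm] at this
    exact congrArg ULift.down this⟩
  have h4' : MulAction.IsMultiplyPretransitive G' Ω' 4 := by
    refine ⟨fun x y => ?_⟩
    obtain ⟨g, hg⟩ := h4.exists_smul_eq (x.trans Equiv.ulift.toEmbedding)
      (y.trans Equiv.ulift.toEmbedding)
    refine ⟨ULift.up g, ?_⟩
    ext i
    have := DFunLike.congr_fun hg i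
    exact this
  let φ : ↥(MulAction.stabilizer G' (ULift.up a : Ω') ⊓ MulAction.stabilizer G' (ULift.up b : Ω') ⊓
      MulAction.stabilizer G' (ULift.up c : Ω') ⊓ MulAction.stabilizer G' (ULift.up d : Ω')) ≃*
      ↥(MulAction.stabilizer G a ⊓ MulAction.stabilizer G b ⊓
      MulAction.stabilizer G c ⊓ MulAction.stabilizer G d) :=
    { toFun := fun g => ⟨g.1.down, ⟨⟨congrArg ULift.down g.2.1.1.1,
        congrArg ULift.down g.2.1.1.2⟩, congrArg ULift.down g.2.1.2⟩, congrArg ULift.down g.2.2⟩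
      invFun := fun g => ⟨ULift.up g.1, ⟨⟨congrArg ULift.up g.2.1.1.1,
        congrArg ULift.up g.2.1.1.2⟩, congrArg ULift.up g.2.1.2⟩, congrArg ULift.up g.2.2⟩
      left_inv := fun _ => rfl
      right_inv := fun _ => rfl
      map_mul' := fun _ _ => rfl }
  obtain ⟨H, hH⟩ := hF
  have ne : ∀ {x y : Ω}, x ≠ y → (ULift.up x : Ω') ≠ ULift.up y :=
    fun h h' => h (congrArg ULift.down h')
  obtain ⟨K, hK⟩ := hDat G' Ω' h4' _ _ _ _ (ne hab) (ne hac) (ne had) (ne hbc) (ne hbd) (ne hcd)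
    ⟨_, frob_comap φ hH⟩
  have hcard : ({ULift.up a, ULift.up b, ULift.up c, ULift.up d} : Set Ω').ncard = 4 :=
    Set.ncard_eq_four.2 ⟨_, _, _, _, ne hab, ne hac, ne had, ne hbc, ne hbd, ne hcd, rfl⟩
  have e : G ≃* G' := MulEquiv.ulift.symm
  rcases main_same hFr hPar hId hOev hOod hOrn hO13 hBlk hMq hNo5 hF6n hF6s hK6 hD4 hE8 hQuo hUg
    hUa hK7b hK7c hK7d hK7e G' Ω' K hK _ hcard with ⟨⟨f⟩⟩ | ⟨⟨f⟩⟩ | ⟨⟨f⟩⟩
  · exact Or.inl ⟨e.trans f⟩
  · exact Or.inr (Or.inl ⟨e.trans f⟩)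
  · exact Or.inr (Or.inr ⟨e.trans f⟩)

end Cfsg.Agent.H58.Q4
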