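import Mathlib
import Cfsg.Agent.H79.R3Defs

/-!
A subgroup of `GL₃(q)` that is transitive on points and has a non-scalar involution contains a
transvection.
-/

set_option autoImplicit false

namespace Cfsg.Agent.H58.R3W

open Cfsg.Agent.H79.R3 Module
open scoped Pointwise

universe u

section
variable {F V : Type u} [Field F] [AddCommGroup V] [Module F V]

theorem rank_one (N : V →ₗ[F] V) (h : finrank F (LinearMap.range N) = 1) :
    ∃ (w : V) (φ : V →ₗ[F] F), w ≠ 0 ∧ φ ≠ 0 ∧ ∀ v, N v = φ v • w := by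
  obtain ⟨⟨w, hw⟩, hw0, hs⟩ := finrank_eq_one_iff'.1 h
  have hw0' : w ≠ 0 := fun e => hw0 (Subtype.ext e)
  have hs' : ∀ v, ∃ c : F, c • w = N v := fun v => by
    obtain ⟨c, hc⟩ := hs ⟨N v, LinearMap.mem_range_self N v⟩
    exact ⟨c, congrArg Subtype.val hc⟩
  choose f hf using hs'
  have inj : ∀ a b : F, a • w = b • w → a = b := fun a b e => smul_left_injective F hw0' e
  let φ : V →ₗ[F] F :=
    { toFun := f
      map_add' := fun x y => inj _ _ (by rw [add_smul, hf, hf, hf, map_add])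
      map_smul' := fun c x => inj _ _ (by
        rw [hf, map_smul, RingHom.id_apply, smul_eq_mul, mul_smul, hf]) }
  refine ⟨w, φ, hw0', fun e => ?_, fun v => (hf v).symm⟩
  obtain ⟨v, hv⟩ := hw
  have : f v = 0 := LinearMap.congr_fun e v
  have h2 := hf v
  rw [this, zero_smul, hv] at h2
  exact hw0' h2.symm

theorem val_neg_two {g : V ≃ₗ[F] V} {w : V} {φ : V →ₗ[F] F} (hw : w ≠ 0) (hφ : φ ≠ 0)
    (hg : ∀ v, g v = v + φ v • w) (h2 : ∀ v, g (g v) = v) : φ w = -2 := by
  obtain ⟨v, hv⟩ : ∃ v, φ v ≠ 0 := by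
    by_contra h
    push Not at h
    exact hφ (LinearMap.ext h)
  have h3 := h2 v
  rw [hg, hg, map_add, map_smul, smul_eq_mul, add_assoc, ← add_smul, add_eq_left,
    smul_eq_zero] at h3
  rcases h3 with h3 | h3
  · have : φ v * (φ w + 2) = 0 := by rw [← h3]; ring
    rcases mul_eq_zero.1 this with h4 | h4
    · exact absurd h4 hv
    · exact eq_neg_of_add_eq_zero_left h4
  · exact absurd h3 hw

theorem exists_refl [FiniteDimensional F V] (Γ : Subgroup (V ≃ₗ[F] V)) (h3 : finrank F V = 3)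
    (hsc : ∀ g, IsSc g → g ∈ Γ) (h : V ≃ₗ[F] V) (hΓ : h ∈ Γ) (hn : ¬ IsSc h) (hh : h * h = 1) :
    ∃ (w : V) (φ : V →ₗ[F] F), w ≠ 0 ∧ φ ≠ 0 ∧ φ w = -2 ∧ Tv Γ w φ := by
  have hh' : ∀ v, h (h v) = v := fun v => by
    have := LinearEquiv.congr_fun hh v
    simpa using this
  set N : V →ₗ[F] V := (h : V →ₗ[F] V) - LinearMap.id with hN
  set M : V →ₗ[F] V := -(h : V →ₗ[F] V) - LinearMap.id with hM
  have hle : LinearMap.range N ≤ LinearMap.ker M := by
    rintro _ ⟨v, rfl⟩
    simp [hN, hM, hh']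
  have e1 := Submodule.finrank_mono hle
  have e2 := LinearMap.finrank_range_add_finrank_ker M
  have n1 : finrank F (LinearMap.range N) ≠ 0 := fun e => by
    rw [Submodule.finrank_eq_zero, LinearMap.range_eq_bot] at e
    refine hn ⟨1, fun v => ?_⟩
    have := LinearMap.congr_fun e v
    simp only [hN, LinearMap.sub_apply, LinearEquiv.coe_coe, LinearMap.id_apply,
      LinearMap.zero_apply, sub_eq_zero] at this
    rw [this, one_smul]
  have n2 : finrank F (LinearMap.range M) ≠ 0 := fun e => by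
    rw [Submodule.finrank_eq_zero, LinearMap.range_eq_bot] at e
    refine hn ⟨-1, fun v => ?_⟩
    have := LinearMap.congr_fun e v
    simp only [hM, LinearMap.sub_apply, LinearMap.neg_apply, LinearEquiv.coe_coe,
      LinearMap.id_apply, LinearMap.zero_apply, sub_eq_zero] at this
    rw [neg_smul, one_smul, ← neg_eq_iff_eq_neg, this]
  rcases (by omega : finrank F (LinearMap.range N) = 1 ∨ finrank F (LinearMap.range M) = 1) with
    r | r
  · obtain ⟨w, φ, hw, hφ, e⟩ := rank_one N r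
    have hg : ∀ v, h v = v + φ v • w := fun v => by
      rw [← e]; simp [hN]
    exact ⟨w, φ, hw, hφ, val_neg_two hw hφ hg hh', h, hΓ, hg⟩
  · obtain ⟨w, φ, hw, hφ, e⟩ := rank_one M r
    let m : V ≃ₗ[F] V := LinearEquiv.neg F
    have hm : ∀ v, m v = -v := fun v => rfl
    have hmh : ∀ v, (m * h : V ≃ₗ[F] V) v = -h v := fun v => rfl
    have hg : ∀ v, (m * h : V ≃ₗ[F] V) v = v + φ v • w := fun v => by
      rw [← e, hmh]; simp [hM]
    refine ⟨w, φ, hw, hφ, val_neg_two hw hφ hg fun v => ?_, m * h,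
      Γ.mul_mem (hsc m ⟨-1, fun v => by rw [hm, neg_smul, one_smul]⟩) hΓ, hg⟩
    rw [hmh, hmh, map_neg, neg_neg, hh']

theorem tv_conj {Γ : Subgroup (V ≃ₗ[F] V)} {w : V} {φ : V →ₗ[F] F} (h : Tv Γ w φ)
    {g : V ≃ₗ[F] V} (hg : g ∈ Γ) : Tv Γ (g w) (φ ∘ₗ (g.symm : V →ₗ[F] V)) := by
  obtain ⟨t, ht, e⟩ := h
  refine ⟨g * t * g⁻¹, Γ.mul_mem (Γ.mul_mem hg ht) (Γ.inv_mem hg), fun v => ?_⟩
  change g (t (g.symm v)) = _
  rw [e, map_add, map_smul, LinearEquiv.apply_symm_apply]
  rfl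

theorem same_centre {Γ : Subgroup (V ≃ₗ[F] V)} (hno : ¬ HasTv Γ) {w : V} {φ φ' : V →ₗ[F] F}
    (hw : w ≠ 0) (e : φ w = -2) (e' : φ' w = -2) (h : Tv Γ w φ) (h' : Tv Γ w φ') : φ = φ' := by
  by_contra hne
  obtain ⟨t, ht, f⟩ := h
  obtain ⟨t', ht', f'⟩ := h'
  refine hno ⟨w, φ - φ', hw, sub_ne_zero.2 hne, by simp [e, e'], t * t', Γ.mul_mem ht ht',
    fun v => ?_⟩
  change t (t' v) = _
  rw [f, f', map_add, map_smul, e, add_assoc, ← add_smul, LinearMap.sub_apply, smul_eq_mul]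
  congr 2
  ring

theorem same_axis {Γ : Subgroup (V ≃ₗ[F] V)} (hno : ¬ HasTv Γ) {w w' : V} {φ : V →ₗ[F] F}
    (hφ : φ ≠ 0) (e : φ w = -2) (e' : φ w' = -2) (h : Tv Γ w φ) (h' : Tv Γ w' φ) : w = w' := by
  by_contra hne
  obtain ⟨t, ht, f⟩ := h
  obtain ⟨t', ht', f'⟩ := h'
  refine hno ⟨w' - w, φ, sub_ne_zero.2 (Ne.symm hne), hφ, by simp [e, e'], t * t',
    Γ.mul_mem ht ht', fun v => ?_⟩
  change t (t' v) = _
  rw [f, f', map_add, map_smul, e', smul_eq_mul]
  module

end

theorem w2 (cov : CovStmt.{u}) (fr : FriendStmt.{u}) : W2Stmt.{u} := by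
  intro F V _ _ _ _ _ Γ h3 hsc tr1 _ ⟨h, hΓ, hn, hh⟩
  by_contra hno
  obtain ⟨w0, φ0, hw0, hφ0, e0, t0⟩ := exists_refl Γ h3 hsc h hΓ hn hh
  have two : (-2 : F) ≠ 0 := fun e => hno ⟨w0, φ0, hw0, hφ0, e0.trans e, t0⟩
  have : Finite (Submodule F V) := Finite.of_injective _ SetLike.coe_injective
  let P : Type u := {x : Submodule F V // dm x = 1}
  have ex : ∀ a : P, ∃ (w : V) (φ : V →ₗ[F] F), a.1 = F ∙ w ∧ φ w = -2 ∧ Tv Γ w φ := fun a => by
    obtain ⟨g, hg, e⟩ := tr1 (F ∙ w0) a.1 (finrank_span_singleton hw0) a.2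
    refine ⟨g w0, φ0 ∘ₗ (g.symm : V →ₗ[F] V), by rw [← e, smul_span], by simpa using e0,
      tv_conj t0 hg⟩
  choose w φ ha hv ht using ex
  have hw : ∀ a, w a ≠ 0 := fun a e => two (by rw [← hv a, e, map_zero])
  have hφ : ∀ a, φ a ≠ 0 := fun a e => two (by rw [← hv a, e, LinearMap.zero_apply])
  have hle : ∀ a b : P, b.1 ≤ LinearMap.ker (φ a) ↔ φ a (w b) = 0 := fun a b => by
    rw [ha b, Submodule.span_singleton_le_iff_mem, LinearMap.mem_ker]
  have hk : ∀ a, dm (LinearMap.ker (φ a)) = 2 := fun a => by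
    have := Module.Dual.finrank_ker_add_one_of_ne_zero (hφ a)
    change finrank F (LinearMap.ker (φ a)) = 2
    omega
  have : Nonempty P := ⟨⟨F ∙ w0, finrank_span_singleton hw0⟩⟩
  refine fr P (fun a b => b.1 ≤ LinearMap.ker (φ a)) (1 + Nat.card F) ?_ ?_ ?_ ?_ ?_
  · intro a b hab
    rw [hle] at hab ⊢
    obtain ⟨g, hg, e⟩ := ht a
    have h1 := tv_conj (ht b) hg
    have h2 : g (w b) = w b := by rw [e, hab, zero_smul, add_zero]
    rw [h2] at h1
    have h4 : g.symm (w b) = w b := by rw [LinearEquiv.symm_apply_eq, h2]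
    have h5 := same_centre hno (hw b) (hv b) (by simpa [h4] using hv b) (ht b) h1
    have h6 := LinearMap.congr_fun h5 (g (w a))
    simp only [LinearMap.comp_apply, LinearEquiv.coe_coe, LinearEquiv.symm_apply_apply] at h6
    rw [e, map_add, map_smul, hv a, add_eq_left, smul_eq_mul] at h6
    exact (mul_eq_zero.1 h6).resolve_left two
  · intro a haa
    rw [hle, hv a] at haa
    exact two haa
  · intro a b hab
    have hne : LinearMap.ker (φ a) ≠ LinearMap.ker (φ b) := fun e => by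
      have key : ∀ v, φ b v = φ b (w a) / (-2) * φ a v := fun v => by
        have h1 : v - (φ a v / (-2)) • w a ∈ LinearMap.ker (φ a) := by
          rw [LinearMap.mem_ker, map_sub, map_smul, hv a, smul_eq_mul, div_mul_cancel₀ _ two,
            sub_self]
        rw [e, LinearMap.mem_ker, map_sub, map_smul, smul_eq_mul, sub_eq_zero] at h1
        rw [h1]
        ring
      set c := φ b (w a) / (-2) with hc
      have h1 : Tv Γ (c • w b) (φ a) := by
        obtain ⟨g, hg, f⟩ := ht b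
        exact ⟨g, hg, fun v => by rw [f, key v, smul_smul, mul_comm]⟩
      have h2 : φ a (c • w b) = -2 := by rw [map_smul, smul_eq_mul, ← key, hv b]
      have h4 := same_axis hno (hφ a) (hv a) h2 (ht a) h1
      apply hab
      apply Subtype.ext
      refine Submodule.eq_of_le_of_finrank_eq ?_ (a.2.trans b.2.symm)
      rw [ha a, ha b, Submodule.span_singleton_le_iff_mem, h4]
      exact Submodule.smul_mem _ _ (Submodule.mem_span_singleton_self _)
    have h1 := Submodule.finrank_sup_add_finrank_inf_eq (LinearMap.ker (φ a)) (LinearMap.ker (φ b))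
    have h2 : finrank F ↥(LinearMap.ker (φ a) ⊔ LinearMap.ker (φ b)) ≤ 3 :=
      h3 ▸ Submodule.finrank_le _
    have h4 : finrank F ↥(LinearMap.ker (φ a) ⊓ LinearMap.ker (φ b)) < 2 := by
      have h5 : finrank F ↥(LinearMap.ker (φ a) ⊓ LinearMap.ker (φ b)) ≤
          finrank F (LinearMap.ker (φ a)) := Submodule.finrank_mono inf_le_left
      have ka : finrank F (LinearMap.ker (φ a)) = 2 := hk a
      have kb : finrank F (LinearMap.ker (φ b)) = 2 := hk b
      by_contra h6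
      have e1 : LinearMap.ker (φ a) ⊓ LinearMap.ker (φ b) = LinearMap.ker (φ a) :=
        Submodule.eq_of_le_of_finrank_eq inf_le_left (by omega)
      exact hne (Submodule.eq_of_le_of_finrank_eq (inf_eq_left.1 e1) (ka.trans kb.symm))
    have ka : finrank F (LinearMap.ker (φ a)) = 2 := hk a
    have kb : finrank F (LinearMap.ker (φ b)) = 2 := hk b
    have h5 : dm (LinearMap.ker (φ a) ⊓ LinearMap.ker (φ b)) = 1 := by
      change finrank F ↥(LinearMap.ker (φ a) ⊓ LinearMap.ker (φ b)) = 1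
      omega
    refine ⟨⟨_, h5⟩, ⟨inf_le_left, inf_le_right⟩, fun c hc => Subtype.ext ?_⟩
    exact Submodule.eq_of_le_of_finrank_eq (le_inf hc.1 hc.2) (c.2.trans h5.symm)
  · intro a
    have h1 := cov F V ⊥ (LinearMap.ker (φ a)) bot_le
    have h0 : dm (⊥ : Submodule F V) = 0 := finrank_bot F V
    rw [hk a, h0] at h1
    have h2 : br (Nat.card F) (2 - 0) = 1 + Nat.card F := by
      simp [br, Finset.sum_range_succ]
    rw [← h2, ← h1]
    refine Set.ncard_congr (fun b _ => b.1) ?_ ?_ ?_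
    · intro b hb
      exact ⟨bot_le, hb, by rw [h0]; exact b.2⟩
    · intro b c _ _ e
      exact Subtype.ext e
    · rintro x ⟨-, h4, h5⟩
      rw [h0] at h5
      exact ⟨⟨x, h5⟩, h4, rfl⟩
  · have := Finite.one_lt_card (α := F)
    omega

end Cfsg.Agent.H58.R3W
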