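import Cfsg.Agent.H89.SwLoc

/-! Project SW, piece CASEE. -/

set_option autoImplicit false
set_option linter.unusedSectionVars false
set_option linter.unusedVariables false
open Matrix Cfsg
open scoped commutatorElement

namespace Cfsg.Agent.H58.SWCaseE

open Cfsg.Agent.H58.SW Cfsg.Agent.H89.SwLoc

universe u

theorem core {G : Type u} [Group G] [Finite G] {N : Subgroup G} (hN : N.Normal) {r d : ℕ}
    {Ha Hb D T R : Subgroup G} {g : G} (tw : TW N r d Ha Hb D T R g)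
    (hcen : ∀ h ∈ Ha, ∀ x ∈ D, Commute h x) :
    ∃ da ∈ D, da ≠ 1 ∧ (g⁻¹ * da * g) ^ r = 1 ∧ (∀ x, Commute x (g⁻¹ * da * g) ↔ x ∈ Hb) ∧
      ∃ V : Subgroup G, V ≤ N ∧ V ≤ R ∧ (∀ h ∈ Hb, ∀ x ∈ V, h * x * h⁻¹ ∈ V) ∧
        (∀ x ∈ V, ∀ y ∈ V, Commute x y) ∧ (∀ x ∈ V, x ^ r = 1) ∧ r < Nat.card V ∧
        Nat.card V ≤ r ^ d ∧ ∀ t ∈ T, ∀ x ∈ V, Commute t x := by
  haveI := Fact.mk tw.prime
  obtain ⟨da, hda, da1, dar⟩ : ∃ da ∈ D, da ≠ 1 ∧ da ^ r = 1 := by
    have hp : IsPGroup r D := tw.Rp.to_le tw.DR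
    haveI : Nontrivial D := (Subgroup.nontrivial_iff_ne_bot D).2 tw.Dne
    obtain ⟨m, m0, hm⟩ := hp.nontrivial_iff_card.1 inferInstance
    obtain ⟨x, hx⟩ := exists_prime_orderOf_dvd_card' (G := D) r (hm ▸ dvd_pow_self r m0.ne')
    refine ⟨x, x.2, fun e => ?_, ?_⟩
    · have : x = 1 := Subtype.ext e
      rw [this, orderOf_one] at hx
      exact tw.prime.one_lt.ne hx
    · have := pow_orderOf_eq_one x
      rw [hx] at this
      exact congrArg Subtype.val this
  obtain ⟨db, hdb⟩ : ∃ db, db = g⁻¹ * da * g := ⟨_, rfl⟩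
  have dbR : db ∈ R := hdb ▸ tw.DR' da hda
  have tr : ∀ x, Commute x da ↔ Commute (g⁻¹ * x * g) db := by
    intro x
    rw [hdb]
    constructor
    · intro h; simpa using h.map (MulAut.conj g⁻¹)
    · intro h; simpa [mul_assoc] using h.map (MulAut.conj g)
  have cb1 : ∀ x ∈ Hb, Commute x db := by
    intro x hx
    have h1 : g * x * g⁻¹ ∈ Ha := (tw.conj _).2 (by simpa [mul_assoc] using hx)
    simpa [mul_assoc] using (tr _).1 (hcen _ h1 da hda)
  have db1 : db ≠ 1 := by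
    intro e
    apply da1
    have : da = g * db * g⁻¹ := by rw [hdb]; group
    rw [this, e]; group
  have cb : ∀ x, Commute x db ↔ x ∈ Hb := by
    refine fun x => ⟨fun hx => ?_, cb1 x⟩
    have le : Hb ≤ Subgroup.centralizer {db} := fun y hy =>
      Subgroup.mem_centralizer_singleton_iff.2 (cb1 y hy).eq
    rcases le.eq_or_lt with e | e
    · rw [e]; exact Subgroup.mem_centralizer_singleton_iff.2 hx.eq
    · exfalso
      have e2 := tw.max.2 _ e
      have hc : db ∈ Subgroup.center G := Subgroup.mem_center_iff.2 fun y =>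
        Subgroup.mem_centralizer_singleton_iff.1 (e2 ▸ Subgroup.mem_top y)
      have h3 := tw.core (Subgroup.zpowers db) ⟨fun z hz y => by
        have := Subgroup.mem_center_iff.1 ((Subgroup.zpowers_le.2 hc) hz) y
        rw [this, mul_inv_cancel_right]; exact hz⟩ (Subgroup.zpowers_le.2 (tw.RH dbR))
      exact db1 (Subgroup.zpowers_eq_bot.1 h3)
  have ca : ∀ x, Commute x da ↔ x ∈ Ha := fun x => by rw [tr, cb, tw.conj]
  have daT : da ∈ T := tw.DT hda
  have TH : ∀ t ∈ T, t ∈ Hb := fun t ht => (tw.TH ht).2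
  let S : Set G := {y | ∃ h ∈ Hb, y = h * da * h⁻¹ * db⁻¹}
  have cT : ∀ t ∈ T, ∀ y ∈ S, Commute t y := by
    rintro t ht _ ⟨h, hh, rfl⟩
    refine Commute.mul_right ?_ (cb1 t (TH t ht)).inv_right
    have h1 : h⁻¹ * t * h ∈ T := by simpa using tw.TN h⁻¹ (inv_mem hh) t ht
    simpa [mul_assoc] using ((ca _).2 (tw.TH h1).1).map (MulAut.conj h)
  have SR : ∀ y ∈ S, y ∈ R := by
    rintro _ ⟨h, hh, rfl⟩
    exact mul_mem (tw.RN h hh _ (tw.DR hda)) (inv_mem dbR)
  have cS : ∀ x ∈ S, ∀ y ∈ S, x * y = y * x := by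
    rintro _ ⟨h, hh, rfl⟩ y hy
    exact (Commute.mul_left (cT _ (tw.TN h hh _ daT) y hy)
      (cb1 y (tw.RH (SR y hy))).symm.inv_left).eq
  have dbr : db ^ r = 1 := by
    have : db = g⁻¹ * da * g⁻¹⁻¹ := by rw [hdb, inv_inv]
    rw [this, conj_pow, dar]; group
  have cardS : Nat.card S = d := by
    rw [← tw.idx, Subgroup.relIndex, Subgroup.index]
    symm
    let f : Hb ⧸ (Ha ⊓ Hb).subgroupOf Hb → S := Quotient.lift
      (fun h : Hb => (⟨h * da * (h : G)⁻¹ * db⁻¹, h, h.2, rfl⟩ : S)) (by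
        intro a b hab
        have h1 : (a : G)⁻¹ * b ∈ Ha := (QuotientGroup.leftRel_apply.1 hab).1
        have h2 := ((ca _).2 h1).eq
        refine Subtype.ext ?_
        change (a : G) * da * (a : G)⁻¹ * db⁻¹ = b * da * (b : G)⁻¹ * db⁻¹
        have h3 : (b : G) * da * (b : G)⁻¹ = a * ((a : G)⁻¹ * b * da) * (b : G)⁻¹ := by group
        rw [h3, h2]; group)
    refine Nat.card_eq_of_bijective f ⟨?_, ?_⟩
    · intro a b
      induction a using QuotientGroup.induction_on with | _ a => ?_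
      induction b using QuotientGroup.induction_on with | _ b => ?_
      intro hab
      have h1 : (a : G) * da * (a : G)⁻¹ * db⁻¹ = b * da * (b : G)⁻¹ * db⁻¹ := congrArg Subtype.val hab
      rw [mul_left_inj] at h1
      refine QuotientGroup.eq.2 ⟨(ca _).1 ?_, (a⁻¹ * b).2⟩
      change (a : G)⁻¹ * b * da = da * ((a : G)⁻¹ * b)
      calc (a : G)⁻¹ * b * da = (a : G)⁻¹ * (b * da * (b : G)⁻¹) * b := by group
        _ = da * ((a : G)⁻¹ * b) := by rw [← h1]; group
    · rintro ⟨_, h, hh, rfl⟩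
      exact ⟨QuotientGroup.mk ⟨h, hh⟩, rfl⟩
  have cV : ∀ x ∈ Subgroup.closure S, ∀ y ∈ Subgroup.closure S, Commute x y := by
    intro x hx y hy
    have h1 : Subgroup.closure S ≤ Subgroup.centralizer S :=
      (Subgroup.closure_le _).2 fun a ha b hb => cS b hb a ha
    have h2 : Subgroup.closure S ≤ Subgroup.centralizer {x} :=
      (Subgroup.closure_le _).2 fun a ha => Subgroup.mem_centralizer_singleton_iff.2 (h1 hx a ha)
    exact (Subgroup.mem_centralizer_singleton_iff.1 (h2 hy)).symm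
  have pV : ∀ x ∈ Subgroup.closure S, x ^ r = 1 := by
    intro x hx
    induction hx using Subgroup.closure_induction with
    | mem x hx =>
      obtain ⟨h, hh, rfl⟩ := hx
      rw [(cb1 _ (TH _ (tw.TN h hh _ daT))).inv_right.mul_pow, conj_pow, dar, inv_pow, dbr]; group
    | one => exact one_pow _
    | mul x y hx hy h1 h2 => rw [(cV x hx y hy).mul_pow, h1, h2, one_mul]
    | inv x hx h1 => rw [inv_pow, h1, inv_one]
  refine ⟨da, hda, da1, hdb ▸ dbr, hdb ▸ cb, Subgroup.closure S, (Subgroup.closure_le _).2 ?_,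
    (Subgroup.closure_le _).2 SR, ?_, cV, pV, ?_, ?_, ?_⟩
  · rintro _ ⟨h, hh, rfl⟩
    have h1 : h * da * h⁻¹ * db⁻¹ = h * (da * g⁻¹ * da⁻¹ * g) * h⁻¹ := by
      have h2 := (cb1 h⁻¹ (inv_mem hh)).inv_right.eq
      rw [mul_assoc (h * da), h2, hdb]; group
    change _ ∈ N
    rw [h1]
    exact hN.conj_mem _ (mul_mem (hN.conj_mem _ (inv_mem tw.gN) da) tw.gN) h
  · intro k hk x hx
    have h1 : Subgroup.closure S ≤ (Subgroup.closure S).comap (MulAut.conj k).toMonoidHom := by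
      refine (Subgroup.closure_le _).2 ?_
      rintro _ ⟨h, hh, rfl⟩
      refine Subgroup.subset_closure ⟨k * h, mul_mem hk hh, ?_⟩
      have h2 := (cb1 k⁻¹ (inv_mem hk)).inv_right.eq
      change k * (h * da * h⁻¹ * db⁻¹) * k⁻¹ = _
      rw [mul_assoc k, mul_assoc _ db⁻¹, ← h2]; group
    exact h1 hx
  · refine tw.rd.trans_le ?_
    rw [← cardS]
    exact Nat.card_mono (Set.toFinite _) Subgroup.subset_closure
  · letI : CommGroup (Subgroup.closure S) :=
      { (inferInstance : Group (Subgroup.closure S)) with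
        mul_comm := fun a b => Subtype.ext (cV a a.2 b b.2).eq }
    have h1 := card_dvd_exponent_pow_rank' (Subgroup.closure S) (n := r)
      (fun x => Subtype.ext (pV x x.2))
    have h2 := Subgroup.rank_closure_finite_le_nat_card S
    rw [cardS] at h2
    exact (Nat.le_of_dvd (pow_pos tw.prime.pos _) h1).trans (Nat.pow_le_pow_right tw.prime.pos h2)
  · intro t ht x hx
    have h2 : Subgroup.closure S ≤ Subgroup.centralizer {t} :=
      (Subgroup.closure_le _).2 fun a ha => Subgroup.mem_centralizer_singleton_iff.2 (cT t ht a ha).symm.eq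
    exact (Subgroup.mem_centralizer_singleton_iff.1 (h2 hx)).symm

theorem caseE (hKA : KAStmt) (hKT : KTStmt) (hO : OrdStmt) : CaseEStmt.{u} := by
  intro G _ _ N hN F _ _ _ n c φ hm r d Ha Hb D T R g tw hD
  have ka := hKA F n c
  have kt := hKT F n c
  have zi : ∀ a ∈ c.St, ∀ k, φ k = MulAut.conj a → (a ∈ c.Z ↔ k = 1) := by
    intro a ha k e
    rw [← ka.conj_one a ha, ← e, map_eq_one_iff φ hm.inj]
  have mv : ∀ a ∈ c.St, ∀ k x, φ k = MulAut.conj a → (φ x a * a⁻¹ ∈ c.Z ↔ Commute x k) := by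
    intro a ha k x e
    rw [zi _ (mul_mem ((kt.pres _ (hm.std x) a).1.2 ha) (inv_mem ha)) ⁅x, k⁆ (by
      rw [map_mul, conj_ap, map_inv, ← e, commutatorElement_def]; simp only [map_mul, map_inv]),
      commutatorElement_eq_one_iff_commute]
  obtain ⟨da, hda, da1, dbr, cb, V, VN, VR, Vinv, Vab, Vpw, lo, hi, cT⟩ := core hN tw (by
    intro h hh x hx
    obtain ⟨a, ha, e⟩ := (hO F n c).2.1 (φ h) (φ x) (hm.std h) (hm.std x)
    rw [← map_commutatorElement] at e
    have h1 : ⁅h, x⁆ ∈ D := mul_mem (tw.DN h hh x hx) (inv_mem hx)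
    exact commutatorElement_eq_one_iff_commute.1
      ((zi a ha _ e).1 (hD (mem_hat.2 ⟨ha, _, h1, e⟩))))
  have ri : c.Z.relIndex (c.hat (V.map φ)) = Nat.card V := by
    have h1 : c.Z ⊓ c.hat (V.map φ) =
        (MulAut.conj : Gl n F →* MulAut (Gl n F)).ker ⊓ c.hat (V.map φ) := by
      ext a
      exact and_congr_left fun ha => (ka.conj_one a ha.1).symm
    have h2 : (c.hat (V.map φ)).map (MulAut.conj : Gl n F →* MulAut (Gl n F)) = V.map φ := by
      refine le_antisymm ?_ ?_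
      · rintro _ ⟨a, ha, rfl⟩
        exact ha.2
      · rintro _ ⟨v, hv, rfl⟩
        obtain ⟨s, hs, es⟩ : φ v ∈ c.S.map (MulAut.conj : Gl n F →* MulAut (Gl n F)) :=
          hm.map ▸ Subgroup.mem_map_of_mem _ (VN hv)
        exact ⟨s, mem_hat.2 ⟨hs.1, v, hv, es.symm⟩, es⟩
    rw [← Subgroup.inf_relIndex_right, h1, Subgroup.inf_relIndex_right, Subgroup.relIndex_ker, h2,
      Subgroup.card_map_of_injective hm.inj]
  refine ⟨φ (g⁻¹ * da * g), c.hat (V.map φ), ⟨⟨_, tw.RH (tw.DR' da hda), rfl⟩, ?_, ?_, ?_, ?_⟩,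
    ka.z_hat _, hat_mono VR, hat_inv kt hm Vinv, ?_, ?_, ri ▸ lo, ri ▸ hi, ?_⟩
  · rw [← map_pow, dbr, map_one]
  · intro a ha e
    have h1 : φ g a ∈ c.St := (kt.pres _ (hm.std g) a).1.2 ha
    have h2 : φ da = MulAut.conj (φ g a) := by
      rw [conj_ap, ← e, ← map_inv, ← map_mul, ← map_mul]
      congr 1
      group
    exact da1 ((zi _ h1 _ h2).1 (hD (mem_hat.2 ⟨h1, da, hda, h2⟩)))
  · rintro a ⟨ha, k, hk, e⟩
    exact (mv a ha k _ e).2 ((cb k).2 hk).symm
  · intro s hs h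
    obtain ⟨m, -, e⟩ := ex_N hm hs
    exact mem_hat.2 ⟨hs.1, m, (cb m).1 ((mv s hs.1 m _ e).1 h).symm, e⟩
  · rintro x ⟨hx, v, hv, e⟩ y ⟨hy, w, hw, e'⟩
    refine (zi _ (mul_mem (mul_mem (mul_mem hx hy) (inv_mem hx)) (inv_mem hy)) ⁅v, w⁆ ?_).2
      (commutatorElement_eq_one_iff_commute.2 (Vab v hv w hw))
    rw [map_commutatorElement, e, e', ← map_commutatorElement]
    rfl
  · rintro x ⟨hx, v, hv, e⟩
    exact (zi _ (pow_mem hx r) (v ^ r) (by rw [map_pow, e, map_pow])).2 (Vpw v hv)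
  · have TH : T ≤ Hb := tw.TH.trans inf_le_right
    have h1 : Nat.card T * T.relIndex Hb = Nat.card Hb := by
      rw [Subgroup.relIndex, ← Subgroup.card_mul_index (T.subgroupOf Hb),
        Nat.card_congr (Subgroup.subgroupOfEquivOfLe TH).toEquiv]
    rw [Subgroup.card_map_of_injective hm.inj, ← h1, mul_comm]
    refine Nat.mul_le_mul tw.Tidx ?_
    rw [← Subgroup.card_map_of_injective (f := φ) hm.inj]
    refine Set.ncard_le_ncard (s := (T.map φ : Set (Au n F))) ?_ (Set.toFinite _)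
    rintro _ ⟨t, ht, rfl⟩
    refine ⟨⟨t, TH ht, rfl⟩, ?_⟩
    rintro x ⟨hx, v, hv, e⟩
    exact (mv x hx v t e).2 (cT t ht v hv)

end Cfsg.Agent.H58.SWCaseE
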