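import Mathlib
import Cfsg.Agent.H41.U6Defs

/-!
# A standard subgroup `2·U₆(2)`: a conjugate of the central involution inducing an inner automorphism
-/

set_option autoImplicit false

universe u

namespace Cfsg.Agent.H58.U6Inn

open Cfsg.Agent.H41 Cfsg.Agent.H41.Rec Cfsg.Agent.H42 Cfsg.Agent.H45 Cfsg.Agent.H60 Equiv Subgroup
open Cfsg.Agent.H41.U6S Cfsg.Agent.H99.F22

theorem exists_into {Γ : Type*} [Group Γ] [Finite Γ] {H S : Subgroup Γ} (h2 : IsPGroup 2 S)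
    (h3 : ¬ 2 ∣ S.relIndex H) {x : Γ} (hx : x ∈ H) (xx : x * x = 1) :
    ∃ c ∈ H, c⁻¹ * x * c ∈ S := by
  have : Fact (Nat.Prime 2) := ⟨Nat.prime_two⟩
  obtain ⟨P, hP⟩ := (IsPGroup.of_card_dvd_pow (p := 2) (n := 1) (G := zpowers (⟨x, hx⟩ : H)) (by
    rw [Nat.card_zpowers, orderOf_dvd_iff_pow_eq_one, pow_one, pow_two]
    exact Subtype.ext xx)).exists_le_sylow
  obtain ⟨c, hc⟩ := MulAction.exists_smul_eq H
    ((h2.comap_subtype : IsPGroup 2 (S.subgroupOf H)).toSylow h3) P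
  refine ⟨c, c.2, ?_⟩
  have h4 : (P : Subgroup H) = Rec.cjS c (S.subgroupOf H) := by rw [← hc]; rfl
  have h5 := hP (mem_zpowers _)
  rw [h4] at h5
  have h6 := mem_cjS.mp h5
  exact h6

theorem inn : InnStmt.{u} := by
  intro Q G _ _ _ _ ι ρ N d h two hn
  have ex : Ex L21.F (ρ.comp N.subtype) ⟨d, h.dN⟩ :=
    ⟨by rw [MonoidHom.range_comp, Subgroup.range_subtype, h.rng], fun a => (h.ker a a.2).trans
      (or_congr OneMemClass.coe_eq_one (Subtype.ext_iff (a2 := ⟨d, h.dN⟩)).symm),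
      fun e => h.ne (congrArg Subtype.val e)⟩
  have dd : d * d = 1 := congrArg Subtype.val ex.sq
  have rd : ρ d = 1 := (h.ker d h.dN).mpr (Or.inr rfl)
  obtain ⟨g, x2, x3⟩ := hn
  obtain ⟨z, hg⟩ := h.cen _ x2
  replace hg := hg.symm
  by_cases hy : ρ z ∈ L21.F.grp
  · exact ⟨g, z, hg, fun e => x3 (hg.trans (congrArg ι e)), hy⟩
  have h4 : z * z = 1 := h.inj (by
    rw [map_mul, ← hg, _root_.conj_mul, ← map_mul, dd]; simp)
  obtain ⟨S, σ, U⟩ := O21.out
  have rz : ρ z * ρ z = 1 := by rw [← map_mul, h4, map_one]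
  obtain ⟨c, ca, hc⟩ := exists_into U.pg U.syl (h.aut z) rz
  set Vb := sp (fun i => L21.F.T (O21.s i)) 9 with hVb
  have cV : Nat.card Vb = 512 := mo21.{u}.cq.ci.card_sp mo21.{u}.cq.ind
  have eV : EA Vb := mo21.{u}.cq.ci.ea
  have um : UM S Vb := ⟨U.le, eV, fun B h1 h2 h3 => U.um B h1 h2 (cV ▸ h3)⟩
  have vg : Vb ≤ L21.F.grp := clos_le.mpr fun _ _ => FS.T_mem_grp _
  set A : Subgroup Q := (cjS c Vb).comap ρ ⊓ N with hAdef
  have hA : EA A := fun a ha => congrArg Subtype.val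
    (mo21.{u}.sq ex (y := ⟨a, ha.2⟩) (eV.cjS c _ ha.1))
  have h1 : z ∈ normalizer (A : Set Q) := mem_normalizer_fintype fun a ha =>
    ⟨mem_comap.mpr (mem_cjS.mpr (by
      simpa [mul_assoc] using um.conj_mem hc (mem_cjS.mp (mem_comap.mp ha.1)))), h.nor z a ha.2⟩
  have kk : ∀ B : Subgroup Q, B ≤ N → Nat.card (ρ.ker ⊓ B : Subgroup Q) ≤ 2 := fun B hB => by
    rw [← Set.ncard_pair h.ne.symm]
    exact Set.ncard_le_ncard (s := ((ρ.ker ⊓ B : Subgroup Q) : Set Q))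
      fun a ha => (h.ker a (hB ha.2)).mp ha.1
  have cA : 1024 ≤ Nat.card A := by
    have e1 : A.map ρ = cjS c Vb := by
      refine le_antisymm (map_le_iff_le_comap.mpr inf_le_left) fun x hx => ?_
      have : x ∈ N.map ρ := by
        rw [h.rng]
        simpa [mul_assoc] using grp_conj ca (vg (mem_cjS.mp hx))
      obtain ⟨a, ha, rfl⟩ := this
      exact ⟨a, ⟨hx, ha⟩, rfl⟩
    have e2 : 2 ≤ Nat.card (ρ.ker ⊓ A : Subgroup Q) := by
      rw [← Set.ncard_pair h.ne.symm]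
      refine Set.ncard_le_ncard (t := ((ρ.ker ⊓ A : Subgroup Q) : Set Q)) ?_
      rintro a (rfl | rfl)
      · exact one_mem _
      · exact ⟨rd, mem_comap.mpr (rd ▸ one_mem _), h.dN⟩
    rw [card_eq_map_mul ρ, e1, card_cjS, cV]
    omega
  have cC : Nat.card (A ⊓ centralizer {z} : Subgroup Q) ≤ 128 := by
    have h3 : c⁻¹ * ρ z * c ∉ L21.F.grp := fun e => hy (by simpa [mul_assoc] using grp_conj ca e)
    obtain ⟨e1, -⟩ := U.cen _ hc h3 (by
      rw [show c⁻¹ * ρ z * c * (c⁻¹ * ρ z * c) = c⁻¹ * (ρ z * ρ z) * c by group, rz]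
      simp)
    have e2 : (A ⊓ centralizer {z}).map ρ ≤ cjS c (Vb ⊓ centralizer {c⁻¹ * ρ z * c}) := by
      rintro _ ⟨a, ⟨ha, hz⟩, rfl⟩
      refine mem_cjS.mpr ⟨mem_cjS.mp ha.1, mem_centralizer_singleton_iff.mpr ?_⟩
      have := congrArg ρ (mem_centralizer_singleton_iff.mp hz)
      rw [map_mul, map_mul] at this
      calc _ = c⁻¹ * (ρ a * ρ z) * c := by group
        _ = _ := by rw [this]; group
    have e3 := card_le_of_le e2
    rw [card_cjS] at e3
    rw [card_eq_map_mul ρ]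
    exact Nat.mul_le_mul (e3.trans e1) (kk _ (inf_le_left.trans inf_le_right))
  have h5 := card_cm hA h1
  have h5' : 2 < Nat.card (cm hA h1).range := by
    by_contra hn
    have := Nat.mul_le_mul cC (not_lt.mp hn)
    omega
  have iz : z⁻¹ = z := inv_eq_of_mul_eq_one_left h4
  have k : ∀ a ∈ A, z * (a * (z * a * z⁻¹)) = a * z * a⁻¹ := fun a ha => by
    rw [hA.comm ha (norm_mem h1 ha), inv_eq_of_mul_eq_one_left (hA a ha), iz, ← mul_assoc,
      ← mul_assoc, ← mul_assoc, h4, one_mul]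
  have h6 : ∀ w : (cm hA h1).range, ∃ v, ι v = g⁻¹ * ι w * g ∧
      ∃ g', g' * ι d * g'⁻¹ = ι (d * v) := by
    rintro ⟨_, a, rfl⟩
    have c1 : Commute z (a * (z * a * z⁻¹)) := by
      rw [Commute, SemiconjBy, k a a.2, inv_eq_of_mul_eq_one_left (hA a a.2)]; group
    obtain ⟨v, hv⟩ := h.cen (g⁻¹ * ι (a * (z * a * z⁻¹)) * g) (by
      simpa [mul_assoc, ← hg] using (c1.map ι).map (MulAut.conj g⁻¹))
    refine ⟨v, hv, g⁻¹ * ι a * g, ?_⟩
    calc _ = g⁻¹ * (ι a * (g * ι d * g⁻¹) * (ι a)⁻¹) * g := by group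
      _ = g⁻¹ * ι (a * z * (a : Q)⁻¹) * g := by rw [hg]; simp only [map_mul, map_inv]
      _ = _ := by rw [← k a a.2, map_mul, map_mul ι d, hv, ← hg]; group
  choose v v1 v2 using h6
  have vi : Function.Injective v := fun a b e => Subtype.ext (h.inj
    (mul_left_cancel (mul_right_cancel ((v1 a).symm.trans (e ▸ v1 b)))))
  by_contra h7
  have h8 : ∀ w, ρ (v w) ∈ L21.F.grp → v w = 1 := fun w hw => by
    by_contra hne
    obtain ⟨g', hg'⟩ := v2 w
    exact h7 ⟨g', _, hg', fun e => hne (by simpa using e), by rwa [map_mul, rd, one_mul]⟩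
  have vm : ∀ a b, v (a * b) = v a * v b := fun a b =>
    h.inj (by rw [map_mul, v1, v1, v1, coe_mul, map_mul]; group)
  have v0 : v 1 = 1 := mul_left_cancel (a := v 1) (by rw [← vm, mul_one, mul_one])
  have := Fintype.ofFinite (cm hA h1).range
  obtain ⟨a, b, c', n1, n2, n3⟩ := Fintype.two_lt_card_iff.mp
    (show 2 < Fintype.card (cm hA h1).range by rw [← Nat.card_eq_fintype_card]; exact h5')
  have q : ∀ a b, a ≠ b → (ρ (v a) ∈ L21.F.grp ↔ ρ (v b) ∈ L21.F.grp) → False :=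
    fun a b n e => n (by
      have e0 : v b⁻¹ = (v b)⁻¹ := by
        have := vm b b⁻¹
        rw [mul_inv_cancel, v0] at this
        exact eq_inv_of_mul_eq_one_right this.symm
      have e1 := h8 (a * b⁻¹) (by
        rw [vm, e0]
        by_cases hb : ρ (v b) ∈ L21.F.grp
        · rw [map_mul, map_inv]; exact mul_mem (e.mpr hb) (inv_mem hb)
        · exact two _ _ (mt e.mp hb) (by rwa [map_inv, inv_mem_iff]))
      exact mul_inv_eq_one.mp (vi (e1.trans v0.symm)))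
  have := q a b n1
  have := q a c' n2
  have := q b c' n3
  tauto

end Cfsg.Agent.H58.U6Inn
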